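import Cfsg.Agent.H53.UwDefs

/-! Project UW (S4793), piece RK1: the weights of `CX X` have rank at most one. -/

set_option autoImplicit false
set_option linter.unusedSectionVars false

namespace Cfsg.Agent.H62.UwRk1

open Module Cfsg.Agent.H31 Cfsg.Agent.H53.Uw
open scoped commutatorElement

universe u

section geo
variable {E V : Type u} [Field E] [AddCommGroup V] [Module E V] [FiniteDimensional E V]
  {σ : E →+* E} {B : V →ₛₗ[σ] V →ₗ[E] E}

theorem ap_inv (g : isom B) (v : V) : g.1 (g⁻¹.1 v) = v := apply_inv_apply g.1 v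
theorem inv_ap (g : isom B) (v : V) : g⁻¹.1 (g.1 v) = v := inv_apply_apply g.1 v

theorem eich_mem {X : Submodule E V} {x y : V} (hx : x ∈ X) (hy : y ∈ X) {z : isom B}
    (hz : IsEich B x y 0 z.1) : z ∈ CX B X := mem_CX.2 fun v hv => by
  rw [hz v, hv x hx, hv y hy]; simp

/-- the data -/
structure Dt (B : V →ₛₗ[σ] V →ₗ[E] E) (X : Submodule E V) (u : V) : Prop where
  h : IsHerm B
  ti : TotIso B X
  orth : u ∈ perp B X
  an : B u u ≠ 0

variable {X : Submodule E V} {u : V}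

theorem Dt.ux (d : Dt B X u) {x : V} (hx : x ∈ X) : B u x = 0 := d.h.flip_zero (d.orth x hx)

theorem Dt.mem_perp (d : Dt B X u) {v : V} :
    v ∈ perp B (X ⊔ E ∙ u) ↔ v ∈ perp B X ∧ B u v = 0 := by
  rw [perp_sup, Submodule.mem_inf, mem_perp_span_singleton]

theorem Dt.fixX (d : Dt B X u) {g : isom B} (hg : g ∈ CX B (X ⊔ E ∙ u)) {x : V} (hx : x ∈ X) :
    g.1 x = x :=
  hg x (d.mem_perp.2 ⟨totIso_iff_le_perp.1 d.ti hx, d.ux hx⟩)

/-- the Heisenberg group -/
def QQ (d : Dt B X u) : Subgroup (isom B) where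
  carrier := {g | g ∈ CX B (X ⊔ E ∙ u) ∧ g.1 u - u ∈ X}
  mul_mem' {a b} ha hb := ⟨mul_mem ha.1 hb.1, by
    have e : (a * b).1 u - u = (a.1 u - u) + (b.1 u - u) := by
      rw [mul_ap, ← d.fixX ha.1 hb.2, map_sub]; abel
    rw [e]; exact X.add_mem ha.2 hb.2⟩
  one_mem' := ⟨one_mem _, by
    change u - u ∈ X
    rw [sub_self]; exact X.zero_mem⟩
  inv_mem' {a} ha := ⟨inv_mem ha.1, by
    have e := d.fixX (inv_mem ha.1) ha.2
    rw [map_sub, inv_ap] at e
    rw [← neg_sub, e]; exact X.neg_mem ha.2⟩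

theorem p_mul (d : Dt B X u) {a b : isom B} (ha : a ∈ QQ d) (hb : b ∈ QQ d) :
    (a * b).1 u - u = (a.1 u - u) + (b.1 u - u) := by
  rw [mul_ap, ← d.fixX ha.1 hb.2, map_sub]; abel

theorem inv_u (d : Dt B X u) {a : isom B} (ha : a ∈ QQ d) : a⁻¹.1 u = u - (a.1 u - u) := by
  have e := d.fixX (inv_mem ha.1) ha.2
  rw [map_sub, inv_ap] at e
  rw [← e]; abel

theorem form (d : Dt B X u) {k : isom B} (hk : k ∈ QQ d) (v : V) :
    ∃ x ∈ X, k.1 v = v + x - (B (k.1 u - u) v / B u u) • u := by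
  obtain ⟨x, hx, w, hw, e⟩ := Submodule.mem_sup.1 (sub_mem_of_CX d.h hk.1 v)
  obtain ⟨a, rfl⟩ := Submodule.mem_span_singleton.1 hw
  have e1 : k.1 v = v + x + a • u := by rw [add_assoc, e]; abel
  obtain ⟨p, hp, e2⟩ : ∃ p ∈ X, k.1 u = u + p := ⟨_, hk.2, by abel⟩
  have e3 := mem_isom.1 k.2 u v
  rw [e1, e2, add_left, map_add, map_add, map_add, map_add, smul_right, smul_right, d.ux hx,
    d.ti p hp x hx, d.orth p hp] at e3
  refine ⟨x, hx, ?_⟩
  have e4 : a = -(B p v / B u u) := by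
    have := d.an
    field_simp
    linear_combination e3
  rw [e1, e2, add_sub_cancel_left, e4, neg_smul, sub_eq_add_neg]

theorem two (d : Dt B X u) {g k : isom B} (hg : g ∈ QQ d) (hk : k ∈ QQ d) (v : V) :
    g.1 (k.1 v) = g.1 v + k.1 v - v - (B (k.1 u - u) v / B u u) • (g.1 u - u) := by
  obtain ⟨x, hx, e⟩ := form d hk v
  generalize B (k.1 u - u) v / B u u = a at e ⊢
  rw [e, map_sub, map_add, map_smul, d.fixX hg.1 hx]
  module

theorem comm (d : Dt B X u) {g k : isom B} (hg : g ∈ QQ d) (hk : k ∈ QQ d) :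
    IsEich B (g.1 u - u) ((B u u)⁻¹ • (k.1 u - u)) 0 (⁅g, k⁆ : isom B).1 := by
  intro v
  obtain ⟨w, rfl⟩ : ∃ w, v = k.1 (g.1 w) := ⟨g⁻¹.1 (k⁻¹.1 v), by rw [ap_inv, ap_inv]⟩
  have e : ∀ x ∈ X, B x (k.1 (g.1 w)) = B x w := fun x hx => by
    conv_lhs => rw [← d.fixX hg.1 hx, ← d.fixX hk.1 (x := g.1 x) (by rwa [d.fixX hg.1 hx])]
    rw [mem_isom.1 k.2, mem_isom.1 g.2]
  have e0 : (⁅g, k⁆ : isom B).1 (k.1 (g.1 w)) = g.1 (k.1 w) := by
    rw [commutatorElement_def, mul_ap, mul_ap, mul_ap, inv_ap, inv_ap]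
  rw [e0, smul_left, e _ hg.2, e _ hk.2, map_inv₀, d.h.norm_fixed, two d hg hk, two d hk hg]
  simp only [div_eq_mul_inv]
  module

theorem ker (d : Dt B X u) {g : isom B} (hg : g ∈ QQ d) (h0 : g.1 u - u = 0) : g ∈ CX B X := by
  refine mem_CX.2 fun v hv => ?_
  have e : v = (v - (B u v / B u u) • u) + (B u v / B u u) • u := by abel
  have h1 : v - (B u v / B u u) • u ∈ perp B (X ⊔ E ∙ u) := d.mem_perp.2
    ⟨Submodule.sub_mem _ hv (Submodule.smul_mem _ _ d.orth), by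
      rw [map_sub, smul_right, div_mul_cancel₀ _ d.an, sub_self]⟩
  rw [e, map_add, map_smul, mem_CX.1 hg.1 _ h1, sub_eq_zero.1 h0]

theorem onto (d : Dt B X u) {x : V} (hx : x ∈ X) : ∃ g ∈ QQ d, g.1 u - u = x := by
  have hN := d.an
  have hN' := d.h.norm_fixed u
  obtain ⟨c, hc⟩ := d.h.inv.exists_trace_eq
    (a := -B ((-(B u u)⁻¹) • u) ((-(B u u)⁻¹) • u)) (by rw [map_neg, d.h.norm_fixed])
  obtain ⟨g, hg, he⟩ := d.h.toIsHermSymm.exists_isEich (e := x) (w := (-(B u u)⁻¹) • u) (c := c)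
    (d.ti x hx x hx) (by rw [smul_right, d.orth x hx, mul_zero]) (by rw [hc, neg_add_cancel])
  have e : g u - u = x := by
    rw [he u, d.orth x hx, smul_left, map_neg, map_inv₀, hN', neg_mul, inv_mul_cancel₀ hN]
    module
  refine ⟨⟨g, sisom_le_isom hg.1⟩, ⟨fun v hv => ?_, by rw [e]; exact hx⟩, e⟩
  obtain ⟨h1, h2⟩ := d.mem_perp.1 hv
  change g v = v
  rw [he v, h1 x hx, smul_left, h2]
  simp

theorem z_le (d : Dt B X u) : CX B X ≤ QQ d := fun z hz =>
  ⟨CX_mono le_sup_left hz, by rw [mem_CX.1 hz u d.orth, sub_self]; exact X.zero_mem⟩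

theorem relIndex (d : Dt B X u) : (CX B X).relIndex (QQ d) = Nat.card X := by
  let f : QQ d →* Multiplicative X := MonoidHom.mk'
    (fun g => Multiplicative.ofAdd ⟨g.1.1 u - u, g.2.2⟩) fun a b => by
      rw [← ofAdd_add]
      exact congrArg _ (Subtype.ext (p_mul d a.2 b.2))
  have hk : f.ker = (CX B X).subgroupOf (QQ d) := by
    ext g
    rw [MonoidHom.mem_ker, Subgroup.mem_subgroupOf]
    constructor
    · intro h
      exact ker d g.2 (congrArg (fun t : Multiplicative X => ((Multiplicative.toAdd t : X) : V)) h)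
    · intro h
      exact congrArg Multiplicative.ofAdd (Subtype.ext (sub_eq_zero.2 (mem_CX.1 h u d.orth)))
  have hs : f.range = ⊤ := by
    rw [MonoidHom.range_eq_top]
    intro t
    obtain ⟨g, hg, e⟩ := onto d (Multiplicative.toAdd t).2
    exact ⟨⟨g, hg⟩, congrArg Multiplicative.ofAdd (Subtype.ext e)⟩
  rw [Subgroup.relIndex, ← hk, Subgroup.index_ker, hs, Subgroup.card_top]
  rfl

theorem refl_u (d : Dt B X u) {r : isom B} (hr : r ∈ CX B (E ∙ u)) (v : V) :
    ∃ a : E, r.1 v = v + a • u := by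
  obtain ⟨a, ha⟩ := Submodule.mem_span_singleton.1 (sub_mem_of_CX d.h hr v)
  exact ⟨a, by rw [ha]; abel⟩

theorem refl_c (d : Dt B X u) {r : isom B} (hr : r ∈ CX B (E ∙ u)) : ∃ c : E, r.1 u = c • u := by
  obtain ⟨a, ha⟩ := refl_u d hr u
  exact ⟨1 + a, by rw [ha]; module⟩

theorem conj_mem (d : Dt B X u) {r y : isom B} (hr : r ∈ CX B (E ∙ u)) (hy : y ∈ QQ d) :
    r * y * r⁻¹ ∈ QQ d := by
  have hr' : r ∈ CX B (X ⊔ E ∙ u) := CX_mono le_sup_right hr
  refine ⟨mul_mem (mul_mem hr' hy.1) (inv_mem hr'), ?_⟩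
  obtain ⟨c, hc⟩ := refl_c d (inv_mem hr)
  have e1 : r.1 (c • u) = u := by rw [← hc, ap_inv]
  have e2 : y.1 (c • u) = c • u + c • (y.1 u - u) := by rw [map_smul]; module
  rw [mul_ap, mul_ap, hc, e2, map_add, e1, d.fixX hr' (X.smul_mem c hy.2), add_sub_cancel_left]
  exact X.smul_mem c hy.2

theorem z_comm (d : Dt B X u) {z y : isom B} (hz : z ∈ CX B X) (hy : y ∈ QQ d) :
    z * y = y * z := isom_ext fun v => by
  rw [mul_ap, mul_ap, two d (z_le d hz) hy, two d hy (z_le d hz), mem_CX.1 hz u d.orth, sub_self, zero_left]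
  module

theorem z_comm_r (d : Dt B X u) {z r : isom B} (hz : z ∈ CX B X) (hr : r ∈ CX B (E ∙ u)) :
    z * r = r * z := isom_ext fun v => by
  obtain ⟨a, ha⟩ := refl_u d hr v
  obtain ⟨x, hx, e⟩ : ∃ x ∈ X, z.1 v = v + x := ⟨_, sub_mem_of_CX d.h hz v, by abel⟩
  rw [mul_ap, mul_ap, ha, e, map_add, map_add, map_smul, mem_CX.1 hz u d.orth, e, ha,
    d.fixX (CX_mono le_sup_right hr) hx]
  abel

theorem fpf (d : Dt B X u) {r y : isom B} (hr : r ∈ CX B (E ∙ u)) (h1 : r ≠ 1) (hy : y ∈ QQ d)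
    (hc : ⁅y, r⁆ ∈ CX B X) : y ∈ CX B X := by
  have hr' : r ∈ CX B (X ⊔ E ∙ u) := CX_mono le_sup_right hr
  obtain ⟨c, hc'⟩ := refl_c d (inv_mem hr)
  have e1 : r.1 (c • u) = u := by rw [← hc', ap_inv]
  have hc1 : 1 - c ≠ 0 := fun h => h1 (isom_ext fun v => by
    have e0 : c = 1 := (sub_eq_zero.1 h).symm
    rw [e0, one_smul] at e1
    have e : v = (v - (B u v / B u u) • u) + (B u v / B u u) • u := by abel
    have h2 : B u (v - (B u v / B u u) • u) = 0 := by
      rw [map_sub, smul_right, div_mul_cancel₀ _ d.an, sub_self]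
    change r.1 v = v
    rw [e, map_add, map_smul, mem_CX_span.1 hr _ h2, e1])
  have e := mem_CX.1 hc u d.orth
  rw [commutatorElement_def, mul_ap, mul_ap, mul_ap, hc', map_smul, inv_u d hy, smul_sub, map_sub,
    e1, d.fixX hr' (X.smul_mem c hy.2), map_sub, d.fixX hy.1 (X.smul_mem c hy.2)] at e
  refine ker d hy ((smul_eq_zero.1 ?_).resolve_left hc1)
  rw [sub_smul, one_smul, sub_sub, add_comm, ← sub_sub, e, sub_self]

end geo

section main
variable {E V : Type u} [Field E] [Fintype E] [AddCommGroup V] [Module E V] [Finite V]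
  {σ : E →+* E} {B : V →ₛₗ[σ] V →ₗ[E] E} {q : ℕ}
  {M : Type} [AddCommGroup M] [Module ℂ M] [FiniteDimensional ℂ M]

theorem bound (heis : HeisStmt.{u}) (kit : KitStmt.{u}) (hS : St B q)
    {ρ : Representation ℂ (isom B) M} (hR : RNF B ρ) {X : Submodule E V} {u : V} (d : Dt B X u)
    {l : isom B → ℂ} (hW : Wt ρ (CX B X) l ≠ ⊥)
    (hn : ∀ x ∈ X, x ≠ 0 → ∃ x' ∈ X, ∀ z : isom B, IsEich B x x' 0 z.1 → l z ≠ 1) :
    Nat.card X ≤ q ^ 2 := by
  have key := heis (isom B) M ρ (QQ d) (CX B (E ∙ u)) (CX B X) l (z_le d)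
    (fun r hr y hy => conj_mem d hr hy) (fun z hz y hy => z_comm d hz hy)
    (fun z hz r hr => z_comm_r d hz hr)
    (fun y hy y' hy' => eich_mem hy.2 (X.smul_mem _ hy'.2) (comm d hy hy')) hW
    (fun y hy hy' => by
      obtain ⟨x', hx', h1⟩ := hn _ hy.2 fun h => hy' (ker d hy h)
      obtain ⟨k, hk, e⟩ := onto d (X.smul_mem (B u u) hx')
      refine ⟨k, hk, h1 _ ?_⟩
      have := comm d hy hk
      rwa [e, smul_smul, inv_mul_cancel₀ d.an, one_smul] at this)
    (fun r hr h1 y hy hc => fpf d hr h1 hy hc) (hR u d.an)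
  rwa [relIndex d, (kit E V σ B q hS).2.2.1 u d.an, Nat.add_sub_cancel] at key

theorem exists_u (hS : St B q) (hodd : Odd (finrank E V)) {X : Submodule E V} (hX : TotIso B X) :
    ∃ u ∈ perp B X, B u u ≠ 0 := by
  by_contra hc
  push Not at hc
  have h1 : perp B X ≤ X := by
    conv_rhs => rw [← hS.herm.perp_perp X]
    exact fun v hv w hw => hS.herm.eq_zero_of_norm_zero hc hw hv
  have h2 := hS.herm.finrank_add_finrank_perp X
  rw [le_antisymm h1 (totIso_iff_le_perp.1 hX)] at h2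
  obtain ⟨m, hm⟩ := hodd
  omega

end main

theorem rk1 (heis : HeisStmt.{u}) (gen : GenStmt.{u}) (form : FormStmt.{u}) (kit : KitStmt.{u}) :
    Rk1Stmt.{u} := by
  intro E V _ _ _ _ _ σ B q hS hodd M _ _ _ ρ ψ X l hR hψ hX hW
  obtain ⟨v, hv, hv0⟩ := Submodule.exists_mem_ne_zero_of_ne_bot hW
  have hl1 : l 1 = 1 := by
    have := hv 1 (one_mem _)
    rw [map_one, Module.End.one_apply] at this
    exact smul_left_injective ℂ hv0 (this.symm.trans (one_smul ℂ v).symm)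
  have hlm : ∀ z ∈ CX B X, ∀ z' ∈ CX B X, l (z * z') = l z * l z' := fun z hz z' hz' => by
    have := hv _ (mul_mem hz hz')
    rw [map_mul, Module.End.mul_apply, hv z' hz', map_smul, hv z hz, smul_smul, mul_comm] at this
    exact smul_left_injective ℂ hv0 this.symm
  obtain ⟨β, hβ, h1, h2, h3, -⟩ := form E V σ B q hS ψ X l hψ hX hl1 hlm
  obtain ⟨-, g2, g3⟩ := gen E V σ B q hS X hX
  by_cases hb : ∀ x, β x x = 0
  · have : β = 0 := by
      ext x y
      exact hβ.eq_zero_of_norm_zero (W := ⊤) (fun x _ => hb x) trivial trivial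
    exact ⟨0, fun z hz => by rw [h2 this z hz, zero_left, AddChar.map_zero_eq_one]⟩
  push Not at hb
  obtain ⟨x₀, hx₀⟩ := hb
  have hw : ∀ w, β x₀ w = 0 → β w w = 0 := fun w hw => by
    by_contra hww
    have hg : β x₀ x₀ * β w w - β x₀ w * β w x₀ ≠ 0 := by
      rw [hw, zero_mul, sub_zero]; exact mul_ne_zero hx₀ hww
    obtain ⟨u, hu, hu'⟩ := exists_u hS hodd hX
    have hle : (Submodule.span E {x₀, w}).map X.subtype ≤ X := Submodule.map_subtype_le _ _
    have d : Dt B ((Submodule.span E {x₀, w}).map X.subtype) u :=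
      ⟨hS.herm, fun x hx y hy => hX x (hle hx) y (hle hy), perp_anti hle hu, hu'⟩
    have hb := bound heis kit hS hR d (l := l)
      (fun h => hv0 ((Submodule.eq_bot_iff _).1 h v fun a ha => hv a (CX_mono hle ha))) (by
        rintro _ ⟨x, hx, rfl⟩ hx0
        have : ∃ y ∈ Submodule.span E {x₀, w}, β x y ≠ 0 := by
          by_contra hc
          push Not at hc
          exact hx0 (by rw [hβ.nondegOn_span_pair hg x hx hc, map_zero])
        obtain ⟨y, hy, hy'⟩ := this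
        obtain ⟨c, hc⟩ := h3 x y hy'
        exact ⟨_, ⟨c • y, Submodule.smul_mem _ c hy, rfl⟩, fun z hz => by
          rw [h1 x (c • y) z hz]; exact hc⟩)
    rw [card_submodule hS.card, Submodule.finrank_map_subtype_eq, finrank_span_pair_of_gram hg] at hb
    have hq := two_le_of_card_sq hS.card
    have := (Nat.pow_le_pow_iff_right (by omega)).1 hb
    omega
  obtain ⟨c, hc⟩ := hβ.inv.exists_norm_eq (a := (β x₀ x₀)⁻¹) (by rw [map_inv₀, hβ.norm_fixed])
  obtain ⟨y, hy⟩ := hS.herm.exists_rep_on X (c • β x₀)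
  have hrk : ∀ x x' : X, β x x' = B x y * B y x' := fun x x' => by
    have hk : ∀ t : X, t - (β x₀ t / β x₀ x₀) • x₀ ∈ LinearMap.ker (β x₀) := fun t => by
      rw [LinearMap.mem_ker, map_sub, smul_right, div_mul_cancel₀ _ hx₀, sub_self]
    have e := hβ.eq_zero_of_norm_zero (W := LinearMap.ker (β x₀)) (fun t ht => hw t ht) (hk x) (hk x')
    rw [sub_left, smul_left, LinearMap.mem_ker.1 (hk x'), mul_zero, sub_zero, map_sub,
      smul_right] at e
    rw [← hS.herm.symm y x, hy, hy, LinearMap.smul_apply, LinearMap.smul_apply, smul_eq_mul,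
      smul_eq_mul, map_mul, hβ.symm, sub_eq_zero.1 e, div_eq_mul_inv, ← hc]
    ring
  let K : Subgroup (isom B) :=
    { carrier := {z | z ∈ CX B X ∧ l z = ψ (B y (z.1 y - y))}
      mul_mem' := fun {a b} ha hb => ⟨mul_mem ha.1 hb.1, by
        rw [hlm a ha.1 b hb.1, g2 a ha.1 b hb.1, map_add, AddChar.map_add_eq_mul, ha.2, hb.2]⟩
      one_mem' := ⟨one_mem _, by
        change l 1 = ψ (B y (y - y))
        rw [hl1, sub_self, map_zero, AddChar.map_zero_eq_one]⟩
      inv_mem' := fun {a} ha => ⟨inv_mem ha.1, by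
        have e1 := hlm _ (inv_mem ha.1) a ha.1
        have e2 := g2 _ (inv_mem ha.1) a ha.1 y
        rw [inv_mul_cancel] at e1 e2
        rw [hl1] at e1
        have e3 : ψ (B y (a⁻¹.1 y - y)) * l a = 1 := by
          rw [ha.2, ← AddChar.map_add_eq_mul, ← map_add, ← e2]
          change ψ (B y (y - y)) = 1
          rw [sub_self, map_zero, AddChar.map_zero_eq_one]
        exact mul_right_cancel₀ (right_ne_zero_of_mul_eq_one e3) (e1.symm.trans e3.symm)⟩ }
  refine ⟨y, fun z hz => (g3 K (fun x hx x' hx' z hz => ⟨eich_mem hx hx' hz, ?_⟩) hz).2⟩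
  rw [h1 ⟨x, hx⟩ ⟨x', hx'⟩ z hz, hrk, hrk, hz y]
  congr 1
  simp only [map_sub, map_add, map_smul, smul_eq_mul]
  ring

end Cfsg.Agent.H62.UwRk1
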