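import Mathlib

set_option autoImplicit false

namespace Cfsg.Agent.H62

/-- Over a prime field of odd order, a permutation that agrees on every triple of points with an
affine map is affine. -/
theorem affine_of_three_approx {p : ℕ} [Fact p.Prime] (hp : p ≠ 2) {V : Type*} [AddCommGroup V]
    [Module (ZMod p) V] (σ : Equiv.Perm V)
    (h : ∀ t : Fin 3 → V, ∃ (A : V ≃ₗ[ZMod p] V) (b : V), ∀ i, σ (t i) = A (t i) + b) :
    ∃ (A : V ≃ₗ[ZMod p] V) (b : V), ∀ x, σ x = A x + b := by
  have h2 : (2 : ZMod p) ≠ 0 := by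
    intro h2
    have : ((2 : ℕ) : ZMod p) = 0 := by exact_mod_cast h2
    rw [ZMod.natCast_eq_zero_iff] at this
    exact hp ((Nat.prime_dvd_prime_iff_eq Fact.out Nat.prime_two).1 this)
  have key : ∀ (x y : V) (c : ZMod p), σ (x + c • (y - x)) = σ x + c • (σ y - σ x) := by
    intro x y c
    obtain ⟨A, b, hA⟩ := h ![x, y, x + c • (y - x)]
    have e0 : σ x = A x + b := hA 0
    have e1 : σ y = A y + b := hA 1
    have e2 : σ (x + c • (y - x)) = A (x + c • (y - x)) + b := hA 2
    rw [e2, e0, e1, map_add, map_smul, map_sub]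
    module
  have hsmul : ∀ (c : ZMod p) (y : V), σ (c • y) - σ 0 = c • (σ y - σ 0) := by
    intro c y
    have := key 0 y c
    rw [sub_zero, zero_add] at this
    rw [this]; module
  have hadd : ∀ x y : V, σ (x + y) - σ 0 = (σ x - σ 0) + (σ y - σ 0) := by
    intro x y
    have e1 := key x y 2⁻¹
    have e2 := hsmul 2 (x + (2⁻¹ : ZMod p) • (y - x))
    have e3 : (2 : ZMod p) • (x + (2⁻¹ : ZMod p) • (y - x)) = x + y := by
      rw [smul_add, smul_smul, mul_inv_cancel₀ h2]; module
    rw [e3, e1, smul_sub, smul_add, smul_smul, mul_inv_cancel₀ h2] at e2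
    rw [e2]; module
  let L : V →ₗ[ZMod p] V :=
    { toFun := fun x => σ x - σ 0
      map_add' := hadd
      map_smul' := hsmul }
  have hL : Function.Bijective L := (σ.trans (Equiv.subRight (σ 0))).bijective
  exact ⟨LinearEquiv.ofBijective L hL, σ 0, fun x => by simp [L]⟩

/-- Given a proper subspace `W` of a finite-dimensional space and a unit `c`, there is a linear
automorphism of determinant `c` fixing `W` pointwise. -/
theorem exists_linearEquiv_det_eq_fix {K V : Type*} [Field K] [AddCommGroup V] [Module K V]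
    [FiniteDimensional K V] (W : Submodule K V) (hW : W ≠ ⊤) (c : K) (hc : c ≠ 0) :
    ∃ D : V ≃ₗ[K] V, LinearMap.det (D : V →ₗ[K] V) = c ∧ ∀ w ∈ W, D w = w := by
  obtain ⟨x, hx⟩ : ∃ x : V, x ∉ W := by
    by_contra h
    push Not at h
    exact hW (eq_top_iff.2 fun x _ => h x)
  obtain ⟨f, hf, hf'⟩ := W.exists_dual_map_eq_bot_of_notMem hx inferInstance
  have h1 : 1 + f (((c - 1) / f x) • x) = c := by
    rw [map_smul, smul_eq_mul]; field_simp; ring
  refine ⟨LinearEquiv.dilatransvection (f := f) (v := ((c - 1) / f x) • x)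
    (by rw [h1]; exact hc.isUnit), ?_, ?_⟩
  · rw [LinearEquiv.dilatransvection.coe_toLinearMap, LinearMap.transvection.det, h1]
  · intro w hw
    have : f w = 0 := by
      have : f w ∈ W.map f := ⟨w, hw, rfl⟩
      rwa [hf', Submodule.mem_bot] at this
    rw [LinearEquiv.dilatransvection.apply, this, zero_smul, add_zero]

end Cfsg.Agent.H62
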