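import Cfsg.Agent.H99.C1Defs

/-! The case `J₄ ≤ P` for an essential subgroup `P` not containing `J`. -/

set_option autoImplicit false

namespace Cfsg.Agent.H62.C1K

open Cfsg.Agent.H99.C1 Subgroup
open scoped commutatorElement

theorem cases3 {k : K} (hk : k ≠ 0) (l : K) : l = 0 ∨ l = k ∨ l = k + k := by revert k l; decide

theorem cases3' {k : K} (hk : k ≠ 0) (l : K) : l = 0 ∨ l = k ∨ l = -k := by revert k l; decide

theorem mul_eq0 {a b : K} (ha : a ≠ 0) (h : a * b = 0) : b = 0 := by revert a b; decide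

theorem mem_all {H : Subgroup G} (f : K → G) (h0 : f 0 = 1) (hf : ∀ k, f (k + k) = f k * f k)
    {k : K} (hk : k ≠ 0) (h : f k ∈ H) (l : K) : f l ∈ H := by
  have h2 := hf k ▸ mul_mem h h
  rcases cases3 hk l with rfl | rfl | rfl
  exacts [h0 ▸ one_mem _, h, h2]

theorem kb1 : KB1Stmt := by
  rintro P Q h ⟨d, dQ, ⟨da, db⟩, dJ⟩ h4
  replace da : d.a = 0 := da
  replace db : d.b = 0 := db
  have dc : d.c ≠ 0 := fun e => dJ ⟨da, db, e⟩
  have hI : ∀ i ∈ Q, i ∈ J → i.x = 0 ∧ i.v = 0 ∧ i.t = 0 := fun i hi ⟨e1, e2, e3⟩ => by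
    have e := h.ab i hi d dQ
    have e4 := congrArg G.x e
    have e5 := congrArg G.y e
    have e6 := congrArg G.z e
    simp only [G.mul_x, G.mul_y, G.mul_z, e1, e2, e3, da, db] at e4 e5 e6
    have ht : i.t = 0 := mul_eq0 dc (by linear_combination -e4)
    rw [ht] at e6
    exact ⟨mul_eq0 dc (by linear_combination e6 + d.c * i.x * three),
      mul_eq0 dc (by linear_combination -e5), ht⟩
  have cJ : ∀ j ∈ J, ∀ g, ⁅j, g⁆ ∈ J := fun j hj g => by
    rw [cm, mul_assoc, mul_assoc, ← mul_assoc g]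
    exact mul_mem hj (nJ.conj_mem _ (inv_mem hj) g)
  by_cases hv : xv 1 ∈ P
  · have h5 : ∀ z y x w v, (⟨0, 0, 0, z, y, x, w, v, 0⟩ : G) ∈ P := fun z y x w v => by
      have := mul_mem (h4 (x := ⟨0, 0, 0, z, y, x, w, 0, 0⟩) ⟨⟨rfl, rfl, rfl⟩, rfl, rfl, rfl, rfl⟩)
        (mem_all xv rfl (fun k => by ext <;> simp [xv]) (by decide) hv v)
      convert this using 1
      ext <;> simp [xv]
    have c5 : Nat.card (K × K × K × K × K) ≤ Nat.card Q := h.card ▸
      Nat.card_le_card_of_injective (fun p => (⟨_, h5 p.1 p.2.1 p.2.2.1 p.2.2.2.1 p.2.2.2.2,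
        rfl, rfl, rfl⟩ : (P ⊓ J : Subgroup G))) fun p p' e => by
          have e := G.mk.inj (Subtype.mk.inj e)
          ext <;> tauto
    have qa : ∀ q ∈ Q, q.a = 0 := fun q hq => by
      have := (hI _ (h.bq (xv 1) ⟨rfl, rfl, rfl⟩ hv q hq) (cJ _ ⟨rfl, rfl, rfl⟩ q)).1
      simp only [cm, xv, G.mul_x, G.mul_a, G.mul_c, G.mul_b, G.mul_v, G.mul_t, G.inv_x, G.inv_v,
        G.inv_t, G.inv_a, G.inv_b, G.inv_c] at this
      linear_combination -this
    have inj : Function.Injective fun q : Q => (q.1.b, q.1.c, q.1.z, q.1.y, q.1.w) :=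
      fun q q' e => by
        simp only [Prod.mk.injEq] at e
        obtain ⟨e1, e2, e3, e4, e5⟩ := e
        have a1 := qa _ q.2
        have a2 := qa _ q'.2
        obtain ⟨k1, k2, k3⟩ := hI _ (mul_mem q.2 (inv_mem q'.2))
          ⟨by simp [a1, a2], by simp [e1], by simp [e2, a1, a2]⟩
        simp only [G.mul_x, G.mul_v, G.mul_t, G.inv_x, G.inv_v, G.inv_t, a1, a2, e1, e2] at k1 k2 k3
        refine Subtype.ext (G.ext (a1.trans a2.symm) e1 e2 e3 e4 ?_ e5 ?_ ?_)
        · linear_combination k1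
        · linear_combination k2
        · linear_combination k3
    have sj : ∀ b c z y w, ∃ q ∈ Q, q.b = b ∧ q.c = c ∧ q.z = z ∧ q.y = y ∧ q.w = w :=
      fun b c z y w => by
        obtain ⟨q, hq⟩ := (inj.bijective_of_nat_card_le c5).2 (b, c, z, y, w)
        simp only [Prod.mk.injEq] at hq
        exact ⟨q, q.2, hq⟩
    obtain ⟨d1, m1, b1, c1, -⟩ := sj 1 0 0 0 0
    obtain ⟨d2, m2, b2, c2, -⟩ := sj 0 1 0 0 0
    have a1 := qa _ m1
    have a2 := qa _ m2
    have t1 : d1.t = 0 := by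
      have := congrArg G.w (h.ex _ m1)
      simp only [pow_succ, pow_zero, one_mul, G.mul_w, G.mul_b, b1, G.one_w] at this
      linear_combination -this + (d1.w + 2 * d1.v + 2 * d1.t) * three
    have t2 : d2.t = 0 := by
      have := congrArg G.z (h.ex _ m2)
      simp only [pow_succ, pow_zero, one_mul, G.mul_z, G.mul_a, G.mul_c, a2, b2, c2, G.one_z] at this
      linear_combination -this + (d2.z + 2 * d2.x + 2 * d2.t) * three
    have v2 : d2.v = 0 := by
      have := congrArg G.w (h.ab _ m1 _ m2)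
      simp only [G.mul_w, b1, b2, t2] at this
      linear_combination -this + d2.v * three
    have qs : ∀ q ∈ Q, q.t = 0 ∧ q.x = d2.x * q.c ∧ q.v = d2.x * q.b := fun q hq => by
      have e := h.ab _ hq _ m2
      have e4 := congrArg G.x e
      have e5 := congrArg G.y e
      have e6 := congrArg G.z e
      simp only [G.mul_x, G.mul_y, G.mul_z, qa q hq, a2, b2, c2, t2, v2] at e4 e5 e6
      have ht : q.t = 0 := by linear_combination -e4
      rw [ht] at e6
      exact ⟨ht, by linear_combination e6 + (q.x - q.c * d2.x) * three,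
        by linear_combination -e5⟩
    have hP : P ≤ E3 := fun g hg => by
      have e := (qs _ (h.nm g hg d1 m1)).2.2
      have e' := (qs _ m1).2.2
      simp only [G.mul_v, G.mul_b, G.inv_v, G.inv_b, G.inv_t, b1, t1] at e e'
      show g.t = 0
      linear_combination e' - e
    have hR : R ≤ P := fun g ⟨ga, gt⟩ => by
      replace ga : g.a = 0 := ga
      replace gt : g.t = 0 := gt
      obtain ⟨q, hq, e1, e2, -⟩ := sj g.b g.c 0 0 0
      refine (mul_mem_cancel_right (inv_mem (h.le hq))).1 ?_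
      convert h5 (g * q⁻¹).z (g * q⁻¹).y (g * q⁻¹).x (g * q⁻¹).w (g * q⁻¹).v using 1
      ext <;> first | rfl | simp [ga, gt, qa q hq, (qs q hq).1, e1, e2]
    by_cases ha : ∃ g ∈ P, g.a ≠ 0
    · obtain ⟨g, hg, ga⟩ := ha
      have gt : g.t = 0 := hP hg
      refine le_antisymm hP fun s (st : s.t = 0) => ?_
      rcases cases3' ga s.a with e | e | e
      · exact hR ⟨e, st⟩
      · exact (mul_mem_cancel_right (inv_mem hg)).1
          (hR ⟨show _ = _ by simp [e], show _ = _ by simp [st, gt]⟩)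
      · exact (mul_mem_cancel_right hg).1 (hR ⟨show _ = _ by simp [e], show _ = _ by simp [st, gt]⟩)
    · push Not at ha
      have eR : P = R := le_antisymm (fun g hg => ⟨ha g hg, hP hg⟩) hR
      haveI : P.Normal := eR ▸ (inferInstance : (E1 ⊓ E3).Normal)
      have k4 := h.k4 (xa 1) (by rw [normalizer_eq_top]; trivial) fun e => by
        exact absurd (ha _ e) (by decide)
      rw [inf_eq_left.2 (show Q ≤ cjs (xa 1) Q from fun q hq => ?_)] at k4
      · have c3 : Nat.card (Q ⊓ J : Subgroup G) ≤ Nat.card (K × K × K) :=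
          Nat.card_le_card_of_injective (fun q => (q.1.z, q.1.y, q.1.w)) fun q q' e => by
            simp only [Prod.mk.injEq] at e
            obtain ⟨k1, k2, k3⟩ := hI _ q.2.1 q.2.2
            obtain ⟨l1, l2, l3⟩ := hI _ q'.2.1 q'.2.2
            exact Subtype.ext (G.ext (q.2.2.1.trans q'.2.2.1.symm) (q.2.2.2.1.trans q'.2.2.2.1.symm)
              (q.2.2.2.2.trans q'.2.2.2.2.symm) e.1 e.2.1 (k1.trans l1.symm) e.2.2 (k2.trans l2.symm)
              (k3.trans l3.symm))
        have := (c5.trans k4).trans c3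
        simp [Nat.card_prod, K] at this
      · rw [mem_cjs]
        obtain ⟨r, hr, e1, e2, e3, e4, e5⟩ := sj ((xa 1)⁻¹ * q * xa 1).b ((xa 1)⁻¹ * q * xa 1).c
          ((xa 1)⁻¹ * q * xa 1).z ((xa 1)⁻¹ * q * xa 1).y ((xa 1)⁻¹ * q * xa 1).w
        obtain ⟨k1, k2, k3⟩ := qs q hq
        obtain ⟨l1, l2, l3⟩ := qs r hr
        convert hr using 1
        refine G.ext ?_ e1.symm e2.symm e3.symm e4.symm ?_ e5.symm ?_ ?_
        · simp [qa q hq, qa r hr]
        · rw [l2, e2]; simp [xa, k1, k2, k3]; ring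
        · rw [l3, e1]; simp [xa, k1, k3]
        · simp [xa, k1, l1]
  · exfalso
    have k3 := h.k3 (xv 1) ⟨rfl, rfl, rfl⟩ hv (fun g _ => h4 ⟨cJ _ ⟨rfl, rfl, rfl⟩ g,
      by simp [cm, xv], by simp [cm, xv], by simp [cm, xv], by simp [cm, xv]⟩) d dQ dJ
    have hy : ∀ k, xy k ∈ Q → k = 0 := fun k hk => by_contra fun e => k3 (by
      convert mem_all xy rfl (fun k => by ext <;> simp [xy]) e hk (-d.c) using 1
      ext <;> simp [cm, xv, xy, da, db] <;> ring)
    have hx : xx 1 ∈ P := h4 ⟨⟨rfl, rfl, rfl⟩, rfl, rfl, rfl, rfl⟩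
    have hw : xw 1 ∈ P := h4 ⟨⟨rfl, rfl, rfl⟩, rfl, rfl, rfl, rfl⟩
    have hz : ∀ k, xz k ∈ Q := mem_all xz rfl (fun k => by ext <;> simp [xz]) dc (by
      convert h.bq (xx 1) ⟨rfl, rfl, rfl⟩ hx d dQ using 1
      ext <;> simp [cm, xx, xz, da, db]
      linear_combination d.c * three)
    have qb : ∀ q ∈ Q, q.b = 0 := fun q hq => neg_eq_zero.1 (hy _ (by
      convert mul_mem (h.bq (xx 1) ⟨rfl, rfl, rfl⟩ hx q hq) (hz (2 * q.c)) using 1
      ext <;> simp [cm, xx, xz, xy] <;> ring))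
    have qa : ∀ q ∈ Q, q.a = 0 := fun q hq => neg_eq_zero.1 (hy _ (by
      convert mul_mem (h.bq (xw 1) ⟨rfl, rfl, rfl⟩ hw q hq) (hz (q.a * q.a)) using 1
      ext <;> simp [cm, xw, xz, xy] <;> ring))
    have c4 : Nat.card (K × K × K × K) ≤ Nat.card Q := h.card ▸
      Nat.card_le_card_of_injective (fun p => (⟨⟨0, 0, 0, p.1, p.2.1, p.2.2.1, p.2.2.2, 0, 0⟩,
        h4 ⟨⟨rfl, rfl, rfl⟩, rfl, rfl, rfl, rfl⟩, rfl, rfl, rfl⟩ : (P ⊓ J : Subgroup G)))
        fun p p' e => by
          have e := G.mk.inj (Subtype.mk.inj e)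
          ext <;> tauto
    have c3 : Nat.card Q ≤ Nat.card (K × K × K) :=
      Nat.card_le_card_of_injective (fun q => (q.1.c, q.1.z, q.1.w)) fun q q' e => by
        simp only [Prod.mk.injEq] at e
        obtain ⟨e1, e2, e3⟩ := e
        have m := mul_mem q.2 (inv_mem q'.2)
        have mJ : q.1 * q'.1⁻¹ ∈ J := ⟨by simp [qa _ q.2, qa _ q'.2], by simp [qb _ q.2, qb _ q'.2],
          by simp [qa _ q.2, qa _ q'.2, e1]⟩
        obtain ⟨k1, k2, k3⟩ := hI _ m mJ
        have e0 : q.1 = q.1 * q'.1⁻¹ * q'.1 := by group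
        generalize q.1 * q'.1⁻¹ = i at *
        obtain ⟨j1, j2, j3⟩ := mJ
        rw [e0] at e2 e3
        simp only [G.mul_z, G.mul_w, j1, j2, j3] at e2 e3
        have e4 : i = xy i.y := G.ext j1 j2 j3 (show _ = 0 by linear_combination e2) rfl k1
          (show _ = 0 by linear_combination e3) k2 k3
        refine Subtype.ext ?_
        rw [e0, e4, hy i.y (e4 ▸ m)]
        exact one_mul _
    have := c4.trans c3
    simp [Nat.card_prod, K] at this

end Cfsg.Agent.H62.C1K
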