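import Cfsg.Agent.H11.CyLa

/-! Project CY, chapter LP, part A: the Sylow `2`-subgroup `⟨k⟩ × T`. -/

set_option autoImplicit false

namespace Cfsg.Agent.H62.CyAe

open Subgroup MulAction Cfsg.Agent.H11.Cy Cfsg.Agent.H11.Cy.Lp
open Cfsg.Agent.H11.EL (Nm Ct Ex)

section
variable {G : Type} [Group G]

theorem mem2 {X : Subgroup G} {w t : G} (hw : w ∈ Nm X) (w2 : w * w = 1)
    (ht : t ∈ X ⊔ zpowers w) : t ∈ X ∨ t * w ∈ X := by
  obtain ⟨n, hn, _, ⟨m, rfl⟩, rfl⟩ := (H83.mem_sup_left_norm (zpowers_le.2 hw)).1 ht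
  rcases Int.even_or_odd' m with ⟨j, rfl | rfl⟩
  · left
    simpa only [zpow_mul, zpow_two, w2, one_zpow, mul_one] using hn
  · right
    simpa only [zpow_add, zpow_mul, zpow_two, w2, one_zpow, one_mul, zpow_one, mul_assoc,
      mul_one] using hn

theorem idx2 {X : Subgroup G} {w : G} (hw : w ∈ Nm X) (w2 : w * w = 1) (hn : w ∉ X) :
    X.relIndex (X ⊔ zpowers w) = 2 := by
  refine index_eq_two_iff.2 ⟨⟨w, mem_sup_right (mem_zpowers w)⟩, fun b => ?_⟩
  have nb : ¬ ((b : G) * w ∈ X ∧ (b : G) ∈ X) := fun h =>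
    hn (by simpa using mul_mem (inv_mem h.2) h.1)
  rcases mem2 hw w2 b.2 with h | h
  · exact Or.inr ⟨h, fun h' => nb ⟨h', h⟩⟩
  · exact Or.inl ⟨h, fun h' => nb ⟨h, h'⟩⟩

theorem card_rel {X Y : Subgroup G} (h : X ≤ Y) : Nat.card X * X.relIndex Y = Nat.card Y := by
  rw [← H83.card_subgroupOf h]
  exact (X.subgroupOf Y).card_mul_index

theorem grow [Finite G] {X Y : Subgroup G} (hY : IsPGroup 2 Y) (h : X ≤ Y) (hne : ¬ Y ≤ X) :
    ∃ g ∈ Y, g ∈ Nm X ∧ g ∉ X := by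
  haveI : Fact (Nat.Prime 2) := ⟨Nat.prime_two⟩
  haveI := hY.isNilpotent
  have := Group.normalizerCondition_of_isNilpotent (G := Y) (X.subgroupOf Y)
    (lt_top_iff_ne_top.2 fun e => hne (subgroupOf_eq_top.1 e))
  obtain ⟨g, h1, h2⟩ := SetLike.exists_of_lt this
  rw [← subgroupOf_normalizer_eq h] at h1
  exact ⟨g, g.2, h1, h2⟩

theorem sq1 {a : G} (h : orderOf a = 2) : a * a = 1 := by rw [← sq, ← h, pow_orderOf_eq_one]

theorem ne1 {a : G} (h : orderOf a = 2) : a ≠ 1 := fun e => by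
  rw [e, orderOf_one] at h; exact absurd h (by norm_num)

variable {Ω : Type} [MulAction G Ω] {p : ℕ} {A : Ω → Subgroup G}

theorem neg_ex [Finite G] (h : St p A) (l : L2 p A) {u v : Ω} (huv : u ≠ v) {c : G}
    (hc : c ∈ Hs G u v) (c2 : c * c = 1) (cK : c ∉ Kl A u v) : Ex c (A u) (-1) := by
  obtain ⟨f, s, lc⟩ := l.lc u v huv
  rcases (l.lt u v huv f s lc).small c hc with e | e | ⟨i, hi, hp⟩
  · exact absurd e cK
  · exact e
  · haveI : Fact p.Prime := ⟨h.pp⟩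
    obtain ⟨a, ha⟩ := exists_prime_orderOf_dvd_card' (G := A u) p (by rw [h.card])
    refine (hp ?_).elim
    have e : (a : G) ^ (i ^ 2 - 1) = 1 := by
      have e1 := hi a a.2
      have e2 : c * (c * a * c⁻¹) * c⁻¹ = a := by
        calc c * (c * a * c⁻¹) * c⁻¹ = (c * c) * a * (c * c)⁻¹ := by group
          _ = a := by rw [c2]; group
      rw [e1, ← conj_zpow, e1, ← zpow_mul] at e2
      rw [zpow_sub, sq, e2, zpow_one, mul_inv_cancel]
    rw [← ha, ← orderOf_coe]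
    exact orderOf_dvd_iff_zpow_eq_one.2 e

theorem pair [Finite G] (h : St p A) (l : L2 p A) {u v : Ω} (huv : u ≠ v) {c d : G}
    (hc : c ∈ Hs G u v) (c2 : c * c = 1) (cK : c ∉ Kl A u v)
    (hd : d ∈ Hs G u v) (d2 : d * d = 1) (dK : d ∉ Kl A u v) : c * d ∈ Kl A u v := by
  refine l.mc.ep.eps u v huv _ (mul_mem hc hd) (mem_centralizer_iff.2 fun a ha => ?_)
  have e1 := neg_ex h l huv hd d2 dK a ha
  have e2 := neg_ex h l huv hc c2 cK a⁻¹ (inv_mem ha)
  rw [zpow_neg_one] at e1 e2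
  calc a * (c * d) = c * a⁻¹ * c⁻¹ * (c * d) := by rw [e2, inv_inv]
    _ = c * (d * a * d⁻¹) * d := by rw [e1]; group
    _ = c * d * a := by group

theorem geo [Finite G] (h : St p A) (l : L2 p A) (h1 : p % 4 = 1) {x y : Ω} (hxy : x ≠ y)
    {τ a b : G} (τN : τ ∈ Nm (Fl A x y)) (τ2 : τ * τ = 1) (τo : τ ∉ Kl A x y ⊔ Fl A x y)
    (aL : a ∈ Fl A x y) (bL : b ∈ Fl A x y) (ao : orderOf a = 2) (bo : orderOf b = 2)
    (ab : a ≠ b) (cab : Commute a b) (ca : Commute τ a) (cb : Commute τ b) : False := by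
  have la := l.la x y hxy
  have ep := l.mc.ep
  have aK : a ∉ Kl A x y := fun e => ne1 ao (la.ctr a aL e)
  have bK : b ∉ Kl A x y := fun e => ne1 bo (la.ctr b bL e)
  obtain ⟨u, hu, au⟩ := (((l.lv x y hxy).par a (le_normalizer aL) (sq1 ao ▸ one_mem _) aK).2 h1).1
    (mem_sup_right aL)
  have nf : τ • u ≠ u := fun e => τo ((((l.lv x y hxy).par τ τN (τ2 ▸ one_mem _)
    fun e' => τo (mem_sup_left e')).2 h1).2 ⟨u, hu, e⟩)
  have hv : τ • u ∈ Ln A x y := (ep.nrm x y hxy τ).1 τN u hu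
  have av : a • τ • u = τ • u := by rw [← mul_smul, ← ca.eq, mul_smul, au]
  have τv : τ • τ • u = u := by rw [← mul_smul, τ2, one_smul]
  have sp : Fl A u (τ • u) = Fl A x y := ep.span x y hxy u hu _ hv nf.symm
  have eK : Kl A u (τ • u) = Kl A x y := by rw [Kl, sp]
  have aH : a ∈ Hs G u (τ • u) := ⟨au, av⟩
  have bv : b • τ • u = τ • b • u := by rw [← mul_smul, ← cb.eq, mul_smul]
  by_cases e1 : b • u = u
  · have := pair h l nf.symm aH (sq1 ao) (eK ▸ aK) ⟨e1, mem_stabilizer_iff.2 (by rw [bv, e1])⟩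
      (sq1 bo) (eK ▸ bK)
    rw [eK] at this
    exact ab (mul_right_cancel ((la.ctr _ (mul_mem aL bL) this).trans (sq1 bo).symm))
  by_cases e2 : b • u = τ • u
  · have hH : τ * b ∈ Hs G u (τ • u) :=
      ⟨mem_stabilizer_iff.2 (by rw [mul_smul, e2, τv]),
        mem_stabilizer_iff.2 (by rw [mul_smul, bv, e2, τv])⟩
    have h2 : τ * b * (τ * b) = 1 := by
      rw [mul_assoc, ← mul_assoc b, ← cb.eq, mul_assoc, sq1 bo, mul_one, τ2]
    by_cases e3 : τ * b ∈ Kl A x y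
    · exact τo (by simpa using mul_mem (mem_sup_left e3) (mem_sup_right (inv_mem bL)))
    · have := pair h l nf.symm hH h2 (eK ▸ e3) aH (sq1 ao) (eK ▸ aK)
      rw [eK] at this
      have h5 := mul_mem (mul_mem (mem_sup_left this) (mem_sup_right (inv_mem aL)))
        (mem_sup_right (inv_mem bL))
      exact τo (by simpa using h5)
  · exact aK (la.three a u hu _ hv _ ((ep.nrm x y hxy b).1 (le_normalizer bL) u hu) nf.symm
      (Ne.symm e2) (Ne.symm e1) au av (by rw [← mul_smul, cab.eq, mul_smul, au]))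

end

theorem ae : AeStmt := by
  intro G _ _ Ω _ _ p A h l h1 ax x y hxy w wN w2 wout k kK ko kw h4
  haveI : Fact (Nat.Prime 2) := ⟨Nat.prime_two⟩
  have la := l.la x y hxy
  obtain ⟨f, s, lc⟩ := l.lc x y hxy
  have lt := l.lt x y hxy f s lc
  have k2 := sq1 ko
  have KY : ∀ t ∈ Fl A x y ⊔ zpowers w, t ∈ Kl A x y → t = 1 := fun t ht tK => by
    rcases mem2 wN w2 ht with e | e
    · exact la.ctr t e tK
    · exact (wout (by simpa using mul_mem (mem_sup_left (inv_mem tK)) (mem_sup_right e))).elim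
  have YM : Fl A x y ⊔ zpowers w ≤ Nm (Fl A x y) := sup_le le_normalizer (zpowers_le.2 wN)
  have Yk : Fl A x y ⊔ zpowers w ≤ centralizer {k} :=
    sup_le (fun t ht => mem_centralizer_singleton_iff.2 (mem_centralizer_iff.1 kK t ht))
      (zpowers_le.2 (mem_centralizer_singleton_iff.2 kw.symm.eq))
  obtain ⟨T, hT⟩ := H83.exists_isSylowIn 2 (Fl A x y ⊔ zpowers w)
  have kT : k ∉ T := fun e => ne1 ko (KY k (hT.le e) kK)
  have kN : k ∈ Nm T := centralizer_le_normalizer _ (mem_centralizer_iff.2 fun t ht =>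
    mem_centralizer_singleton_iff.1 (Yk (hT.le ht)))
  have p0 : IsPGroup 2 (T ⊔ zpowers k : Subgroup G) := by
    rw [sup_comm]
    exact H83.isPGroup_sup (H83.isPGroup_zpowers (k := 1) (by rw [pow_one, sq, k2])) hT.isPGroup
      (zpowers_le.2 kN)
  obtain ⟨S, hS⟩ := p0.exists_le_sylow
  suffices e : (S : Subgroup G) = T ⊔ zpowers k from
    ⟨S, T, hT.le, le_sup_left.trans hS, e ▸ idx2 kN k2 kT, hS (mem_sup_right (mem_zpowers k)), kT⟩
  refine le_antisymm (by_contra fun hne => ?_) hS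
  obtain ⟨g, gS, gN, g0⟩ := grow S.isPGroup' hS hne
  have kM : k ∈ Nm (Fl A x y) := centralizer_le_normalizer _ kK
  have S0M : T ⊔ zpowers k ≤ Nm (Fl A x y) := sup_le (hT.le.trans YM) (zpowers_le.2 kM)
  have gM : g ∉ Nm (Fl A x y) := fun gM => by
    have c0 := card_rel (le_sup_left : T ≤ T ⊔ zpowers k)
    rw [idx2 kN k2 kT] at c0
    have c1 := card_rel (le_sup_left : Fl A x y ≤ Fl A x y ⊔ zpowers w)
    rw [idx2 wN w2 fun e => wout (mem_sup_right e), ← card_rel hT.le] at c1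
    obtain ⟨m, hm⟩ : 2 ∣ Nat.card (Kl A x y) := ko ▸ orderOf_dvd_natCard _ kK
    have mo : ¬ 2 ∣ m := fun ⟨j, hj⟩ => h4 ⟨j, by rw [hm, hj]; ring⟩
    have c2 : Nat.card (Nm (Fl A x y)) =
        Nat.card (T ⊔ zpowers k : Subgroup G) * (T.relIndex (Fl A x y ⊔ zpowers w) * m) := by
      have c3 := la.card
      have c4 : p ^ 2 - 1 = (p + 1) * (2 * orderOf f) := by
        rw [← lc.fo]
        exact Nat.sub_eq_of_eq_add (by ring)
      rw [c4] at c3
      rw [la.cM, lt.e2c fun e => wout (lt.e1M e wN), hm, ← c0]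
      calc (p + 1) * p * (2 * orderOf f * (2 * m)) = p * ((p + 1) * (2 * orderOf f)) * 2 * m := by
            ring
        _ = Nat.card (Fl A x y) * 2 * 2 * m := by rw [← c3]; ring
        _ = _ := by rw [c1]; ring
    obtain ⟨n, hn⟩ := IsPGroup.iff_card.1 (S.isPGroup'.to_inf_left (K := Nm (Fl A x y)))
    have d := card_dvd_of_le (inf_le_right : (S : Subgroup G) ⊓ Nm (Fl A x y) ≤ _)
    rw [c2] at d
    have co : (Nat.card ↥((S : Subgroup G) ⊓ Nm (Fl A x y))).Coprime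
        (T.relIndex (Fl A x y ⊔ zpowers w) * m) := by
      rw [hn]
      exact Nat.Coprime.pow_left _ ((Nat.Prime.coprime_iff_not_dvd Nat.prime_two).2
        (Nat.prime_two.not_dvd_mul hT.not_dvd_relIndex mo))
    have := eq_of_le_of_card_ge (le_inf hS S0M)
      (Nat.le_of_dvd Nat.card_pos (co.dvd_of_dvd_mul_right d))
    exact g0 (this ▸ ⟨gS, gM⟩)
  have k0 : k ∈ T ⊔ zpowers k := mem_sup_right (mem_zpowers k)
  have k1 : g * k * g⁻¹ ∈ T ⊔ zpowers k := (mem_normalizer_iff.1 gN k).1 k0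
  have S0k : T ⊔ zpowers k ≤ centralizer {k} :=
    sup_le (hT.le.trans Yk) (zpowers_le.2 (mem_centralizer_singleton_iff.2 rfl))
  have cz : ∀ t ∈ T ⊔ zpowers k, Commute (g * k * g⁻¹) t := fun t ht => by
    have := mem_centralizer_singleton_iff.1 (S0k ((mem_normalizer_iff''.1 gN t).1 ht))
    calc g * k * g⁻¹ * t = g * (k * (g⁻¹ * t * g)) * g⁻¹ := by group
      _ = t * (g * k * g⁻¹) := by rw [← this]; group
  have ak : Ax A (g * k * g⁻¹) := ax.cj k g ⟨ko, x, y, hxy, kK⟩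
  have ot := ax.out x y hxy _ (S0M k1) ak
  obtain ⟨τ, τT, τ1, τ2, τc, τK⟩ : ∃ τ ∈ T, τ ≠ 1 ∧ τ * τ = 1 ∧ (∀ t ∈ T, Commute τ t) ∧
      (τ ∈ Kl A x y ⊔ Fl A x y → τ ∈ Kl A x y) := by
    rcases mem2 kN k2 k1 with e | e
    · exact ⟨_, e, ne1 ak.1, sq1 ak.1, fun t ht => cz t (mem_sup_left ht), ot⟩
    · refine ⟨_, e, fun e1 => gM (ax.cen x y hxy k kK ko g ?_), ?_, fun t ht => ?_, fun e1 => ?_⟩
      · exact mul_inv_eq_iff_eq_mul.1 (mul_right_cancel (e1.trans k2.symm))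
      · rw [mul_assoc, ← mul_assoc k, ← (cz k k0).eq, mul_assoc _ k k, k2, mul_one, sq1 ak.1]
      · exact (cz t (mem_sup_left ht)).mul_left
          (mem_centralizer_singleton_iff.1 (Yk (hT.le ht))).symm
      · exact mul_mem (ot (by simpa using mul_mem e1 (mem_sup_left (inv_mem kK)))) kK
  obtain ⟨z, zL, zo, zs, sz⟩ := (l.lv x y hxy).four s lc.sL lc.so
  have pz : IsPGroup 2 (zpowers s ⊔ zpowers z : Subgroup G) :=
    H83.isPGroup_sup (H83.isPGroup_zpowers (k := 1) (by rw [pow_one, sq, sq1 lc.so]))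
      (H83.isPGroup_zpowers (k := 1) (by rw [pow_one, sq, sq1 zo]))
      (zpowers_le.2 (centralizer_le_normalizer _ (mem_centralizer_iff.2 (by
        rintro _ ⟨n, rfl⟩; exact (sz.symm.zpow_left n).eq))))
  obtain ⟨c, hc, hle⟩ := hT.exists_conj_le (sup_le (zpowers_le.2 (mem_sup_left lc.sL))
    (zpowers_le.2 (mem_sup_left zL))) pz
  have mT : ∀ t ∈ zpowers s ⊔ zpowers z, c * t * c⁻¹ ∈ T := fun t ht =>
    hle (H83.mem_cj.2 (by simpa [mul_assoc] using ht))
  have oc : ∀ t : G, orderOf t = 2 → orderOf (c * t * c⁻¹) = 2 := fun t ht =>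
    (orderOf_injective (MulAut.conj c).toMonoidHom (MulAut.conj c).injective t).trans ht
  exact geo h l h1 hxy (YM (hT.le τT)) τ2 (fun e => τ1 (KY τ (hT.le τT) (τK e)))
    ((mem_normalizer_iff.1 (YM hc) s).1 lc.sL) ((mem_normalizer_iff.1 (YM hc) z).1 zL)
    (oc s lc.so) (oc z zo) (fun e => zs (by simpa using e.symm))
    (sz.map (MulAut.conj c)) (τc _ (mT s (mem_sup_left (mem_zpowers s))))
    (τc _ (mT z (mem_sup_right (mem_zpowers z))))

end Cfsg.Agent.H62.CyAe
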