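import Cfsg.Agent.H6.E82Defs

/-! Project E82, piece COCU: torus-equivariant cocycles of the unipotent group of `SL₂(64)`. -/

set_option autoImplicit false

namespace Cfsg.Agent.H62.E82Cocu

open Cfsg.Agent.H6.E82 Finset Polynomial

/-- The exponent of the lowest coordinate. -/
def kk (r : ℕ) : ℕ := (32 * r + 62) % 63 + 1

theorem tab : ∀ r < 64, eps r = 0 → ∃ a < kk r, a ∉ JS r ∧
    (kk r).factorial / (a.factorial * (kk r - a).factorial) % 2 = 1 := by decide +kernel

theorem mem_JS {r j : ℕ} (h : j ∈ JS r) : j ≤ r :=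
  Nat.lt_succ_iff.1 (mem_range.1 (mem_filter.1 h).1)

theorem zero_mem_JS (r : ℕ) : 0 ∈ JS r := mem_filter.2 ⟨mem_range.2 (Nat.succ_pos r), by simp⟩

theorem pow64 (t : F) : t ^ 64 = t := by rw [← card_F, FiniteField.pow_card]

theorem cocu (hM : MonoStmt) (hA : MonaStmt) : CocuStmt := by
  intro p r hr
  obtain ⟨⟨cf, hcf⟩, hS⟩ := hM p
  refine ⟨cf 0, fun δ h1 h2 h3 h4 => ?_⟩
  obtain ⟨c, hc⟩ := ((hS r hr).1 _).1 (h1 1)
  have h0 : δ 0 = 0 := by
    have e := h2 0 0
    have e1 : H82.uu (0 : F) = 1 := by ext i j; fin_cases i <;> fin_cases j <;> simp [H82.uu]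
    rw [add_zero, e1, map_one, Module.End.one_apply] at e
    exact left_eq_add.1 e
  have hsq : ∀ t : F, ∀ ht : t ≠ 0, δ t = reg (H82.hh (t ^ 32) (pow_ne_zero _ ht)) (δ 1) := by
    intro t ht
    rw [← h3, ← pow_mul, mul_one, pow64]
  have c0 : ∀ w : ℕ → K, cf 0 (∑ j ∈ JS r, w j • mono p r j) = w 0 := fun w => by
    rw [map_sum, sum_eq_single_of_mem 0 (zero_mem_JS r) fun j hj hj0 => by
      rw [map_smul, hcf r hr j (mem_JS hj), if_neg hj0.symm, smul_zero]]
    rw [map_smul, hcf r hr 0 (Nat.zero_le r), if_pos rfl, smul_eq_mul, mul_one]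
  have e0 : ∀ t : F, cf 0 (δ t) = c 0 * p.κ t ^ kk r := by
    intro t
    by_cases ht : t = 0
    · rw [ht, h0, map_zero, map_zero, kk, pow_succ, mul_zero, mul_zero]
    · rw [hsq t ht, hc, map_sum, sum_congr rfl fun j hj => by
        rw [map_smul, (hA p r hr j (mem_JS hj)).2.1, smul_smul], c0, ← map_pow, ← map_pow, ← pow_mul]
      congr 2
      have e : t ^ 63 = 1 := mul_right_cancel₀ ht (by rw [← pow_succ, pow64, one_mul])
      rw [pow_eq_pow_mod _ e, pow_eq_pow_mod (kk r) e]
      congr 1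
      unfold kk
      omega
  have e1 : ∀ s : F, cf 0 (reg (H82.uu s) (δ 1)) = ∑ j ∈ JS r, c j * p.κ s ^ j := by
    intro s
    rw [hc, map_sum, map_sum]
    refine sum_congr rfl fun j hj => ?_
    rw [map_smul, map_smul, (hA p r hr j (mem_JS hj)).1, map_sum,
      sum_eq_single_of_mem 0 (zero_mem_JS j) fun i hi hi0 => by
        rw [map_smul, hcf r hr i ((mem_JS hi).trans (mem_JS hj)), if_neg hi0.symm, smul_zero]]
    rw [map_smul, hcf r hr 0 (Nat.zero_le r), if_pos rfl]
    simp
  have hk : kk r ≤ 63 := by unfold kk; omega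
  have hP : C (c 0) * (X + 1) ^ kk r - C (c 0) * X ^ kk r - ∑ j ∈ JS r, C (c j) * X ^ j =
      (0 : K[X]) := by
    refine eq_zero_of_natDegree_lt_card_of_eval_eq_zero _ p.κ.injective (fun s => ?_) ?_
    · have e := congrArg (cf 0) (h2 s 1)
      rw [map_add, e0, e0, e1, map_add, map_one] at e
      simp only [eval_sub, eval_mul, eval_C, eval_pow, eval_add, eval_X, eval_one, eval_finsetSum]
      rw [e]; ring
    · rw [card_F]
      refine Nat.lt_succ_of_le ((natDegree_sub_le _ _).trans (max_le ((natDegree_sub_le _ _).trans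
        (max_le ?_ ?_)) (natDegree_sum_le_of_forall_le _ _ fun j hj => ?_)))
      · refine (natDegree_C_mul_le _ _).trans (natDegree_pow_le.trans ?_)
        rw [← C_1, natDegree_X_add_C, mul_one]; exact hk
      · exact (natDegree_C_mul_X_pow_le _ _).trans hk
      · exact (natDegree_C_mul_X_pow_le _ _).trans (by have := mem_JS hj; omega)
  have hco : ∀ a, c 0 * ((kk r).choose a : K) - (if a = kk r then c 0 else 0) -
      (if a ∈ JS r then c a else 0) = 0 := by
    intro a
    have e := congrArg (coeff · a) hP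
    simp only [coeff_sub, coeff_C_mul_X_pow, finsetSum_coeff, coeff_zero, sum_ite_eq] at e
    rwa [coeff_C_mul, coeff_X_add_one_pow] at e
  have hc0 : c 0 = 0 := by
    rcases h4 with h | h
    · obtain ⟨a, ha, ha', hb⟩ := tab r hr h
      have e := hco a
      rw [← Nat.choose_eq_factorial_div_factorial ha.le] at hb
      rwa [if_neg ha.ne, if_neg ha', sub_zero, sub_zero, CharP.cast_eq_mod K 2, hb,
        Nat.cast_one, mul_one] at e
    · rwa [hc, c0] at h
  have hd : δ 1 = 0 := by
    rw [hc]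
    refine sum_eq_zero fun j hj => ?_
    have e := hco j
    rw [hc0, if_pos hj, zero_mul, ite_self, sub_zero, zero_sub, neg_eq_zero] at e
    rw [e, zero_smul]
  intro t
  by_cases ht : t = 0
  · rw [ht, h0]
  · rw [hsq t ht, hd, map_zero]

end Cfsg.Agent.H62.E82Cocu
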