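import Mathlib
import Cfsg.Agent.H6.E82Defs

/-! The labels of the elements of order `65` of `E₈(2)`. -/

set_option autoImplicit false

namespace Cfsg.Agent.H62.E82L65

open Cfsg.Agent.H6.E82 Equiv Cfsg.Lie H37 H40 H34 H29

theorem red {a b : ℤ} {d : ℕ} (hd : d ∣ 65) (h : (a : ZMod 65) = 2 * b) :
    (a : ZMod d) = (2 : ℕ) * b := by
  have := congrArg (ZMod.castHom hd (ZMod d)) h
  rw [map_mul, map_intCast, map_intCast, map_ofNat] at this
  rw [this, Nat.cast_ofNat]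

theorem up {a : ℤ} {d k : ℕ} (hd : k * d = 65) (h : (a : ZMod d) = 0) :
    (((k : ℤ) * a : ℤ) : ZMod 65) = 0 := by
  rw [ZMod.intCast_zmod_eq_zero_iff_dvd] at h ⊢
  rw [← hd, Nat.cast_mul]
  exact mul_dvd_mul_left _ h

theorem zero5 {f : Rt → ℤ} (hf : IsAdd C8.R f) (h : Rp C8 65 (a65 0 0 0 0) f) (r : Rt) :
    (f r : ZMod 5) = 0 := by
  refine hf.eq_zero (fun j => ?_) r
  have h1 := congrArg (ZMod.castHom (show 5 ∣ 65 by norm_num) (ZMod 5)) (h j)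
  rw [map_natCast, map_intCast] at h1
  rw [← h1]
  have h2 : ∀ j < 8, (((a65 0 0 0 0).getD j 0 : ℕ) : ZMod 5) = 0 := by decide
  exact h2 j j.2

theorem l65 (hS : SsStmt) (hA : L65aStmt) (hB : L65bStmt) : L65Stmt := by
  intro x ζ hx hζ
  obtain ⟨h, f, hl, hc, w, hw, hwf⟩ := hS x 65 ζ (by decide) hζ (hx ▸ pow_orderOf_eq_one x)
  have ho : ∀ k : ℕ, h ^ k = 1 → 65 ∣ k := fun k hk => by
    obtain ⟨c, hc⟩ := isConj_iff.1 hc
    have : ι (x ^ k) = ι 1 := by rw [map_pow, ← hc, conj_pow, hk, map_one, mul_one, mul_inv_cancel]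
    exact hx ▸ orderOf_dvd_of_pow_eq_one (ι_injective this)
  have h13 : ¬ ∀ r, (f r : ZMod 13) = 0 := fun h0 =>
    absurd (ho 5 (((hl.pow 5).eq_one_iff hζ).2 fun r => up (by norm_num) (h0 r))) (by norm_num)
  have h5 : ¬ ∀ r, (f r : ZMod 5) = 0 := fun h0 =>
    absurd (ho 13 (((hl.pow 13).eq_one_iff hζ).2 fun r => up (by norm_num) (h0 r))) (by norm_num)
  obtain ⟨u, hu, hr⟩ := comb8_13 hl.1 hl.1 hw h13 h5 (fun r => red (by norm_num) (hwf r))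
    fun r => red (by norm_num) (hwf r)
  have hf' := hl.1.comp hu
  have hw' := mul_mem (mul_mem (inv_mem hu) hw) hu
  have hwf' : ∀ r, (f (u ((u⁻¹ * w * u) r)) : ZMod 65) = 2 * f (u r) := fun r => by
    simp [hwf]
  obtain ⟨a, ha, b, hb, c, hc', d, hd, h65⟩ := hA _ hf' _ hw' hwf' hr
  rcases hB _ hf' _ hw' hwf' a ha b hb c hc' d hd h65 with ⟨rfl, rfl, rfl, rfl⟩ | ⟨i, hi, v, hv, hp⟩
  · exact absurd (fun r => by simpa using zero5 hf' h65 (u⁻¹ r)) h5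
  · obtain ⟨n, hn, e⟩ := (C8.split K).exists_lift (mul_mem hu hv)
    have h1 := hl.conj hn
    rw [e] at h1
    refine ⟨i, hi, n⁻¹ * h * n, h1.congr hζ (isAdd_vN _ _) fun r => hp.vN_eq (hf'.comp hv) r, ?_⟩
    exact (isConj_iff.2 ⟨n, by group⟩ : IsConj (n⁻¹ * h * n) h).trans hc

end Cfsg.Agent.H62.E82L65
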