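import Cfsg.Agent.H50.E83Defs2
import Cfsg.Agent.H40.Tab

/-!
# Project E83, piece T1A: shortening an involution of the Weyl group inside a subsystem
-/

set_option autoImplicit false

namespace Cfsg.Agent.H62.E83T1a

open Equiv Cfsg.Lie Cfsg.Agent.H37 Cfsg.Agent.H40 Cfsg.Agent.H34 Cfsg.Agent.H50.E83

section general

variable {ι Φ : Type*} [Fintype ι] [DecidableEq ι] {R : RS ι Φ} {Ψ : Φ → Prop}

/-- the positive roots of `Ψ` made negative by `w` -/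
def NN (R : RS ι Φ) (Ψ : Φ → Prop) (w : Perm Φ) : Set Φ := {r | Ψ r ∧ R.Pos r ∧ ¬ R.Pos (w r)}

theorem card_inv (hn : ∀ r, Ψ r → Ψ (R.neg r)) {v : Perm Φ} (hv : v ∈ R.W)
    (h : ∀ r, Ψ (v r) ↔ Ψ r) : (NN R Ψ v⁻¹).ncard = (NN R Ψ v).ncard := by
  have e : NN R Ψ v⁻¹ = (fun r => R.neg (v r)) '' NN R Ψ v := by
    ext r
    constructor
    · rintro ⟨h1, h2, h3⟩
      refine ⟨R.neg (v⁻¹ r), ⟨hn _ ((h _).1 (by simpa using h1)), (R.pos_neg_iff _).2 h3, ?_⟩, ?_⟩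
      · rw [R.W_neg hv, R.not_pos_neg_iff]; simpa using h2
      · simp [R.W_neg hv, R.neg_neg]
    · rintro ⟨s, ⟨h1, h2, h3⟩, rfl⟩
      refine ⟨hn _ ((h _).2 h1), (R.pos_neg_iff _).2 h3, ?_⟩
      rw [R.W_neg (inv_mem hv), R.not_pos_neg_iff]; simpa using h2
  exact e ▸ Set.ncard_image_of_injective _ (R.neg_involutive.injective.comp v.injective)

theorem card_τ [Finite Φ] (hτ : ∀ r s, Ψ r → Ψ s → Ψ (R.τ r s)) {β : Φ} (h1 : Ψ β) (h2 : R.Pos β)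
    (hs : ∀ γ, Ψ γ → R.Pos γ → γ ≠ β → R.Pos (R.τ β γ)) {v : Perm Φ} (hv : v ∈ R.W)
    (h : ¬ R.Pos (v β)) : (NN R Ψ (v * R.τ β)).ncard < (NN R Ψ v).ncard := by
  rw [← Set.ncard_image_of_injective _ (R.τ β).injective]
  refine Set.ncard_lt_ncard ⟨?_, fun k => ?_⟩
  · rintro _ ⟨γ, ⟨k1, k2, k3⟩, rfl⟩
    refine ⟨hτ _ _ h1 k1, hs γ k1 k2 fun e => k3 ?_, k3⟩
    rw [e, Perm.mul_apply, R.τ_self, R.W_neg hv]
    exact (R.pos_neg_iff _).2 h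
  · obtain ⟨γ, ⟨-, k2, -⟩, e⟩ := k (show β ∈ NN R Ψ v from ⟨h1, h2, h⟩)
    rw [← R.τ_τ β γ, e, R.τ_self] at k2
    exact (R.pos_neg_iff _).1 k2 h2

theorem step [Finite Φ] (hp : ∀ r s, s ≠ r → R.pair r s ≤ 1) (hn : ∀ r, Ψ r → Ψ (R.neg r))
    (hτ : ∀ r s, Ψ r → Ψ s → Ψ (R.τ r s)) {w : Perm Φ} (hw : w ∈ R.W) (h2 : w * w = 1)
    (hΨ : ∀ r, Ψ r → Ψ (w r)) (hx : (NN R Ψ w).Nonempty) : ∃ β, Ψ β ∧ R.Pos β ∧
      (w β = R.neg β ∧ (NN R Ψ (R.τ β * w)).ncard < (NN R Ψ w).ncard ∨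
        (NN R Ψ (R.τ β * w * R.τ β)).ncard < (NN R Ψ w).ncard) := by
  obtain ⟨β, ⟨b1, b2, b3⟩, hm⟩ := Set.exists_min_image _ R.ht (Set.toFinite _) hx
  have hs : ∀ γ, Ψ γ → R.Pos γ → γ ≠ β → R.Pos (R.τ β γ) := fun γ g1 g2 g3 => by
    by_contra k
    have k1 := R.rc_τ β γ
    have k2 : R.pair β γ = 1 := le_antisymm (hp β γ g3) (by
      by_contra k2
      refine k fun j => ?_
      have := g2 j
      have := b2 j
      rw [k1]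
      simp only [Pi.zero_apply, Pi.sub_apply, Pi.smul_apply, smul_eq_mul] at *
      nlinarith)
    have k3 : R.rc β = (1 : ℤ) • R.rc γ + (1 : ℤ) • R.rc (R.neg (R.τ β γ)) := by
      rw [R.rc_neg, k1, k2]; simp
    have k4 : R.ht β = R.ht γ + R.ht (R.neg (R.τ β γ)) := by simp [RS.ht, k3]
    have k5 := (R.pos_neg_iff _).2 k
    have k6 := (R.ht_pos_iff _).2 k5
    have k7 := (R.ht_pos_iff _).2 g2
    have p1 : R.Pos (w γ) := by_contra fun e => by have := hm γ ⟨g1, g2, e⟩; omega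
    have p2 : R.Pos (w (R.neg (R.τ β γ))) := by_contra fun e => by
      have := hm _ ⟨hn _ (hτ _ _ b1 g1), k5, e⟩; omega
    refine b3 ?_
    rw [RS.Pos, R.W_rel hw k3, one_smul, one_smul]
    exact add_nonneg p1 p2
  have hw' : ∀ r, Ψ (w r) ↔ Ψ r := fun r =>
    ⟨fun h => by simpa [← Perm.mul_apply, h2] using hΨ _ h, hΨ r⟩
  have hτ' : ∀ r, Ψ (R.τ β r) ↔ Ψ r := fun r =>
    ⟨fun h => by simpa [R.τ_τ] using hτ _ _ b1 h, hτ _ _ b1⟩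
  have k : (NN R Ψ (R.τ β * w)).ncard < (NN R Ψ w).ncard := by
    have := card_inv hn (mul_mem hw (R.τ_mem_W β)) fun r => (hw' _).trans (hτ' r)
    rw [mul_inv_rev, R.τ_inv, inv_eq_of_mul_eq_one_right h2] at this
    exact this ▸ card_τ hτ b1 b2 hs hw b3
  refine ⟨β, b1, b2, (em (w β = R.neg β)).imp (⟨·, k⟩) fun e =>
    (card_τ hτ b1 b2 hs (mul_mem (R.τ_mem_W β) hw) ?_).trans k⟩
  have := hs (R.neg (w β)) (hn _ (hΨ _ b1)) ((R.pos_neg_iff _).2 b3) fun e' => e (R.neg_eq_iff.1 e')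
  rwa [R.W_neg (R.τ_mem_W β), R.pos_neg_iff] at this

end general

theorem tab : ∀ i < 8, ∀ s < 240, (tabOf chevE8).ca i s ≤ 1 ∨ s = (tabOf chevE8).si i := by
  rw [tabOf_eq validE8]; decide +kernel

theorem pair_le (r s : Rt) (h : s ≠ r) : C8.R.pair r s ≤ 1 := by
  obtain ⟨w, hw, i, rfl⟩ := C8.R.exists_W_simple r
  obtain ⟨s, rfl⟩ := w.surjective s
  rw [C8.R.pair_W hw, RS.pair_simple_left, C8.wt_eq]
  exact (tab i i.2 s s.2).resolve_right fun e =>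
    h (congrArg w (Fin.ext (e.trans (C8.simple_val i).symm)))

theorem t1a : T1aStmt := fun _ hn hτ _ hw h2 hΨ hx => step pair_le hn hτ hw h2 hΨ hx

end Cfsg.Agent.H62.E83T1a
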