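import Cfsg.Agent.H11.ElDefs

/-!
# The centraliser of a line has order two
-/

set_option autoImplicit false

namespace Cfsg.Agent.H62.ElN45

open Subgroup Cfsg.Agent.H11.EL

universe u

variable {G : Type u} [Group G]

theorem ct_cj {o k : G} {L : Subgroup G} (hk : k ∈ Ct L) : o * k * o⁻¹ ∈ Ct (cj o L) := by
  intro x hx
  have h1 := hk _ (mem_cj.1 hx)
  calc x * (o * k * o⁻¹) = o * (o⁻¹ * x * o * k) * o⁻¹ := by group
    _ = o * k * o⁻¹ * x := by rw [h1]; group

theorem n45 (b : Base.{u}) : N45Stmt.{u} := by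
  intro G _ _ D A B O t hp hsc hO
  classical
  obtain ⟨htK, ht2, -⟩ := hsc
  have h := hp.ne
  have e1 : Ct (A ⊔ B) ≤ Ct A := centralizer_le (SetLike.coe_subset_coe.2 le_sup_left)
  have e2 : Ct (A ⊔ B) ≤ Ct B := centralizer_le (SetLike.coe_subset_coe.2 le_sup_right)
  have hidx : (O.subgroupOf (Ct A)).index = 2 := by
    have h1 := (O.subgroupOf (Ct A)).index_mul_card
    rw [Nat.card_congr (subgroupOfEquivOfLe hO.ct).toEquiv, ← hO.card] at h1
    exact Nat.eq_of_mul_eq_mul_right Nat.card_pos h1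
  have htO : t ∉ O := by
    intro h1
    have h2 := orderOf_dvd_natCard O h1
    rw [ht2] at h2
    exact (Nat.not_even_iff_odd.2 hO.odd) (even_iff_two_dvd.2 h2)
  have hor : ∀ c ∈ Ct A, c ∈ O ∨ c * t ∈ O := by
    intro c hc
    by_cases h1 : c ∈ O
    · exact Or.inl h1
    · right
      have := (mul_mem_iff_of_index_two hidx (a := ⟨c, hc⟩) (b := ⟨t, e1 htK⟩)).2
        (iff_of_false h1 htO)
      exact this
  by_contra hne
  have hex : ∃ k ∈ Ct (A ⊔ B), k ∈ O ∧ k ≠ 1 := by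
    have h1 : ¬ Ct (A ⊔ B) ≤ zpowers t := fun h1 => hne (le_antisymm h1 (zpowers_le.2 htK))
    obtain ⟨c, hc, hc'⟩ := SetLike.not_le_iff_exists.1 h1
    rcases hor c (e1 hc) with h2 | h2
    · exact ⟨c, hc, h2, fun h3 => hc' (h3 ▸ one_mem _)⟩
    · refine ⟨c * t, mul_mem hc htK, h2, fun h3 => hc' ?_⟩
      rw [eq_inv_of_mul_eq_one_left h3]
      exact inv_mem (mem_zpowers t)
  obtain ⟨k, hkK, hkO, hk1⟩ := hex
  have key : ∀ E ∈ D, E ≠ A → ∃ a, a ∈ A ∧ a * k ≠ 1 ∧ a * k ∈ Ct (A ⊔ E) := by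
    intro E hE hEA
    obtain ⟨c, hc, hcE⟩ := h.ctr A hp.hA B hp.hB E hE hp.AB.symm hEA
    have h1 : ∃ o ∈ O, cj o B = E := by
      rcases hor c hc with h2 | h2
      · exact ⟨c, h2, hcE⟩
      · exact ⟨c * t, h2, by
          rw [cj_mul, cj_eq_iff.2 (centralizer_le_normalizer _ (e2 htK)), hcE]⟩
    obtain ⟨o, ho, hoE⟩ := h1
    have h2 : cj o (A ⊔ B) = A ⊔ E := by
      rw [cj_sup, hoE, cj_eq_iff.2 (centralizer_le_normalizer _ (hO.ct ho))]
    refine ⟨_, hO.ab o ho k hkO, ?_, ?_⟩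
    · rw [inv_mul_cancel_right]
      intro h3
      apply hk1
      calc k = o⁻¹ * (o * k * o⁻¹) * o := by group
        _ = 1 := by rw [h3]; group
    · rw [inv_mul_cancel_right, ← h2]
      exact ct_cj hkK
  choose! f hf using key
  have hs : ∀ E, E ∈ (D \ {A}).toFinite.toFinset ↔ E ∈ D ∧ E ≠ A := by
    intro E; simp
  have hcount := Finset.card_le_mul_card_image_of_maps_to (s := (D \ {A}).toFinite.toFinset)
    (t := (A : Set G).toFinite.toFinset) (f := f)
    (fun E hE => by simpa using (hf E ((hs E).1 hE).1 ((hs E).1 hE).2).1) 11 (fun a _ => by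
      rcases Finset.eq_empty_or_nonempty
        (Finset.filter (fun E => f E = a) (D \ {A}).toFinite.toFinset) with h0 | ⟨E, hE⟩
      · rw [h0]; simp
      rw [Finset.mem_filter, hs] at hE
      have hL := b.la _ (h.lp A hp.hA E hE.1.1 hE.1.2.symm).iso
      have hA : A ∈ Pts (A ⊔ E) := ⟨le_sup_left, h.card A hp.hA⟩
      have h1 : (Pts (A ⊔ E) \ {A}).ncard = 11 := by
        rw [Set.ncard_sdiff_singleton_of_mem hA, hL.npts]
      rw [← h1, ← Set.ncard_coe_finset]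
      apply Set.ncard_le_ncard _ (Set.toFinite _)
      intro E' hE'
      rw [Finset.mem_coe, Finset.mem_filter, hs] at hE'
      have h2 := hf E hE.1.1 hE.1.2
      have h3 := hf E' hE'.1.1 hE'.1.2
      rw [hE.2] at h2
      rw [hE'.2] at h3
      have h4 := h.ti' A hp.hA E hE.1.1 hE.1.2.symm A hp.hA E' hE'.1.1 hE'.1.2.symm _ h2.2.2
        h2.2.1 h3.2.2
      exact ⟨⟨h4 ▸ le_sup_right, h.card E' hE'.1.1⟩, hE'.1.2⟩)
  rw [← Set.ncard_eq_toFinset_card, ← Set.ncard_eq_toFinset_card,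
    Set.ncard_sdiff_singleton_of_mem hp.hA] at hcount
  have h11 : (A : Set G).ncard = 11 := h.card A hp.hA
  rw [h11] at hcount
  have h5 := h.v5
  have h6 := h.v11
  have h7 := h.v12
  have h8 := h.v132
  obtain ⟨m, hm⟩ := h.even
  have h9 : D.ncard = 122 := by omega
  rw [h9] at h8
  norm_num at h8

end Cfsg.Agent.H62.ElN45
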