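import Cfsg.Agent.H11.ElDefs
import Mathlib.GroupTheory.SpecificGroups.Cyclic
import Mathlib.RingTheory.ZMod.UnitsCyclic

/-!
# The centraliser of a member is transitive on the other members
-/

set_option autoImplicit false

namespace Cfsg.Agent.H62.ElNE

open Subgroup Cfsg.Agent.H11.EL

universe u

variable {G : Type u} [Group G]

theorem sup_top [Finite G] (b : Base.{u}) {D : Set (Subgroup G)} (h : NT D) (he : Even D.ncard)
    {A B : Subgroup G} (hA : A ∈ D) (hB : B ∈ D) (hAB : A ≠ B) :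
    (Nm A ⊓ Nm B).subgroupOf (Nm A) ⊔ (Ct A).subgroupOf (Nm A) = ⊤ := by
  haveI : Fact (Nat.Prime 11) := ⟨by norm_num⟩
  haveI : Fact (Nat.Prime 5) := ⟨by norm_num⟩
  have hc := h.card A hA
  haveI : IsCyclic A := isCyclic_of_prime_card hc
  have h10 : Nat.card (MulAut A) = 10 := by
    rw [IsCyclic.card_mulAut, hc]; decide
  obtain ⟨f, s, hf⟩ := b.lc1 A B (h.lp A hA B hB hAB)
  let φ := A.normalizerMonoidHom
  have hker : φ.ker = (Ct A).subgroupOf (Nm A) := A.normalizerMonoidHom_ker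
  let T : Subgroup (Nm A) := (Nm A ⊓ Nm B).subgroupOf (Nm A)
  have hT : T.index = D.ncard - 1 := by
    have h1 := T.index_mul_card
    rw [h.cH A hA B hB hAB, Nat.card_congr (subgroupOfEquivOfLe
      (inf_le_left : Nm A ⊓ Nm B ≤ Nm A)).toEquiv] at h1
    exact Nat.eq_of_mul_eq_mul_right Nat.card_pos h1
  have hf1 : φ ⟨f, hf.fA⟩ ≠ 1 := by
    intro h1
    have h2 : (⟨f, hf.fA⟩ : Nm A) ∈ φ.ker := h1
    rw [hker] at h2
    replace h2 : f ∈ Ct A := h2
    obtain ⟨i, hi, hi'⟩ := hf.big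
    obtain ⟨a, ha⟩ := exists_prime_orderOf_dvd_card' (G := A) 11 (by rw [hc])
    have h3 := hi a a.2
    rw [← h2 a a.2, mul_inv_cancel_right] at h3
    have h4 : (a : G) ^ (i - 1) = 1 := by rw [zpow_sub, ← h3]; simp
    rw [← orderOf_dvd_iff_zpow_eq_one, orderOf_coe, ha] at h4
    apply hi'
    have : i ^ 2 - 1 = (i - 1) * (i + 1) := by ring
    rw [this]
    exact Dvd.dvd.mul_right (by exact_mod_cast h4) _
  have hf5 : orderOf (φ ⟨f, hf.fA⟩) = 5 := by
    apply orderOf_eq_prime _ hf1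
    rw [← map_pow]
    have : (⟨f, hf.fA⟩ : Nm A) ^ 5 = 1 := Subtype.ext (by
      show f ^ 5 = 1
      rw [← hf.fo, pow_orderOf_eq_one])
    rw [this, map_one]
  have h5 : 5 ∣ Nat.card (T.map φ) := by
    rw [← hf5]
    exact orderOf_dvd_natCard _ (mem_map_of_mem φ (show (⟨f, hf.fA⟩ : Nm A) ∈ T from
      ⟨hf.fA, hf.fB⟩))
  have h2 : (T.map φ).index ∣ 2 := by
    have h1 := (T.map φ).index_mul_card
    obtain ⟨k, hk⟩ := h5
    rw [h10, hk] at h1
    exact ⟨k, by linarith⟩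
  rw [index_map] at h2
  have h3 : (T ⊔ φ.ker).index ∣ 2 := (Dvd.intro _ rfl).trans h2
  have h4 : (T ⊔ φ.ker).index ∣ D.ncard - 1 := hT ▸ index_dvd_of_le le_sup_left
  have h12 := h.v12
  rw [← hker, ← index_eq_one]
  rcases (Nat.dvd_prime Nat.prime_two).1 h3 with h6 | h6
  · exact h6
  · rw [h6] at h4
    obtain ⟨k, hk⟩ := he
    omega

theorem ne (b : Base.{u}) : NEStmt.{u} := by
  intro G _ _ D h he
  refine { h with even := he, ctr := ?_, cC := ?_ }
  · intro A hA B hB B' hB' hBA hBA'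
    obtain ⟨g, hg1, hg2⟩ := h.tr2 A hA B hB A hA B' hB' hBA.symm hBA'.symm
    have h1 := sup_top b h he hA hB hBA.symm
    haveI : ((Ct A).subgroupOf (Nm A)).Normal := A.normalizerMonoidHom_ker ▸ MonoidHom.normal_ker _
    have h2 : (⟨g, cj_eq_iff.1 hg1⟩ : Nm A) ∈
        (Ct A).subgroupOf (Nm A) ⊔ (Nm A ⊓ Nm B).subgroupOf (Nm A) := by
      rw [sup_comm, h1]; trivial
    obtain ⟨c, hc, t, ht, hct⟩ := mem_sup_of_normal_left.1 h2
    refine ⟨c, hc, ?_⟩
    have h3 : (c : G) * t = g := congrArg Subtype.val hct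
    rw [← hg2, ← h3, cj_mul, cj_eq_iff.2 (show (t : G) ∈ Nm B from ht.2)]
  · intro A hA B hB hAB
    have h1 := sup_top b h he hA hB hAB
    haveI : ((Ct A).subgroupOf (Nm A)).Normal := A.normalizerMonoidHom_ker ▸ MonoidHom.normal_ker _
    have h2 := relIndex_sup_right ((Nm A ⊓ Nm B).subgroupOf (Nm A)) ((Ct A).subgroupOf (Nm A))
    rw [h1, relIndex_top_right, relIndex_subgroupOf inf_le_left] at h2
    have h3 := ((Ct A).subgroupOf (Nm A)).index_mul_card
    rw [Nat.card_congr (subgroupOfEquivOfLe (centralizer_le_normalizer (A : Set G))).toEquiv,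
      h.cH A hA B hB hAB, h2] at h3
    have h4 := ((Ct A).subgroupOf (Nm A ⊓ Nm B)).index_mul_card
    have h5 : Ct A ⊓ (Nm A ⊓ Nm B) = Ct (A ⊔ B) := by
      apply le_antisymm
      · exact fun g hg => h.cen A hA B hB g hg.1 hg.2.2
      · have e1 : Ct (A ⊔ B) ≤ Ct A := centralizer_le (SetLike.coe_subset_coe.2 le_sup_left)
        have e2 : Ct (A ⊔ B) ≤ Ct B := centralizer_le (SetLike.coe_subset_coe.2 le_sup_right)
        exact le_inf e1 (le_inf (e1.trans (centralizer_le_normalizer _))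
          (e2.trans (centralizer_le_normalizer _)))
    have h6 : Nat.card ((Ct A).subgroupOf (Nm A ⊓ Nm B)) = Nat.card (Ct (A ⊔ B)) := by
      rw [← inf_subgroupOf_right, Nat.card_congr (subgroupOfEquivOfLe inf_le_right).toEquiv, h5]
    rw [h6] at h4
    rw [← h4] at h3
    have h7 : 0 < (Ct A).relIndex (Nm A ⊓ Nm B) := Nat.pos_of_ne_zero index_ne_zero_of_finite
    apply Nat.eq_of_mul_eq_mul_left h7
    rw [h3, relIndex]
    ring

end Cfsg.Agent.H62.ElNE
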