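import Cfsg.Agent.H98.GbH

/-! Project GB: parabolic induction is adjoint to parabolic restriction. -/

set_option autoImplicit false
open Cfsg Finset
open scoped ComplexConjugate MatrixGroups

namespace Cfsg.Agent.H62.GbAdj

open Cfsg.Agent.H98.GB

universe u

theorem mul_conj_lin {G : Type*} [Group G] [Finite G] (l : G →* ℂˣ) (x : G) :
    (l x : ℂ) * conj (l x : ℂ) = 1 := by
  have h1 : (l x : ℂ) ^ orderOf x = 1 := by
    rw [← Units.val_pow_eq_pow_val, ← map_pow, pow_orderOf_eq_one, map_one, Units.val_one]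
  rw [Complex.mul_conj, Complex.normSq_eq_norm_sq,
    Complex.norm_eq_one_of_pow_eq_one h1 (orderOf_pos x).ne']
  simp

theorem key {F : Type u} [Field F] [Fintype F] [DecidableEq F] (η : Fˣ →* ℂˣ) {a b n : ℕ}
    (h : a + b = n) (f : GL (Fin a) F → ℂ) (f' : GL (Fin b) F → ℂ) (χ : GL (Fin n) F → ℂ)
    (hχ : Tw (dl η n) χ) : classInner (cmp η h f f') χ =
      ((Fintype.card (GL (Fin a) F) * Fintype.card (GL (Fin b) F) * Fintype.card F ^ (a * b) : ℕ) :
        ℂ)⁻¹ * ∑ u : GL (Fin a) F, ∑ c : Matrix (Fin a) (Fin b) F, ∑ v : GL (Fin b) F,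
          f u * f' v * conj (χ (tri h u c v)) := by
  classical
  have h1 : ∀ x : GL (Fin n) F, ∀ u c v, ∑ g : GL (Fin n) F,
      (if True ∧ g = x * tri h u c v * x⁻¹ then (dl η n x : ℂ) * f u * f' v else 0) * conj (χ g) =
      f u * f' v * conj (χ (tri h u c v)) := fun x u c v => by
    simp only [true_and, ite_mul, zero_mul, sum_ite_eq', mem_univ, if_true, hχ x, map_mul]
    linear_combination (f u * f' v * conj (χ (tri h u c v))) * mul_conj_lin (dl η n) x
  have h2 : (Nat.card (GL (Fin n) F) : ℂ) ≠ 0 := Nat.cast_ne_zero.2 Nat.card_pos.ne'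
  simp only [classInner, H98.GB.cmp, cmpS, mul_assoc _ _ (conj (χ _)), ← mul_sum]
  simp only [sum_mul]
  rw [sum_comm]
  have h3 : ∀ x : GL (Fin n) F, ∑ g : GL (Fin n) F, ∑ u : GL (Fin a) F,
      ∑ c : Matrix (Fin a) (Fin b) F, ∑ v : GL (Fin b) F,
      (if True ∧ g = x * tri h u c v * x⁻¹ then (dl η n x : ℂ) * f u * f' v else 0) * conj (χ g) =
      ∑ u : GL (Fin a) F, ∑ c : Matrix (Fin a) (Fin b) F, ∑ v : GL (Fin b) F,
        f u * f' v * conj (χ (tri h u c v)) := fun x => by
    rw [sum_comm]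
    refine sum_congr rfl fun u _ => ?_
    rw [sum_comm]
    refine sum_congr rfl fun c _ => ?_
    rw [sum_comm]
    exact sum_congr rfl fun v _ => h1 x u c v
  rw [sum_congr rfl fun x _ => by convert h3 x, sum_const, card_univ, nsmul_eq_mul,
    ← Nat.card_eq_fintype_card (α := GL (Fin n) F), mul_left_comm,
    inv_mul_cancel_left₀ h2]
  simp only [mul_sum, mul_assoc]

theorem adj : ADJStmt.{u} := by
  intro F _ _ _ η a b n h f f' χ hχ
  rw [key η h f f' χ hχ]
  constructor
  · simp only [classInner, perp1, res, map_mul, map_inv₀, map_natCast, map_sum, Complex.conj_conj,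
      Nat.card_eq_fintype_card, mul_sum, sum_mul, Nat.cast_mul, mul_inv]
    rw [sum_comm (s := (univ : Finset (GL (Fin b) F)))]
    refine sum_congr rfl fun u _ => ?_
    rw [sum_comm]
    refine sum_congr rfl fun v _ => sum_congr rfl fun c _ => by ring
  · simp only [classInner, res, map_mul, map_inv₀, map_natCast, map_sum, Fintype.sum_prod_type,
      Nat.card_eq_fintype_card, Fintype.card_prod, mul_sum, Nat.cast_mul, mul_inv]
    refine sum_congr rfl fun u _ => ?_
    rw [sum_comm]
    refine sum_congr rfl fun v _ => sum_congr rfl fun c _ => by ring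

end Cfsg.Agent.H62.GbAdj
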