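import Cfsg.Agent.H98.GbL
import Cfsg.Agent.H72.GbMorth
import Cfsg.Agent.H21.Basic

/-! Project GB: removing a hook of minimal degree from a basic label. -/

set_option autoImplicit false
open Cfsg Finset
open scoped ComplexConjugate MatrixGroups

namespace Cfsg.Agent.H62.GbR1a

open Cfsg.Agent.H98.GB Cfsg.Agent.H72.GbMorth

universe u

/-- moving a bead -/
def mv (S : Finset ℕ) (x r : ℕ) : Finset ℕ := insert (x - r) (S.erase x)

theorem mv_wtS {S : Finset ℕ} {x r : ℕ} (hx : x ∈ S) (hr : r ≤ x) (hy : x - r ∉ S) :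
    #(mv S x r) = #S ∧ H19.wtS (mv S x r) + r = H19.wtS S := by
  have h1 := H19.card_move hx hy
  have h2 := H19.sum_move hx hy
  rw [H19.sum_eq_wtS, H19.sum_eq_wtS S, h1] at h2
  exact ⟨h1, by unfold mv; omega⟩

theorem mv_wgt {S : Finset ℕ} {x r e : ℕ} (he : 0 < e) (hx : x ∈ S) (hr : r ≤ x) (hy : x - r ∉ S)
    (hd : e ∣ r) : e * H19.wgt e (mv S x r) + r = e * H19.wgt e S := by
  have h2 := H19.sum_move hx hy
  rw [H19.sum_eq_baseS he, H19.sum_eq_baseS he S, H19.cnt_move hx hr hy hd] at h2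
  unfold mv; omega

theorem not_mem_mv {S : Finset ℕ} {x r : ℕ} (h0 : 0 < r) (hr : r ≤ x) : x ∉ mv S x r := by
  simp only [mv, mem_insert, mem_erase]
  omega

theorem pparts {G : Type*} [Group G] [Finite G] {p : ℕ} (hp : p.Prime) (g : G)
    (hg : p ∣ orderOf g) : ∃ t t' : ℕ, g ^ t * g ^ t' = g ∧ (∃ i, orderOf (g ^ t) = p ^ i) ∧
      ¬ p ∣ orderOf (g ^ t') ∧ ¬ p ∣ t := by
  obtain ⟨a, b, hb, e⟩ := Nat.exists_eq_pow_mul_and_not_dvd (orderOf_pos g).ne' p hp.ne_one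
  have hc : (p ^ a).Coprime b := ((Nat.Prime.coprime_iff_not_dvd hp).2 hb).pow_left a
  obtain ⟨t, h1, h2⟩ := Nat.chineseRemainder hc 1 0
  obtain ⟨t', h3, h4⟩ := Nat.chineseRemainder hc 0 1
  refine ⟨t, t', ?_, ?_, fun h => hb (h.trans ?_), fun h => ?_⟩
  · rw [← pow_add]
    conv_rhs => rw [← pow_one g]
    rw [pow_eq_pow_iff_modEq, e, ← Nat.modEq_and_modEq_iff_modEq_mul hc]
    exact ⟨h1.add h3, h2.add h4⟩
  · obtain ⟨i, -, hi⟩ := (Nat.dvd_prime_pow hp).1 (orderOf_dvd_of_pow_eq_one (x := g ^ t) (n := p ^ a) (by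
      rw [← pow_mul, ← orderOf_dvd_iff_pow_eq_one, e, mul_comm t]
      exact Nat.mul_dvd_mul_left _ ((Nat.modEq_zero_iff_dvd).1 h2)))
    exact ⟨i, hi⟩
  · refine orderOf_dvd_of_pow_eq_one ?_
    rw [← pow_mul, ← orderOf_dvd_iff_pow_eq_one, e]
    exact Nat.mul_dvd_mul_right ((Nat.modEq_zero_iff_dvd).1 h3) _
  · have ha : a ≠ 0 := by
      rintro rfl
      rw [e, pow_zero, one_mul] at hg
      exact hb hg
    have := (h1.of_dvd (dvd_pow_self p ha)).symm.trans ((Nat.modEq_zero_iff_dvd).2 h)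
    exact hp.one_lt.ne' (Nat.dvd_one.1 ((Nat.modEq_zero_iff_dvd).1 this))

theorem exists_inner {G : Type*} [Group G] [Fintype G] {p : ℕ} {ι : Type*} (J : Finset ι)
    (a : ι → ℂ) (v : ι → G → ℂ) (hl : LinearIndepOn ℂ (fun j => pRegularPart p (v j)) J)
    {j0 : ι} (h0 : j0 ∈ J) (ha : a j0 ≠ 0) :
    ∃ j ∈ J, classInner (pRegularPart p (∑ i ∈ J, a i • v i)) (v j) ≠ 0 := by
  by_contra hn
  push Not at hn
  have h1 : pRegularPart p (∑ i ∈ J, a i • v i) = 0 := by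
    rw [← H11.classInner_self_eq_zero, ← H21.classInner_preg_comm, H21.preg_preg,
      H11.classInner_sum_right]
    exact sum_eq_zero fun j hj => by rw [H11.classInner_smul_right, hn j hj, mul_zero]
  rw [H21.preg_sum] at h1
  simp only [H21.preg_smul] at h1
  exact ha (linearIndepOn_finset_iff.1 hl a h1 j0 h0)

variable {F : Type u} [Field F] [Fintype F] [DecidableEq F] (C : Ctx F)

/-- all eigenvalues have order divisible by `p` -/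
def Sing {m : ℕ} (g : GL (Fin m) F) : Prop := ∀ z ∈ C.roots g, C.p ∣ orderOf z

theorem sing_mul (hF : FOCKStmt.{u}) (hR : ROOTStmt.{u}) {a b n : ℕ} (h : a + b = n) {x : C.H.A}
    (y : C.H.A) (hx : C.H.Hg a x) {g : GL (Fin n) F} (hg : Sing C g)
    (h0 : C.H.ev (x * y) n g ≠ 0) : ∃ u : GL (Fin a) F, C.H.ev x a u ≠ 0 ∧ Sing C u := by
  obtain ⟨r1, -, r3, -⟩ := hR F C
  rw [(hF F 1 C.H).ev_mul_hg y h hx, H98.GB.cmp, cmpS] at h0
  obtain ⟨w, -, h1⟩ := exists_ne_zero_of_sum_ne_zero (right_ne_zero_of_mul h0)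
  obtain ⟨u, -, h1⟩ := exists_ne_zero_of_sum_ne_zero h1
  obtain ⟨c, -, h1⟩ := exists_ne_zero_of_sum_ne_zero h1
  obtain ⟨v, -, h1⟩ := exists_ne_zero_of_sum_ne_zero h1
  obtain ⟨⟨-, rfl⟩, h2⟩ := (@ite_ne_right_iff _ _ (_) _ _).1 h1
  refine ⟨u, right_ne_zero_of_mul (left_ne_zero_of_mul h2), fun z hz => hg z ?_⟩
  rw [r1, r3]
  exact Multiset.mem_add.2 (Or.inl hz)

theorem pp_val (hV : VALStmt.{u}) (hB : BRStmt.{u}) {φ : C.Φ} {k : ℕ} (h0 : 0 < C.dg φ * k)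
    {g : GL (Fin (C.dg φ * k)) F} (hg : C.H.ev (C.pp φ k) _ g ≠ 0) :
    (C.p ∣ orderOf g → Sing C g) ∧ (Sing C g → C.p ∣ Fintype.card F ^ (C.dg φ * k) - 1) := by
  rw [Ctx.pp, map_smul, Ctx.pa, C.H.ev_sg ((hB F C).1 _ _)] at hg
  simp only [Pi.smul_apply, Pi.single_eq_same, smul_eq_mul] at hg
  obtain h | ⟨c, ζ, h1, -, h2, -, h3⟩ := hV F C _ h0 g
  · exact absurd (h _) (right_ne_zero_of_mul hg)
  have h4 := orderOf_dvd_of_pow_eq_one h1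
  refine ⟨fun hp z hz => ?_, fun hs => (hs ζ ?_).trans h4⟩
  · rw [h2, Multiset.mem_map] at hz
    obtain ⟨i, -, rfl⟩ := hz
    rw [Nat.Coprime.orderOf_pow]
    · exact h3.1 hp
    · refine (Nat.Coprime.coprime_dvd_left h4 ?_).pow_right i
      have h5 : 0 < Fintype.card F ^ (C.dg φ * k) := pow_pos Fintype.card_pos _
      refine Nat.Coprime.coprime_dvd_right (dvd_pow_self _ h0.ne') ?_
      obtain ⟨Q, hQ⟩ : ∃ Q, Fintype.card F ^ (C.dg φ * k) = Q + 1 := ⟨_, (Nat.succ_pred_eq_of_pos h5).symm⟩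
      rw [hQ]
      simp
  · rw [h2, Multiset.mem_map]
    exact ⟨0, by simpa using h0, by simp⟩

theorem exists_sing (hL : LABStmt.{u}) (hS : SYSStmt.{u}) (hP : PIMStmt.{u}) (hQ : PIPStmt.{u})
    {Γ : C.Φ} (hΓ : C.Reg Γ) : ∃ g : GL (Fin (C.dg Γ * C.eG Γ)) F,
      C.H.ev (C.pp Γ (C.eG Γ)) _ g ≠ 0 ∧ C.p ∣ orderOf g := by
  by_contra hn
  push Not at hn
  have L := hL F C
  have he := L.eG_pos Γ
  obtain ⟨-, -, h1, -⟩ := hP F 1 C.H C.p C.hp C.hpF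
  have h2 := (hQ F C).2.2 _ Γ _ Γ _ hΓ hΓ he he le_rfl le_rfl
  have h3 := (hS F C).2.2 _ Γ _ Γ _ trivial trivial he he le_rfl le_rfl
  rw [Hall.ip] at h2 h3
  rw [h1, H21.preg_eq_self fun g hg => by_contra fun h => hn g h hg, h3, if_pos ⟨rfl, rfl⟩,
    if_pos ⟨rfl, rfl⟩, eq_div_iff (Nat.cast_ne_zero.2 (pow_pos C.hp.pos _).ne'),
    mul_eq_left₀ (Nat.cast_ne_zero.2 he.ne'), Nat.cast_eq_one, Nat.pow_eq_one] at h2
  have h4 := Nat.one_lt_pow (Nat.mul_pos (L.dg_pos Γ) he).ne' (Fintype.one_lt_card (α := F))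
  exact (C.hp.factorization_pos_of_dvd (by omega) ((L.eG_iff Γ _).2 dvd_rfl)).ne'
    (h2.resolve_left C.hp.ne_one)

theorem hg_prod (hF : FOCKStmt.{u}) (hS : SYSStmt.{u}) (t : Multiset (C.Φ × ℕ))
    (h : ∀ x ∈ t, 0 < x.2) :
    C.H.Hg (t.map fun x => C.dg x.1 * x.2).sum (t.map fun x => C.pp x.1 x.2).prod := by
  induction t using Multiset.induction_on with
  | empty => simpa using (hF F 1 C.H).hg_one
  | cons x t ih =>
    rw [Multiset.map_cons, Multiset.map_cons, Multiset.sum_cons, Multiset.prod_cons]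
    exact (hF F 1 C.H).hg_mul ((hS F C).1 _ _ (h x (Multiset.mem_cons_self _ _))).1
      (ih fun y hy => h y (Multiset.mem_cons_of_mem hy))

theorem exists_Ms (hL : LABStmt.{u}) (m : ℕ) : ∃ Ms : Finset (C.Φ → Multiset ℕ),
    ∀ μ, μ ∈ Ms ↔ MonOn (fun _ => True) μ ∧ wm C.dg μ = m := by
  classical
  refine ⟨(Fintype.piFinset fun _ => (range (m + 1)).biUnion H19.Par).filter
    fun μ => MonOn (fun _ => True) μ ∧ wm C.dg μ = m, fun μ => ?_⟩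
  rw [mem_filter, and_iff_right_iff_imp]
  rintro ⟨h1, h2⟩
  refine Fintype.mem_piFinset.2 fun φ => mem_biUnion.2 ⟨_, mem_range.2 (Nat.lt_succ_of_le ?_),
    H19.mem_Par.2 ⟨rfl, (h1 φ).1⟩⟩
  rw [← h2]
  exact (Nat.le_mul_of_pos_left _ ((hL F C).dg_pos φ)).trans
    (single_le_sum (f := fun φ => C.dg φ * (μ φ).sum) (fun _ _ => Nat.zero_le _) (mem_univ φ))

/-- the monomial with a single part -/
noncomputable def sgl (φ : C.Φ) : C.Φ → Multiset ℕ := Pi.single φ {C.eG φ}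

theorem tm_sgl (φ : C.Φ) : tm (sgl C φ) = {(φ, C.eG φ)} := by
  rw [tm, sum_eq_single φ (fun ψ _ ne => by simp [sgl, ne]) (fun n => absurd (mem_univ _) n)]
  simp [sgl]

theorem mon_tm (μ : C.Φ → Multiset ℕ) :
    mon C.pp μ = ((tm μ).map fun x => C.pp x.1 x.2).prod := by rw [prod_tm, mon]

theorem mon_sgl (φ : C.Φ) : mon C.pp (sgl C φ) = C.pp φ (C.eG φ) := by simp [mon_tm, tm_sgl]

theorem wm_sgl (φ : C.Φ) : wm C.dg (sgl C φ) = C.dg φ * C.eG φ := by simp [← sum_tm, tm_sgl]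

theorem monOn_sgl (hL : LABStmt.{u}) (φ : C.Φ) : MonOn (fun _ => True) (sgl C φ) := fun ψ =>
  ⟨fun r hr => by
    by_cases h : ψ = φ
    · subst h
      simp only [sgl, Pi.single_eq_same, Multiset.mem_singleton] at hr
      exact hr ▸ (hL F C).eG_pos ψ
    · simp [sgl, h] at hr, fun h => (h trivial).elim⟩

theorem hook (hS : SYSStmt.{u}) (hH : HOOKStmt.{u}) {n : ℕ} (hn : n ≤ C.n0) {Λ : C.Lb}
    (hΛ : C.IsLab n Λ) {φ : C.Φ} {k m : ℕ} (hk : 0 < k) (hm : C.dg φ * k = m) (hmn : m ≤ n) :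
    C.H.D m (C.pp φ k) (sL C.N C.pp Λ) = ∑ x ∈ (Λ φ).filter (fun x => k ≤ x ∧ x - k ∉ Λ φ),
      (-1 : ℂ) ^ #((Λ φ).filter fun z => x - k < z ∧ z < x) •
        sL C.N C.pp (Function.update Λ φ (mv (Λ φ) x k)) := by
  subst hm
  exact hH F 1 C.H C.Φ C.dg C.n0 C.N C.pp ((hS F C).2.1 _) ((hS F C).2.2 _) Λ hΛ.1
    (hΛ.2.le.trans hn) φ k hk (hmn.trans hn)

theorem only_sgl (hF : FOCKStmt.{u}) (hL : LABStmt.{u}) (hV : VALStmt.{u}) (hR : ROOTStmt.{u})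
    (hB : BRStmt.{u}) (hS : SYSStmt.{u}) (hH : HOOKStmt.{u}) (hX : RESXStmt.{u})
    (hI : IRRStmt.{u}) {n m : ℕ} (hn : n ≤ C.n0) {Λ : C.Lb} (hΛ : C.IsLab n Λ) (hb : C.Bas Λ)
    (hm : 0 < m) (hmn : m ≤ n) (hmin : ∀ φ, C.II Λ φ → m ≤ C.dg φ * C.eG φ)
    {g : GL (Fin m) F} (hg : Sing C g) {μ : C.Φ → Multiset ℕ} (hμ : MonOn (fun _ => True) μ)
    (hw : wm C.dg μ = m) (h1 : C.H.ev (mon C.pp μ) m g ≠ 0)
    (h2 : C.H.D m (mon C.pp μ) (sL C.N C.pp Λ) ≠ 0) :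
    ∃ φ, (C.II Λ φ ∧ C.dg φ * C.eG φ = m) ∧ μ = sgl C φ := by
  have L := hL F C
  have K := hF F 1 C.H
  rw [← sum_tm] at hw
  have hpos : ∀ x ∈ tm μ, 0 < x.2 := fun x hx => (hμ _).1 _ (mem_tm hx)
  obtain ⟨⟨φ, k⟩, hx⟩ := Multiset.exists_mem_of_ne_zero (s := tm μ) (by
    intro h
    rw [h] at hw
    simp at hw
    omega)
  obtain ⟨T, hT⟩ := Multiset.exists_cons_of_mem hx
  have hk : 0 < k := hpos _ hx
  have hT' : ∀ x ∈ T, 0 < x.2 := fun x h => hpos x (hT ▸ Multiset.mem_cons_of_mem h)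
  rw [mon_tm, hT, Multiset.map_cons, Multiset.prod_cons] at h1 h2
  rw [hT, Multiset.map_cons, Multiset.sum_cons] at hw
  dsimp only at h1 h2 hw
  have hp := ((hS F C).1 φ k hk).1
  obtain ⟨u, hu, hu'⟩ := sing_mul C hF hR hw _ hp hg h1
  have hd : C.eG φ ∣ k := (L.eG_iff φ k).1 ((pp_val C hV hB (Nat.mul_pos (L.dg_pos φ) hk) hu).2 hu')
  have h3 : C.H.D (C.dg φ * k) (C.pp φ k) (sL C.N C.pp Λ) ≠ 0 := fun h => h2 (by
    rw [← hw, (hX F C).1 _ _ (n - m) _ _ _ hp (hg_prod C hF hS T hT') (by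
      rw [hw, Nat.add_sub_cancel' hmn]; exact (hI F C n hn Λ hΛ).1), h, ← zero_smul ℂ (0 : C.H.A),
      K.D_smul, zero_smul, zero_smul])
  rw [hook C hS hH hn hΛ hk rfl (by omega)] at h3
  obtain ⟨x, hx', -⟩ := exists_ne_zero_of_sum_ne_zero h3
  obtain ⟨x1, x2, x3⟩ := mem_filter.1 hx'
  have hr : C.Reg φ := by_contra fun h => by
    rw [hb φ h, mem_range] at x1 x3
    omega
  have hII : C.II Λ φ := ⟨hr, fun h => by
    have := mv_wgt (L.eG_pos φ) x1 x2 x3 hd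
    rw [h] at this
    omega⟩
  have h4 := hmin φ hII
  have h5 := Nat.mul_le_mul_left (C.dg φ) (Nat.le_of_dvd hk hd)
  have h6 : k = C.eG φ := Nat.eq_of_mul_eq_mul_left (L.dg_pos φ) (by omega)
  have h7 : T = 0 := Multiset.eq_zero_of_forall_notMem fun y hy => by
    have := Multiset.le_sum_of_mem (Multiset.mem_map_of_mem (fun x => C.dg x.1 * x.2) hy)
    have := Nat.mul_pos (L.dg_pos y.1) (hT' y hy)
    omega
  exact ⟨φ, ⟨hII, by omega⟩, tm_inj (by rw [tm_sgl, hT, h7, h6]; rfl)⟩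

theorem lab_mv (hL : LABStmt.{u}) {n m k : ℕ} (h : m + k = n) {Λ : C.Lb} (hΛ : C.IsLab n Λ)
    (hb : C.Bas Λ) {φ : C.Φ} (hr : C.Reg φ) (hm : C.dg φ * C.eG φ = m) {x : ℕ} (x1 : x ∈ Λ φ)
    (x2 : C.eG φ ≤ x) (x3 : x - C.eG φ ∉ Λ φ) :
    C.IsLab k (Function.update Λ φ (mv (Λ φ) x (C.eG φ))) ∧
      C.Bas (Function.update Λ φ (mv (Λ φ) x (C.eG φ))) ∧
      C.ww (Function.update Λ φ (mv (Λ φ) x (C.eG φ))) + 1 = C.ww Λ := by
  classical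
  have L := hL F C
  obtain ⟨m1, m2⟩ := mv_wtS x1 x2 x3
  have m3 := mv_wgt (L.eG_pos φ) x1 x2 x3 dvd_rfl
  refine ⟨⟨fun ψ => ?_, ?_⟩, fun ψ hψ => ?_, ?_⟩
  · by_cases e : ψ = φ
    · subst e; rw [Function.update_self, m1, hΛ.1]
    · rw [Function.update_of_ne e, hΛ.1]
  · have h1 := hΛ.2
    rw [wt, ← add_sum_erase _ _ (mem_univ φ)] at h1 ⊢
    rw [Function.update_self, sum_congr rfl fun ψ hψ => by
      rw [Function.update_of_ne (ne_of_mem_erase hψ)]]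
    rw [← m2, mul_add] at h1
    omega
  · rw [Function.update_of_ne (by rintro rfl; exact hψ hr), hb ψ hψ]
  · have h1 : φ ∈ univ.filter fun Γ => C.Reg Γ := mem_filter.2 ⟨mem_univ _, hr⟩
    rw [Ctx.ww, Ctx.ww, ← add_sum_erase _ _ h1, ← add_sum_erase _ _ h1, Function.update_self,
      sum_congr rfl fun ψ hψ => by rw [Function.update_of_ne (ne_of_mem_erase hψ)]]
    have := Nat.eq_of_mul_eq_mul_left (L.eG_pos φ) ((mul_add_one _ _).trans m3)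
    omega

theorem r1a (hF : FOCKStmt.{u}) (hC : COPStmt.{u}) (hL : LABStmt.{u}) (hV : VALStmt.{u})
    (hR : ROOTStmt.{u}) (hB : BRStmt.{u}) (hS : SYSStmt.{u}) (hP : PIMStmt.{u}) (hQ : PIPStmt.{u})
    (hH : HOOKStmt.{u}) (hX : RESXStmt.{u}) (hA : BASStmt.{u}) (hK : BLKStmt.{u})
    (hI : IRRStmt.{u}) : R1aStmt.{u} := by
  classical
  intro F _ _ _ C n hn Λ hΛ hb hw
  have L := hL F C
  obtain ⟨Γ1, h1, h1'⟩ := exists_ne_zero_of_sum_ne_zero hw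
  obtain ⟨Γ, hΓ, hmin⟩ := exists_min_image (univ.filter fun φ => C.II Λ φ)
    (fun φ => C.dg φ * C.eG φ) ⟨Γ1, mem_filter.2 ⟨mem_univ _, (mem_filter.1 h1).2, h1'⟩⟩
  replace hΓ := (mem_filter.1 hΓ).2
  replace hmin : ∀ φ, C.II Λ φ → C.dg Γ * C.eG Γ ≤ C.dg φ * C.eG φ := fun φ h =>
    hmin φ (mem_filter.2 ⟨mem_univ _, h⟩)
  obtain ⟨x0, x1, x2, x3⟩ := H19.exists_move_of_wgt hΓ.2
  have hm : 0 < C.dg Γ * C.eG Γ := Nat.mul_pos (L.dg_pos Γ) (L.eG_pos Γ)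
  have hmn : C.dg Γ * C.eG Γ ≤ n := by
    rw [← hΛ.2]
    refine (Nat.mul_le_mul_left _ ?_).trans
      (single_le_sum (f := fun φ => C.dg φ * H19.wtS (Λ φ)) (fun _ _ => Nat.zero_le _) (mem_univ Γ))
    have := (mv_wtS x1 x2 x3).2
    omega
  obtain ⟨g, hg0, hgp⟩ := exists_sing C hL hS hP hQ hΓ.1
  have hg : Sing C g := (pp_val C hV hB hm hg0).1 hgp
  generalize hmd : C.dg Γ * C.eG Γ = m at g hg0 hgp hg hm hmn hmin
  obtain ⟨k, h⟩ : ∃ k, m + k = n := ⟨n - m, by omega⟩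
  obtain ⟨t, t', e1, e2, e3, e4⟩ := pparts C.hp g hgp
  obtain ⟨-, -, -, r4, r5, r6, -, r8⟩ := hR F C
  obtain ⟨Ms, hMs⟩ := exists_Ms C hL m
  let Φm : Finset C.Φ := univ.filter fun φ => C.II Λ φ ∧ C.dg φ * C.eG φ = m
  let J : Finset (Σ _ : C.Φ, ℕ) :=
    Φm.sigma fun φ => (Λ φ).filter fun x => C.eG φ ≤ x ∧ x - C.eG φ ∉ Λ φ
  let lab : (Σ _ : C.Φ, ℕ) → C.Lb := fun j => Function.update Λ j.1 (mv (Λ j.1) j.2 (C.eG j.1))
  let c : (C.Φ → Multiset ℕ) → ℂ := fun μ => C.H.ev (mon C.pp μ) m g / ∏ φ, (H19.zM (μ φ) : ℂ)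
  let a : (Σ _ : C.Φ, ℕ) → ℂ := fun j =>
    c (sgl C j.1) * (-1 : ℂ) ^ #((Λ j.1).filter fun z => j.2 - C.eG j.1 < z ∧ z < j.2)
  have hJ : ∀ j ∈ J, (C.II Λ j.1 ∧ C.dg j.1 * C.eG j.1 = m) ∧ j.2 ∈ Λ j.1 ∧ C.eG j.1 ≤ j.2 ∧
      j.2 - C.eG j.1 ∉ Λ j.1 := fun j hj =>
    ⟨(mem_filter.1 (mem_sigma.1 hj).1).2, mem_filter.1 (mem_sigma.1 hj).2⟩
  have hlab : ∀ j ∈ J, C.IsLab k (lab j) ∧ C.Bas (lab j) ∧ C.ww (lab j) + 1 = C.ww Λ := fun j hj =>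
    lab_mv C hL h hΛ hb (hJ j hj).1.1.1 (hJ j hj).1.2 (hJ j hj).2.1 (hJ j hj).2.2.1 (hJ j hj).2.2.2
  have hinj : Set.InjOn lab J := by
    rintro ⟨φ, x⟩ hj ⟨φ', x'⟩ hj' e
    obtain ⟨-, y1, y2, -⟩ := hJ _ hj
    have h2 : x ∉ lab ⟨φ', x'⟩ φ := by
      rw [← e]
      simp only [lab, Function.update_self]
      exact not_mem_mv (L.eG_pos φ) y2
    by_cases e' : φ = φ'
    · subst e'
      simp only [lab, Function.update_self, mv, mem_insert, mem_erase, not_or, not_and] at h2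
      obtain rfl : x = x' := by_contra fun h => h2.2 h y1
      rfl
    · simp only [lab, Function.update_of_ne e'] at h2
      exact absurd y1 h2
  have hli : LinearIndepOn ℂ (fun j => pRegularPart C.p (C.sC (lab j) k)) J :=
    LinearIndepOn.comp_of_image (v := fun Λ => pRegularPart C.p (C.sC Λ k))
      ((hA F C k (by omega) Set.univ ((hK F C k (by omega)).1 _ fun _ _ _ _ _ _ => trivial)).1.mono (by
        rintro _ ⟨j, hj, rfl⟩
        exact ⟨(hlab j hj).1, (hlab j hj).2.1, trivial⟩)) hinj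
  have ha : a ⟨Γ, x0⟩ ≠ 0 := by
    refine mul_ne_zero (div_ne_zero ?_ (prod_ne_zero_iff.2 fun φ _ => ?_)) (by simp)
    · rw [mon_sgl]; exact hg0
    · exact Nat.cast_ne_zero.2 (H19.zM_pos (monOn_sgl C hL Γ φ).1).ne'
  obtain ⟨j, hj, hne⟩ := exists_inner J a (fun j => C.sC (lab j) k) hli (j0 := ⟨Γ, x0⟩)
    (mem_sigma.2 ⟨mem_filter.2 ⟨mem_univ _, hΓ, hmd⟩, mem_filter.2 ⟨x1, x2, x3⟩⟩) ha
  have hsum : ∑ μ ∈ Ms, c μ • C.H.D m (mon C.pp μ) (sL C.N C.pp Λ) =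
      ∑ j ∈ J, a j • sL C.N C.pp (lab j) := by
    rw [← sum_subset (s₁ := Φm.image (sgl C)), sum_image, sum_sigma]
    · refine sum_congr rfl fun φ hφ => ?_
      rw [mon_sgl, hook C hS hH hn hΛ (L.eG_pos φ) (mem_filter.1 hφ).2.2 hmn, smul_sum]
      exact sum_congr rfl fun x _ => by rw [smul_smul]
    · intro φ _ φ' _ e
      have := congrArg tm e
      rw [tm_sgl, tm_sgl, Multiset.singleton_inj] at this
      exact congrArg Prod.fst this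
    · intro μ hμ
      obtain ⟨φ, hφ, rfl⟩ := mem_image.1 hμ
      exact (hMs _).2 ⟨monOn_sgl C hL φ, (wm_sgl C φ).trans (mem_filter.1 hφ).2.2⟩
    · intro μ hμ hμ'
      by_contra h0
      obtain ⟨φ, hφ, e⟩ := only_sgl C hF hL hV hR hB hS hH hX hI hn hΛ hb hm hmn hmin hg
        ((hMs μ).1 hμ).1 ((hMs μ).1 hμ).2 (fun h => h0 (by simp only [c, h, zero_div, zero_smul]))
        fun h => h0 (by rw [h, smul_zero])
      exact hμ' (mem_image.2 ⟨φ, mem_filter.2 ⟨mem_univ _, hφ⟩, e.symm⟩)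
  refine ⟨m, k, h, g ^ t, g ^ t', lab j, hm, (hlab j hj).1, (hlab j hj).2.1, (hlab j hj).2.2, e2,
    (r6 _ _).2 fun h1 => ?_, Commute.pow_pow_self g t t', e3, ?_⟩
  · rw [r4, Multiset.mem_map] at h1
    obtain ⟨z, hz, h1⟩ := h1
    exact e4 ((hg z hz).trans (orderOf_dvd_of_pow_eq_one h1))
  · rw [e1]
    convert hne using 2
    funext y
    rw [H21.preg_apply, H21.preg_apply]
    split_ifs with hy
    · rfl
    have h2 := congrArg (fun x => C.H.ev x k y) hsum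
    simp only [map_sum, map_smul, Finset.sum_apply, Pi.smul_apply, smul_eq_mul] at h2 ⊢
    rw [Ctx.sC, ← (hC F 1).1 m k n h _ g y (C.H.tw _ n) (r8 _ _ _ _ (Multiset.disjoint_left.2
      fun hz hz' => hy ((r5 _ y).2 ⟨_, hz', hg _ hz⟩))), (hX F C).2.1 m k n h (by omega) Ms hMs]
    exact h2

end Cfsg.Agent.H62.GbR1a
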