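import Cfsg.Agent.H50.L81Defs
import Cfsg.Agent.H95.FvNact2

/-! Project L81: a normalised lift of the element of the Weyl group permuting the four
orthogonal roots. -/

set_option autoImplicit false
set_option maxRecDepth 100000

namespace Cfsg.Agent.H62.L81Ne0

open Equiv Cfsg.Lie H37 H40 H34 H29 Module H50.E83 H50.L81
open H42.Fv (al Ph sg frV sg_apply)
open H42.Fv.Na
open scoped Matrix

theorem act_xx (r : Rt) (t : K) : act (xx r t) (ee (ng r)) = ee (ng r) + t • hr r - t ^ 2 • ee r := by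
  have := x_eV_neg (F := K) C8.V.basic r.2 t
  rw [← C8.neg_val] at this
  rw [act_apply, ← this, Cert.coe_xg, C8.V.coe_xG]

theorem two_ne : (2 : K) ≠ 0 := by
  intro h
  have h3 : ((3 : ℕ) : K) = 0 := CharP.cast_eq_zero K 3
  have : (1 : K) = 0 := by push_cast at h3; linear_combination h3 - h
  exact one_ne_zero this

theorem al_sub (r : Rt) (v w : V) : al r (v - w) = al r v - al r w := by
  rw [sub_eq_add_neg, al_vadd, ← neg_one_smul K w, H42.Fv.al_smul]; ring

/-- The scalars of a monomial element on the group and on the module agree. -/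
theorem scal {n : GK} (hn : n ∈ P8.N) : ∃ c : Rt → K,
    (∀ r, act n (ee r) = c r • ee (P8.ν n r)) ∧ (∀ r, c r * c (ng r) = 1) ∧
      ∀ r t, n * xx r t * n⁻¹ = xx (P8.ν n r) (c r * t) := by
  obtain ⟨⟨c, hc⟩, hh⟩ := nact n hn
  have hW := P8.ν_mem n hn
  have key : ∀ r t, ∃ t', n * xx r t * n⁻¹ = xx (P8.ν n r) t' ∧ (c (ng r) : K) * t' = t ∧
      (c (ng r) : K) * t' ^ 2 = t ^ 2 * c r := fun r t => by
    obtain ⟨t', e⟩ := Cert.mem_X.1 (P8.conj n hn r _ (Cert.xg_mem_X r t))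
    refine ⟨t', e.symm, ?_⟩
    have h1 : act (xx (P8.ν n r) t') (act n (ee (ng r))) = act n (act (xx r t) (ee (ng r))) := by
      rw [show xx (P8.ν n r) t' = n * xx r t * n⁻¹ from e, H42.Fv.act_mul, H42.Fv.act_mul,
        H42.Fv.act_inv_act]
    rw [act_xx, map_sub, map_add, map_smul, map_smul, hc, hc, hh, map_smul,
      show P8.ν n (ng r) = ng (P8.ν n r) from C8.R.W_neg hW r, act_xx] at h1
    have h2 := congrArg (al (P8.ν n r)) h1
    have h3 := congrFun h1 (Sum.inr (P8.ν n r))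
    simp only [H42.Fv.al_smul, al_sub, al_vadd, al_eV, al_hR, RS.pair_self] at h2
    have h4 : hR chevE8 K (P8.ν n r) (Sum.inr (P8.ν n r)) = 0 := rfl
    simp only [Pi.smul_apply, Pi.sub_apply, Pi.add_apply, eV_inr, smul_eq_mul, h4, if_true,
      if_neg (C8.R.neg_ne (P8.ν n r)).symm] at h3
    refine ⟨mul_left_cancel₀ two_ne ?_, ?_⟩
    · push_cast at h2
      linear_combination h2
    · linear_combination -h3
  have inv : ∀ r, (c r : K) * c (ng r) = 1 := fun r => by
    obtain ⟨t', -, h1, h2⟩ := key r 1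
    linear_combination (c (ng r) * t' + 1) * h1 - c (ng r) * h2
  refine ⟨fun r => c r, hc, inv, fun r t => ?_⟩
  obtain ⟨t', e, h1, -⟩ := key r t
  rw [e]
  congr 1
  linear_combination c r * h1 - t' * inv r

/-- The indices of the four simple roots. -/
def ix (i : Fin 4) : Fin chevE8.rank := (![1, 2, 6, 4] i : Fin 8)

theorem exists_tor (hp : ∀ i j, i ≠ j → C8.R.pair (aa i) (aa j) = 0) (v : Fin 4 → K)
    (hv : ∀ i, v i ≠ 0) : ∃ d : Fin chevE8.rank → Kˣ, ∀ i, (torChar chevE8 d (aa i) : K) = v i := by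
  choose s hs using fun i => IsAlgClosed.exists_eq_mul_self (v i)
  have hs0 : ∀ i, s i ≠ 0 := fun i h => hv i (by rw [hs, h, mul_zero])
  refine ⟨∏ i : Fin 4, Pi.mulSingle (ix i) (Units.mk0 (s i) (hs0 i)), fun i => ?_⟩
  have h1 : ∀ (j : Fin chevE8.rank) (t : Kˣ) (r : Rt),
      torChar chevE8 (Pi.mulSingle j t) r = t ^ C8.R.pair (C8.R.simple j) r := fun j t r => by
    rw [RS.pair_simple_left, C8.wt_eq, torChar, Finset.prod_eq_single j] <;> simp +contextual
  have := map_prod (MonoidHom.mk' (fun c : Fin chevE8.rank → Kˣ => torChar chevE8 c (aa i))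
    (fun c d => Cert.torChar_mul c d _))
    (fun i : Fin 4 => Pi.mulSingle (ix i) (Units.mk0 (s i) (hs0 i))) Finset.univ
  simp only [MonoidHom.mk'_apply] at this
  rw [this, Finset.prod_eq_single i, h1, show C8.R.simple (ix i) = aa i from rfl, RS.pair_self, hs,
    zpow_two]
  · rfl
  · intro j _ hj
    rw [h1, show C8.R.simple (ix j) = aa j from rfl, hp j i hj, zpow_zero]
  · simp

theorem frV_sv (i : Fin 4) (x : K × K × K) :
    frV (sv i x) = sv i (x.1 ^ 3, x.2.1 ^ 3, x.2.2 ^ 3) := by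
  haveI : Fact (Nat.Prime 3) := ⟨Nat.prime_three⟩
  have he : ∀ (s : ℕ) j, eV chevE8 K s j ^ 3 = eV chevE8 K s j := fun s j => by
    rcases j with j | j
    · simp [eV]
    · simp only [eV, Sum.elim_inr]
      split_ifs <;> simp
  have hh : ∀ (s : ℕ) j, hR chevE8 K s j ^ 3 = hR chevE8 K s j := fun s j => by
    rcases j with j | j
    · exact map_intCast (frobenius K 3) _
    · simp [hR]
  funext j
  simp only [frV, H50.L81.sv, Pi.add_apply, Pi.smul_apply, smul_eq_mul, add_pow_char, mul_pow, he, hh]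

theorem ne0 (hd : DateStmt) : Ne0Stmt := by
  obtain ⟨-, hp, ⟨w, hw, hf, ha⟩, -⟩ := hd
  obtain ⟨m, hm, rfl⟩ := P8.exists_lift hw
  obtain ⟨c, -, c2, c3⟩ := scal hm
  obtain ⟨d, hd⟩ := exists_tor (fun i j h => (hp i j h).1) (fun i => c (ng (aa (i - 1))))
    (fun i => right_ne_zero_of_mul_eq_one (c2 _))
  have hH : C8.tg K d ∈ P8.H := Cert.tg_mem_H d
  have hn : C8.tg K d * m ∈ P8.N := mul_mem (Split.H_le_N hH) hm
  have hν : P8.ν (C8.tg K d * m) = P8.ν m := by
    rw [P8.ν_mul _ (Split.H_le_N hH) _ hm, Split.ν_H hH, one_mul]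
  obtain ⟨b, b1, b2, b3⟩ := scal hn
  have b4 := (nact _ hn).2
  rw [hν] at b1 b3 b4
  have e1 : ∀ i, b (aa i) = 1 := fun i => by
    have h1 := b3 (aa i) 1
    rw [show C8.tg K d * m * xx (aa i) 1 * (C8.tg K d * m)⁻¹ =
      C8.tg K d * (m * xx (aa i) 1 * m⁻¹) * (C8.tg K d)⁻¹ by group, c3, ha,
      Cert.tg_conj d (aa (i + 1)).2, hd, add_sub_cancel_right] at h1
    have h2 := Cert.xg_injective (aa (i + 1)).2 h1
    linear_combination c2 (aa i) - h2
  have e2 : ∀ i, b (ng (aa i)) = 1 := fun i => by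
    have := b2 (aa i)
    rwa [e1, one_mul] at this
  have hg : ∀ i, P8.ν m (ng (aa i)) = ng (aa (i + 1)) := fun i => by
    rw [← ha]; exact C8.R.W_neg hw (aa i)
  have hP : ∀ (r : Rt) t, Ph (xx r t) = xx r (t ^ 3) := fun r t => by
    rw [Ph, H73.Phi_xg, pow_one]
  refine ⟨_, hn, by rwa [hν], fun i t => ⟨?_, ?_⟩, fun i x => ?_⟩
  · rw [sg_apply, hP, b3, ha, e1, one_mul]
  · rw [sg_apply, hP, b3, hg, e2, one_mul]
  · rw [frV_sv, H50.L81.sv, H50.L81.sv, map_add, map_add, map_smul, map_smul, map_smul, b1, b1, b4, ha, hg, e1, e2,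
      one_smul, one_smul]

end Cfsg.Agent.H62.L81Ne0
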