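import Cfsg.Agent.H63.LtDefs
import Cfsg.Agent.H8.L40Aut

/-! Project L40, chapter T: the centralizer of `⟨t, γ, z⟩`. -/

set_option autoImplicit false

namespace Cfsg.Agent.H62.LtCB

open Subgroup Cfsg.Agent.H83 Cfsg.Agent.H40.L3 Cfsg.Agent.H46.L40 Cfsg.Agent.H63.LT
open Cfsg.Agent.H8.L40Aut

universe u

theorem split {G : Type u} [Group G] [Finite G] {K : Subgroup G} {t : G} (ht : orderOf t = 2)
    (hc : ∀ k ∈ K, k * t = t * k) (hS : IsSylowIn 2 (zpowers t) K) :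
    ∃ O ≤ K, Odd (Nat.card O) ∧ ∀ k ∈ K, ∃ o ∈ O, ∃ e : Bool, k = o * bp t e := by
  classical
  have hP : normalizer (hS.toSylow : Set K) ≤ centralizer (hS.toSylow : Set K) := by
    intro k _ y hy
    obtain ⟨n, hn⟩ := mem_zpowers_iff.1 (mem_subgroupOf.1 (show y ∈ (zpowers t).subgroupOf K from hy))
    apply Subtype.ext
    rw [coe_mul, coe_mul, ← hn]
    exact ((show Commute (k : G) t from hc _ k.2).zpow_right n).eq.symm
  refine ⟨(MonoidHom.transferSylow hS.toSylow hP).ker.map K.subtype, map_subtype_le _, ?_,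
    fun k hk => ?_⟩
  · rw [card_map_of_injective K.subtype_injective, ← Nat.not_even_iff_odd, even_iff_two_dvd]
    exact MonoidHom.not_dvd_card_ker_transferSylow hS.toSylow hP
  · obtain ⟨⟨o, y⟩, h, -⟩ := (MonoidHom.ker_transferSylow_isComplement' hS.toSylow hP).existsUnique
      ⟨k, hk⟩
    refine ⟨o, mem_map_of_mem _ o.2, ?_⟩
    have h1 : k = o.1.1 * y.1.1 := (congrArg Subtype.val h).symm
    have h2 : y.1.1 ∈ zpowers t := mem_subgroupOf.1 (show y.1 ∈ (zpowers t).subgroupOf K from y.2)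
    rw [mem_zpowers_iff_mem_range_orderOf, ht, Finset.mem_image] at h2
    obtain ⟨n, hn, e⟩ := h2
    rw [Finset.mem_range] at hn
    interval_cases n
    · exact ⟨false, by rw [h1, ← e, pow_zero]; rfl⟩
    · exact ⟨true, by rw [h1, ← e, pow_one]; rfl⟩

theorem fin8 (m : S3) (h1 : tr m = m) (h2 : m * z0 = z0 * m) :
    ∃ i < 4, ∃ j < 2, m = w0 ^ i * a0 ^ j := by
  have h3 : m.1 * m.1.transpose = 1 := by
    have h4 : (m⁻¹).1 = m.1.transpose := by
      conv_rhs => rw [← h1, coe_tr, Matrix.transpose_transpose]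
    rw [← h4, ← Matrix.SpecialLinearGroup.coe_mul, mul_inv_cancel, Matrix.SpecialLinearGroup.coe_one]
  have h5 : m.1 * z0.1 = z0.1 * m.1 := congrArg Subtype.val h2
  have h6 := m.2
  have k0 : ∀ a : ZMod 3, (a = 2 * a → a = 0) ∧ (a * 2 = a → a = 0) := by decide
  have e02 : m.1 0 2 = 0 := (k0 _).1 (by simpa [z0, Matrix.mul_apply, Fin.sum_univ_three] using congrFun (congrFun h5 0) 2)
  have e12 : m.1 1 2 = 0 := (k0 _).1 (by simpa [z0, Matrix.mul_apply, Fin.sum_univ_three] using congrFun (congrFun h5 1) 2)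
  have e20 : m.1 2 0 = 0 := (k0 _).2 (by simpa [z0, Matrix.mul_apply, Fin.sum_univ_three] using congrFun (congrFun h5 2) 0)
  have e21 : m.1 2 1 = 0 := (k0 _).2 (by simpa [z0, Matrix.mul_apply, Fin.sum_univ_three] using congrFun (congrFun h5 2) 1)
  have h7 : m.1 = !![m.1 0 0, m.1 0 1, 0; m.1 1 0, m.1 1 1, 0; 0, 0, m.1 2 2] := by
    conv_lhs => rw [Matrix.eta_fin_three m.1, e02, e12, e20, e21]
  have key : ∀ a b c d e : ZMod 3, a * a + b * b = 1 → a * c + b * d = 0 → c * c + d * d = 1 →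
      (a * d - b * c) * e = 1 → ∃ i < 4, ∃ j < 2,
        !![a, b, 0; c, d, 0; 0, 0, e] = (w0 ^ i * a0 ^ j).1 := by decide +kernel
  obtain ⟨i, hi, j, hj, h⟩ := key (m.1 0 0) (m.1 0 1) (m.1 1 0) (m.1 1 1) (m.1 2 2)
    (by simpa [Matrix.mul_apply, Fin.sum_univ_three, e02] using congrFun (congrFun h3 0) 0)
    (by simpa [Matrix.mul_apply, Fin.sum_univ_three, e02] using congrFun (congrFun h3 0) 1)
    (by simpa [Matrix.mul_apply, Fin.sum_univ_three, e12] using congrFun (congrFun h3 1) 1)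
    (by rw [Matrix.det_fin_three, e02, e12, e20, e21] at h6; linear_combination h6)
  exact ⟨i, hi, j, hj, Subtype.ext (h7.trans h)⟩

theorem mchk : ∀ s : Bool, Gs s * Gs s = 1 ∧ Gs s * M.T = M.T * Gs s ∧ Gs s * M.Z = M.Z * Gs s ∧
    ∀ e k : Bool, ∀ i < 4, ∀ j < 2,
      (bp M.T e * (M.W ^ i * M.A ^ j) * bp (Gs s) k).b = false ∧
      (bp M.T e * (M.W ^ i * M.A ^ j) * bp (Gs s) k).q = false := by
  decide +kernel

theorem map_bp {G H : Type*} [Group G] [Group H] (ι : G →* H) (x : G) (e : Bool) :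
    ι (bp x e) = bp (ι x) e := by
  cases e
  · exact map_one ι
  · rfl

theorem comm_bp {G : Type*} [Group G] {o x : G} (h : Commute o x) (e : Bool) :
    Commute o (bp x e) := by
  cases e
  · exact Commute.one_right o
  · exact h

theorem cb : CbS.{u} := by
  intro G _ _ f s hγ
  obtain ⟨g2, gt, gz, hm⟩ := mchk s
  set γ := f.D.ι (Gs s) with hγd
  have γ2 : γ * γ = 1 := by rw [hγd, ← map_mul, g2, map_one]
  have γt : γ * f.t = f.t * γ := by rw [hγd, ← f.iT, ← map_mul, gt, map_mul]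
  have γz : γ * f.φ z0 = f.φ z0 * γ := by rw [hγd, ← f.iZ, ← map_mul, gz, map_mul]
  let K : Subgroup G := centralizer (f.φ.range : Set G) ⊓ (centralizer {f.t} ⊓ centralizer {γ})
  have hK : ∀ k, k ∈ K ↔ (∀ x, k * f.φ x = f.φ x * k) ∧ k * f.t = f.t * k ∧ k * γ = γ * k := fun k => by
    rw [mem_inf, mem_inf, mem_centralizer_singleton_iff, mem_centralizer_singleton_iff,
      mem_centralizer_iff, MonoidHom.coe_range, Set.forall_mem_range]
    exact and_congr (forall_congr' fun _ => eq_comm) Iff.rfl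
  obtain ⟨O, hO, hodd, hdec⟩ := split (K := K) f.t2 (fun k hk => ((hK k).1 hk).2.1)
    (f.sylK.mono (zpowers_le.2 ((hK _).2 ⟨f.tL, rfl, γt.symm⟩)) inf_le_left)
  have inner : ∀ x : G, x * f.t = f.t * x → x * γ = γ * x → x * f.φ z0 = f.φ z0 * x →
      ∀ m, (∀ y, x * f.φ y * x⁻¹ = f.φ (m * y * m⁻¹)) → ∃ o ∈ O, ∃ e : Bool, ∃ i < 4, ∃ j < 2,
        x = o * (bp f.t e * f.φ (w0 ^ i * a0 ^ j)) := by
    intro x xt xg xz m hx
    have h1 : tr m = m := by
      refine conj_inj (MulEquiv.ext fun y => f.inj ?_)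
      rw [MulAut.conj_apply, MulAut.conj_apply, ← hx, ← tr_tr y, ← tr_inv, ← tr_mul, ← tr_mul, ← hγ,
        ← hx, ← hγ (tr y)]
      have : γ * (x * f.φ (tr y) * x⁻¹) * γ⁻¹ = γ * x * f.φ (tr y) * (γ * x)⁻¹ := by group
      rw [this, ← xg]
      group
    have h2 : m * z0 = z0 * m := by
      rw [← mul_inv_eq_iff_eq_mul]
      apply f.inj
      rw [← hx, xz, mul_inv_cancel_right]
    have h3 : γ * f.φ m = f.φ m * γ := by rw [← mul_inv_eq_iff_eq_mul, hγ, h1]
    have h4 : ∀ y, x * (f.φ m)⁻¹ * f.φ y = f.φ y * (x * (f.φ m)⁻¹) := fun y => by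
      have := hx (m⁻¹ * y * m)
      rw [show m * (m⁻¹ * y * m) * m⁻¹ = y by group, map_mul, map_mul, map_inv] at this
      conv_rhs => rw [← this]
      group
    obtain ⟨o, ho, e, he⟩ := hdec (x * (f.φ m)⁻¹) ((hK _).2 ⟨h4,
      (Commute.mul_left (show Commute x f.t from xt) (Commute.inv_left (f.tL m).symm)).eq,
      (Commute.mul_left (show Commute x γ from xg) (Commute.inv_left h3.symm)).eq⟩)
    obtain ⟨i, hi, j, hj, rfl⟩ := fin8 m h1 h2
    exact ⟨o, ho, e, i, hi, j, hj, by rw [← mul_assoc, ← he, inv_mul_cancel_right]⟩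
  have main : ∀ x : G, x * f.t = f.t * x → x * γ = γ * x → x * f.φ z0 = f.φ z0 * x →
      ∃ o ∈ O, ∃ m : M true, m.b = false ∧ m.q = false ∧ x = o * f.D.ι m ∧ Commute o (f.D.ι m) := by
    intro x xt xg xz
    have h1 : ∃ k : Bool, ∃ o ∈ O, ∃ e : Bool, ∃ i < 4, ∃ j < 2,
        x = o * (bp f.t e * f.φ (w0 ^ i * a0 ^ j)) * bp γ k := by
      obtain ⟨m, h | h⟩ := f.aut x xt
      · obtain ⟨o, ho, e, i, hi, j, hj, h⟩ := inner x xt xg xz m h
        exact ⟨false, o, ho, e, i, hi, j, hj, h.trans (mul_one _).symm⟩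
      · obtain ⟨o, ho, e, i, hi, j, hj, h⟩ := inner (x * γ)
          (Commute.mul_left (show Commute x f.t from xt) γt).eq
          (Commute.mul_left (show Commute x γ from xg) (Commute.refl γ)).eq
          (Commute.mul_left (show Commute x (f.φ z0) from xz) γz).eq m fun y => by
            conv_rhs => rw [← tr_tr y, ← h, ← hγ]
            group
        exact ⟨true, o, ho, e, i, hi, j, hj, by rw [← h]; show _ = x * γ * γ; rw [mul_assoc, γ2, mul_one]⟩
    obtain ⟨k, o, ho, e, i, hi, j, hj, h⟩ := h1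
    have h2 : f.D.ι (bp M.T e * (M.W ^ i * M.A ^ j) * bp (Gs s) k) =
        bp f.t e * f.φ (w0 ^ i * a0 ^ j) * bp γ k := by
      simp only [map_mul, map_pow, map_bp, f.iT, f.iW, f.iA, hγd]
    obtain ⟨o1, o2, o3⟩ := (hK o).1 (hO ho)
    refine ⟨o, ho, _, (hm e k i hi j hj).1, (hm e k i hi j hj).2, by rw [h2, h, mul_assoc], ?_⟩
    rw [h2]
    exact ((comm_bp o2 e).mul_right (o1 _)).mul_right (comm_bp o3 k)
  have oo : ∀ o ∈ O, Odd (orderOf o) := fun o ho =>
    Odd.of_dvd_nat hodd (orderOf_dvd_natCard O ho)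
  rw [f.iT, f.iZ]
  refine ⟨O, hodd, fun o ho => ((hK o).1 (hO ho)).1, fun x => ⟨fun ho => ⟨oo x ho,
    ((hK x).1 (hO ho)).2.1, ((hK x).1 (hO ho)).2.2, ((hK x).1 (hO ho)).1 _⟩, fun ⟨h0, xt, xg, xz⟩ => ?_⟩,
    fun x xt xg xz => ?_⟩
  · obtain ⟨o, ho, m, -, -, rfl, hc⟩ := main x xt xg xz
    have h1 : orderOf (f.D.ι m) ∣ orderOf o⁻¹ * orderOf (o * f.D.ι m) := by
      have := ((Commute.refl o).mul_right hc).inv_left.orderOf_mul_dvd_mul_orderOf
      rwa [inv_mul_cancel_left] at this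
    have h2 : orderOf (f.D.ι m) ∣ 2 ^ 7 := orderOf_dvd_of_pow_eq_one (by
      rw [← map_pow, show 2 ^ 7 = Nat.card (M true) from M.card_all.symm, pow_card_eq_one', map_one])
    have h3 : Odd (orderOf (f.D.ι m)) := Odd.of_dvd_nat ((oo _ (inv_mem ho)).mul h0) h1
    rw [orderOf_eq_one_iff.1 (((Nat.coprime_two_right.2 h3).pow_right 7).eq_one_of_dvd h2),
      mul_one]
    exact ho
  · obtain ⟨o, ho, m, h1, h2, h3, -⟩ := main x xt xg xz
    exact ⟨o, ho, m, h1, h2, h3⟩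

end Cfsg.Agent.H62.LtCB
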