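import Cfsg.Agent.H54.O84Defs

/-! The fixed points of a field endomorphism in a parabolic subsystem subgroup. -/

set_option autoImplicit false

namespace Cfsg.Agent.H62.O84E4

open Equiv Cfsg.Lie H37 H40 H34 H34.Cert

universe u

section General

variable {D : ChevalleyDatum} (C : Cert D) {k : Type*} [Field k] [CharP k 2] {F : Type*} [Field F]
  (ι : F →+* k) (φ : k →+* k) (J : Set (Fin D.rank))

/-- The group generated by the root elements over the subfield. -/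
noncomputable def Mg : Subgroup (D.group k) :=
  Subgroup.closure {g | ∃ r ∈ C.S.Phi J, ∃ t, g = C.xg k r (ι t)}

variable {C ι φ J}

omit [CharP k 2] in
theorem xg_mem {r : Fin D.nroots} (hr : r ∈ C.S.Phi J) (t : F) : C.xg k r (ι t) ∈ Mg C ι J :=
  Subgroup.subset_closure ⟨r, hr, t, rfl⟩

omit [CharP k 2] in
theorem hom_xg (r : ℕ) (t : k) : C.V.fieldHom φ (C.xg k r t) = C.xg k r (φ t) :=
  C.V.fieldHom_xE φ r t

omit [CharP k 2] in
theorem ng_mem {j : Fin D.rank} (hj : j ∈ J) (t : F) :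
    C.ng k (D.simple j) (ι t) ∈ Mg C ι J := by
  have hi := C.S.α_mem_Phi hj
  have h1 := fun t => xg_mem (ι := ι) hi t
  have h2 := fun t => xg_mem (ι := ι) (C.S.neg_mem_Phi hi) t
  rw [ng_eq, ← C.simple_val, ← C.neg_val, ← map_inv₀, ← map_neg]
  exact mul_mem (mul_mem (h1 _) (h2 _)) (h1 _)

omit [CharP k 2] in
theorem nWg_mem {l : List (Fin D.rank)} (hl : ∀ i ∈ l, i ∈ J) : C.nWg k l ∈ Mg C ι J := by
  induction l with
  | nil => rw [nWg_nil]; exact one_mem _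
  | cons i l ih =>
    rw [nWg_cons, ← map_one ι]
    exact mul_mem (ng_mem (hl i (by simp)) 1) (ih fun j hj => hl j (by simp [hj]))

variable (hι : ∀ x, φ x = x ↔ ∃ y, ι y = x)
include hι

omit [CharP k 2] in
theorem fix_of_mem {g : D.group k} (hg : g ∈ Mg C ι J) : C.V.fieldHom φ g = g :=
  (show Mg C ι J ≤ (C.V.fieldHom φ).eqLocus (MonoidHom.id _) from (Subgroup.closure_le _).2 (by
    rintro _ ⟨r, -, t, rfl⟩
    show C.V.fieldHom φ _ = _
    rw [hom_xg, (hι _).2 ⟨t, rfl⟩]; rfl)) hg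

omit [CharP k 2] in
theorem tg_mem {c : Fin D.rank → kˣ} (hc : ∀ i ∉ J, c i = 1) (hf : ∀ i, φ (c i) = c i) :
    C.tg k c ∈ Mg C ι J := by
  classical
  have : c ∈ (Mg C ι J).comap (C.tg k) := by
    rw [← Finset.univ_prod_mulSingle c]
    refine Subgroup.prod_mem _ fun i _ => ?_
    by_cases hi : i ∈ J
    · obtain ⟨y, hy⟩ := (hι _).1 (hf i)
      rw [Subgroup.mem_comap, ← hg_simple, hg_eq, ← hy, ← map_one ι, ← map_neg]
      exact mul_mem (ng_mem hi _) (ng_mem hi _)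
    · rw [hc i hi, Pi.mulSingle_one]; exact one_mem _
  exact this

omit [CharP k 2] in
theorem U_mem {A : Set (Fin D.nroots)} (hA : C.S.Cl A) (hJ : ∀ r ∈ A, r ∈ C.S.Phi J)
    {a : D.group k} (ha : a ∈ (C.split k).U A) (hf : C.V.fieldHom φ a = a) : a ∈ Mg C ι J := by
  obtain ⟨L, hL, hLA⟩ := H40.Filt.exists_list (Set.toFinite A)
  obtain ⟨y, hy, rfl⟩ := Split.exists_prod hA hL hLA ha
  refine list_prod_mem fun x hx => ?_
  obtain ⟨r, hr, rfl⟩ := List.mem_map.1 hx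
  have := Split.prod_inj (P := C.split k) hL (fun r hr => hA.pos r ((hLA r).1 hr))
    (y := fun r => C.V.fieldHom φ (y r)) (y' := y)
    (fun r _ => by
      obtain ⟨t, ht⟩ := mem_X.1 (hy r)
      rw [← ht, hom_xg]; exact xg_mem_X _ _) (fun r _ => hy r) (by
      have := map_list_prod (C.V.fieldHom φ) (L.map y)
      rw [List.map_map] at this
      exact this.symm.trans hf) r hr
  obtain ⟨t, ht⟩ := mem_X.1 (hy r)
  simp only [← ht, hom_xg] at this
  obtain ⟨s, hs⟩ := (hι _).1 (xg_injective r.2 this)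
  rw [← ht, ← hs]
  exact xg_mem (hJ r ((hLA r).1 hr)) s

omit hι [CharP k 2] in
theorem hom_U {A : Set (Fin D.nroots)} {a : D.group k} (ha : a ∈ (C.split k).U A) :
    C.V.fieldHom φ a ∈ (C.split k).U A :=
  Split.U_le (K := ((C.split k).U A).comap (C.V.fieldHom φ)) (fun r hr x hx => by
    obtain ⟨t, rfl⟩ := mem_X.1 hx
    rw [Subgroup.mem_comap, hom_xg]; exact Split.mem_U hr (xg_mem_X _ _)) ha

theorem mem_of_fix (hinj : Function.Injective (C.tg k)) {g : D.group k}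
    (hg : g ∈ (C.split k).U (C.S.Phi J)) (hf : C.V.fieldHom φ g = g) : g ∈ Mg C ι J := by
  have hα : ∀ j ∈ J, ∀ t, C.xg k (D.simple j) t ∈ (C.split k).X (C.S.α j) := fun j _ t => by
    rw [← C.simple_val]; exact xg_mem_X _ t
  obtain ⟨K, hK, hK'⟩ := C.exists_K (k := k) J
  obtain ⟨a, ha, n, hn, u, hu, e⟩ := Split.bruhat_K (P := C.split k) J (K := K) (fun n hn => by
    obtain ⟨c, -, w, hw, m, hm, -, rfl⟩ := hK n hn
    exact mul_mem (Split.H_le_N (tg_mem_H c)) (hm.mem_N (C.S.WJ_le_W J hw)).1) (fun n hn => by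
    obtain ⟨c, -, w, hw, m, hm, -, rfl⟩ := hK n hn
    have := hm.mem_N (C.S.WJ_le_W J hw)
    rwa [(C.split k).ν_mul _ (Split.H_le_N (tg_mem_H c)) _ this.1, Split.ν_H (tg_mem_H c), one_mul,
      this.2]) (fun j hj x hx h1 => by
    obtain ⟨t, rfl⟩ := mem_X.1 hx
    have ht : t ≠ 0 := mt (xg_eq_one_iff (Fin.is_lt _)).2 h1
    refine ⟨_, hα j hj t⁻¹, _, hK' j hj t⁻¹ (inv_ne_zero ht), _, hα j hj t⁻¹,
      ν_ng j (inv_ne_zero ht), ?_⟩
    have e1 : ((C.S.neg (C.S.α j) : Fin D.nroots) : ℕ) = D.neg (D.simple j) := by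
      rw [← C.simple_val, ← C.neg_val]; rfl
    rw [ng_eq, inv_inv, CharTwo.neg_eq, e1]
    simp only [mul_assoc, ← xg_add, CharTwo.add_self_eq_zero, xg_zero, mul_one]
    rw [← mul_assoc, ← xg_add, CharTwo.add_self_eq_zero, xg_zero, one_mul]) hg
  obtain ⟨c, hc, w, hw, m, hm, -, rfl⟩ := hK n hn
  have hmN := hm.mem_N (C.S.WJ_le_W J hw)
  have hmM : m ∈ Mg C ι J := by
    obtain ⟨l, hl, rfl⟩ := C.S.mem_WJ_iff.1 hw
    rw [hm.unique (can_nWg l)]; exact nWg_mem hl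
  have hN : ∀ c, C.tg k c * m ∈ (C.split k).N := fun c =>
    mul_mem (Split.H_le_N (tg_mem_H c)) hmN.1
  have hν : ∀ c, (C.split k).ν (C.tg k c * m) = w := fun c => by
    rw [(C.split k).ν_mul _ (Split.H_le_N (tg_mem_H c)) _ hmN.1, Split.ν_H (tg_mem_H c), one_mul,
      hmN.2]
  have hA := (C.split k).cl_inv (C.S.wJ_mem_W J)
  have hmem : ∀ r, r ∈ C.S.inv (C.S.wJ J) ↔ r ∈ C.S.Phi J ∧ C.S.pos r := fun r => by
    rw [C.S.inv_wJ]; rfl
  obtain ⟨b, hb, a', ha', rfl⟩ := Split.dec hA w hu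
  have hb' : a * (C.tg k c * m * b * (C.tg k c * m)⁻¹) ∈ (C.split k).U (C.S.inv (C.S.wJ J)) :=
    mul_mem ha (Split.conj_U (hN c) (fun r hr => (hmem _).2 (by
      rw [hν]; exact ⟨C.S.map_mem_Phi hw ((hmem r).1 hr.1).1, hr.2⟩)) hb)
  have e' : g = a * (C.tg k c * m * b * (C.tg k c * m)⁻¹) * (C.tg k c * m) * a' := by
    rw [e]; group
  generalize a * (C.tg k c * m * b * (C.tg k c * m)⁻¹) = a₁ at hb' e'
  have ha'' : a' ∈ (C.split k).U (C.S.inv w) := Split.U_mono Set.inter_subset_right ha'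
  rw [e', map_mul, map_mul, map_mul, fix_of_mem hι hmM, fieldHom_tg] at hf
  obtain ⟨e1, e2, e3⟩ := Split.bruhat_unique (Split.Uinv_le_Up (hom_U hb')) (hN _)
    ((hν _).symm ▸ hom_U ha'') (Split.Uinv_le_Up hb') (hN c) ((hν _).symm ▸ ha'') hf
  have e4 := hinj (mul_right_cancel e2)
  rw [e']
  refine mul_mem (mul_mem (U_mem hι hA (fun r hr => ((hmem r).1 hr).1) hb' e1)
    (mul_mem (tg_mem hι hc fun i => congrArg Units.val (congrFun e4 i)) hmM))
    (U_mem hι ((C.split k).cl_inv (C.S.WJ_le_W J hw)) (fun r hr => C.S.inv_subset_Phi hw hr) ha'' e3)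

end General

open H54.O84

theorem e4 : E4Stmt.{u} := by
  intro F _ _ hF ι
  have hι : ∀ x : K, iterateFrobenius K 2 2 x = x ↔ ∃ y, ι y = x := fun x => by
    rw [← mem_range_of_pow_card, hF, iterateFrobenius_def]; norm_num
  have hinj : Function.Injective (C8.tg K) := (injective_iff_map_eq_one _).2 fun c hc => by
    simpa using C8.pow_eq_one_of_inv H29.inv8_ok c hc
  refine le_antisymm (fun g hg => mem_of_fix (C := C8) (J := J) hι hinj hg.1 hg.2)
    fun g hg => ⟨?_, fix_of_mem (C := C8) (J := J) hι hg⟩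
  refine (show D4g ι ≤ P8.U Δ0 from (Subgroup.closure_le _).2 ?_) hg
  rintro _ ⟨r, hr, t, rfl⟩
  exact Split.mem_U hr (xg_mem_X _ _)

end Cfsg.Agent.H62.O84E4
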