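import Cfsg.Agent.H54.O84Defs
import Cfsg.Agent.H52.FStar
import Cfsg.Agent.H52.Quasisimple

/-! The generalized Fitting subgroup of an overgroup of a simple group inside its normaliser. -/

set_option autoImplicit false

namespace Cfsg.Agent.H62.O84FinA

open Subgroup

theorem finA : H54.O84.FinAStmt := by
  intro Γ _ _ X H hX hc hXH hN
  have hn : (X.subgroupOf H).Normal := (normal_subgroupOf_iff_le_normalizer hXH).2 hN
  haveI : IsSimpleGroup (X.subgroupOf H) := (subgroupOfEquivOfLe hXH).isSimpleGroup
  have hc' : centralizer (X.subgroupOf H : Set H) = ⊥ := by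
    rw [eq_bot_iff]
    intro g hg
    have : (g : Γ) ∈ centralizer (X : Set Γ) := fun x hx =>
      congrArg Subtype.val (hg ⟨x, hXH hx⟩ hx)
    rw [hc, mem_bot] at this
    exact mem_bot.2 (Subtype.ext this)
  have hL : IsComponent (X.subgroupOf H) :=
    ⟨hn.isSubnormal, H52.isQuasisimple_of_isSimpleGroup fun hab => by
      obtain ⟨a, ha⟩ := exists_ne (1 : X.subgroupOf H)
      exact ha (Subtype.ext (hc'.le (show (a : H) ∈ centralizer (X.subgroupOf H : Set H) from
        fun b hb => congrArg Subtype.val (hab.is_comm.comm ⟨b, hb⟩ a))))⟩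
  refine le_antisymm ?_ (H52.IsComponent.le_fstar hL)
  simpa [hc'] using H52.IsComponent.fstar_le_sup_centralizer hL

end Cfsg.Agent.H62.O84FinA
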