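import Mathlib
import Cfsg.Agent.H71.P3Defs

/-!
Rank three actions of symplectic groups: a subgroup with at most two orbits on points, two on
totally isotropic lines and three on flags is transitive on points.
-/

set_option autoImplicit false

namespace Cfsg.Agent.H62.P3Ca

open Cfsg Module Cfsg.Agent.H27 Cfsg.Agent.H71.P3
open scoped Pointwise

variable {F V : Type} [Field F] [AddCommGroup V] [Module F V]

/-- `K` is transitive on the points with `s` and on the points without `s`. -/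
structure St (K : Subgroup (V ≃ₗ[F] V)) (s : Submodule F V → Prop) : Prop where
  inv : ∀ g ∈ K, ∀ x, s (g • x) ↔ s x
  tr : ∀ x y, dm x = 1 → dm y = 1 → (s x ↔ s y) → ∃ g ∈ K, g • x = y

theorem St.neg {K : Subgroup (V ≃ₗ[F] V)} {s : Submodule F V → Prop} (h : St K s) :
    St K (fun x => ¬ s x) :=
  ⟨fun g hg x => not_congr (h.inv g hg x), fun x y hx hy e => h.tr x y hx hy (not_iff_not.1 e)⟩

theorem ncard_smul (g : V ≃ₗ[F] V) (P Q : Submodule F V → Prop) (h : ∀ x, Q (g • x) ↔ P x) :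
    {x | Q x}.ncard = {x | P x}.ncard := by
  have e : {x | Q x} = (fun x => g • x) '' {x | P x} := by
    ext y
    refine ⟨fun hy => ⟨g⁻¹ • y, (h _).1 (by rwa [smul_inv_smul]), smul_inv_smul g y⟩, ?_⟩
    rintro ⟨x, hx, rfl⟩
    exact (h x).2 hx
  rw [e, Set.ncard_image_of_injective _ (MulAction.injective g)]

theorem St.cnt_smul {K : Subgroup (V ≃ₗ[F] V)} {s : Submodule F V → Prop} (h : St K s)
    {g : V ≃ₗ[F] V} (hg : g ∈ K) (L : Submodule F V) : cnt s (g • L) = cnt s L :=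
  ncard_smul g _ _ fun x => by rw [dm_smul, H71.P3.smul_le_smul, h.inv g hg]

theorem cnt_ne [Finite V] (s : Submodule F V → Prop) (L : Submodule F V) :
    cnt s L ≠ 0 ↔ ∃ x, dm x = 1 ∧ x ≤ L ∧ s x := by
  have : Finite (Submodule F V) := Finite.of_injective _ SetLike.coe_injective
  exact Nat.pos_iff_ne_zero.symm.trans (Set.ncard_pos (Set.toFinite _))

theorem dm_pt {v : V} (hv : v ≠ 0) : dm (F ∙ v) = 1 := finrank_span_singleton hv

theorem pt_eq {x : Submodule F V} (hx : dm x = 1) : ∃ v, v ≠ 0 ∧ x = F ∙ v := by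
  have hb : x ≠ ⊥ := by rintro rfl; simp [dm] at hx
  obtain ⟨v, hv, v0⟩ := (Submodule.ne_bot_iff _).1 hb
  have : FiniteDimensional F x := Module.finite_of_finrank_eq_succ hx
  refine ⟨v, v0, (Submodule.eq_of_le_of_finrank_eq
    ((Submodule.span_singleton_le_iff_mem _ _).2 hv) ?_).symm⟩
  rw [finrank_span_singleton v0]; exact hx.symm

/-- A vector perpendicular to two given vectors and outside the line of the first one. -/
theorem exists_perp [Finite V] (S : Sp F V) (u v : V) :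
    ∃ w, w ∉ (F ∙ u) ∧ S.B u w = 0 ∧ S.B v w = 0 := by
  by_contra! h
  have h1 : S.B.orthogonal (Submodule.span F {u, v}) ≤ F ∙ u := fun w hw => by
    by_contra hn
    exact h w hn (hw u (Submodule.subset_span (by simp))) (hw v (Submodule.subset_span (by simp)))
  have h2 := Submodule.finrank_mono h1
  rw [LinearMap.BilinForm.finrank_orthogonal S.nd, S.dim] at h2
  have h3 : finrank F (F ∙ u) ≤ 1 := by
    simpa using finrank_span_le_card (R := F) ({u} : Set V)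
  have h4 : finrank F (Submodule.span F {u, v}) ≤ 2 := by
    classical
    refine (finrank_span_le_card (R := F) ({u, v} : Set V)).trans ?_
    rw [Set.toFinset_insert, Set.toFinset_singleton]
    exact Finset.card_le_two
  have := S.hk
  omega

theorem mixed_of [Finite V] (S : Sp F V) {s : Submodule F V → Prop} {u v : V} (hu : u ≠ 0)
    (hv : v ≠ 0) (su : s (F ∙ u)) (sv : ¬ s (F ∙ v)) (huv : S.B u v = 0) :
    ∃ L, S.IsLn L ∧ cnt s L ≠ 0 ∧ cnt (fun x => ¬ s x) L ≠ 0 := by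
  have hne : (F ∙ u) ≠ F ∙ v := fun e => sv (e ▸ su)
  have hi : (F ∙ u) ⊓ (F ∙ v) = ⊥ := by
    by_contra hb
    obtain ⟨w, hw, w0⟩ := (Submodule.ne_bot_iff _).1 hb
    have e : ∀ z : V, z ≠ 0 → w ∈ (F ∙ z) → (F ∙ w) = F ∙ z := fun z z0 hz =>
      Submodule.eq_of_le_of_finrank_eq ((Submodule.span_singleton_le_iff_mem _ _).2 hz)
        (by rw [finrank_span_singleton w0, finrank_span_singleton z0])
    exact hne ((e u hu hw.1).symm.trans (e v hv hw.2))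
  refine ⟨(F ∙ u) ⊔ (F ∙ v), ⟨?_, ?_⟩, (cnt_ne _ _).2 ⟨_, dm_pt hu, le_sup_left, su⟩,
    (cnt_ne _ _).2 ⟨_, dm_pt hv, le_sup_right, sv⟩⟩
  · have := Submodule.finrank_sup_add_finrank_inf_eq (F ∙ u) (F ∙ v)
    rw [hi, finrank_bot, finrank_span_singleton hu, finrank_span_singleton hv] at this
    exact this
  · intro x hx y hy
    obtain ⟨_, h1, _, h2, rfl⟩ := Submodule.mem_sup.1 hx
    obtain ⟨_, h3, _, h4, rfl⟩ := Submodule.mem_sup.1 hy
    obtain ⟨a, rfl⟩ := Submodule.mem_span_singleton.1 h1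
    obtain ⟨b, rfl⟩ := Submodule.mem_span_singleton.1 h2
    obtain ⟨c, rfl⟩ := Submodule.mem_span_singleton.1 h3
    obtain ⟨d, rfl⟩ := Submodule.mem_span_singleton.1 h4
    have hvu : S.B v u = 0 := S.alt.isRefl _ _ huv
    simp [S.alt.self_eq_zero, huv, hvu]

theorem mixed [Finite V] (S : Sp F V) {s : Submodule F V → Prop} {u v : V} (hu : u ≠ 0)
    (hv : v ≠ 0) (su : s (F ∙ u)) (sv : ¬ s (F ∙ v)) :
    ∃ L, S.IsLn L ∧ cnt s L ≠ 0 ∧ cnt (fun x => ¬ s x) L ≠ 0 := by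
  obtain ⟨w, hw, h1, h2⟩ := exists_perp S u v
  have w0 : w ≠ 0 := fun e => hw (e ▸ zero_mem _)
  by_cases sw : s (F ∙ w)
  · exact mixed_of S w0 hv sw sv (S.alt.isRefl _ _ h2)
  · exact mixed_of S hu w0 su sw h1

theorem fin2 : ∀ a b c : Fin 2, a ≠ b → c = a ∨ c = b := by decide
theorem fin3 : ∀ a b c d : Fin 3, a ≠ b → a ≠ c → b ≠ c → d = a ∨ d = b ∨ d = c := by decide

/-- Not every totally isotropic line is mixed. -/
theorem pure [Finite F] [Finite V] (div : DivStmt) (S : Sp F V) {K : Subgroup (V ≃ₗ[F] V)}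
    {s : Submodule F V → Prop} (h : St K s) (o3 : S.O3 K 3) {L0 : Submodule F V}
    (h0 : S.IsLn L0) (all : ∀ L, S.IsLn L → cnt s L ≠ 0 ∧ cnt (fun x => ¬ s x) L ≠ 0) :
    False := by
  by_cases hc : ∀ L, S.IsLn L → ∃ g ∈ K, g • L0 = L
  · obtain ⟨E, hE, dE, iE⟩ := div.2.2 S L0 h0
    have e1 := div.1 F V L0 s h0.1
    have ln : ∀ L, L ≤ E → dm L = 2 → S.IsLn L := fun L hL dL =>
      ⟨dL, fun u hu v hv => iE u (hL hu) v (hL hv)⟩
    obtain ⟨-, L, hL, dL, cL⟩ := div.2.1 F V E s (cnt s L0) dE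
      (Nat.one_le_iff_ne_zero.2 (all L0 h0).1) (by have := (all L0 h0).2; omega)
      (fun L hL dL => Or.inr (by
        obtain ⟨g, hg, rfl⟩ := hc L (ln L hL dL)
        exact h.cnt_smul hg L0)) ⟨L0, hE, h0.1, rfl⟩
    exact (all L (ln L hL dL)).1 cL
  push Not at hc
  obtain ⟨L1, h1, hn⟩ := hc
  obtain ⟨x0, d1, l1, s1⟩ := (cnt_ne _ _).1 (all L0 h0).1
  obtain ⟨y0, d2, l2, s2⟩ := (cnt_ne _ _).1 (all L0 h0).2
  obtain ⟨x1, d3, l3, s3⟩ := (cnt_ne _ _).1 (all L1 h1).1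
  obtain ⟨y1, d4, l4, s4⟩ := (cnt_ne _ _).1 (all L1 h1).2
  obtain ⟨c, hc⟩ := o3
  have n1 : ∀ x L y M, S.IsFl x L → S.IsFl y M → s x → ¬ s y → c x L ≠ c y M :=
    fun x L y M a b sx sy e => by
      obtain ⟨g, hg, rfl, -⟩ := hc _ _ _ _ a b e
      exact sy ((h.inv g hg x).2 sx)
  have n2 : ∀ x y, S.IsFl x L0 → S.IsFl y L1 → c x L0 ≠ c y L1 := fun x y a b e => by
    obtain ⟨g, hg, -, e'⟩ := hc _ _ _ _ a b e
    exact hn g hg e'
  have f1 : S.IsFl x0 L0 := ⟨d1, h0, l1⟩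
  have f2 : S.IsFl y0 L0 := ⟨d2, h0, l2⟩
  have f3 : S.IsFl x1 L1 := ⟨d3, h1, l3⟩
  have f4 : S.IsFl y1 L1 := ⟨d4, h1, l4⟩
  rcases fin3 _ _ _ (c y1 L1) (n1 _ _ _ _ f1 f2 s1 s2) (n2 _ _ f1 f3) (n2 _ _ f2 f3) with e | e | e
  · exact n2 _ _ f1 f4 e.symm
  · exact n2 _ _ f2 f4 e.symm
  · exact n1 _ _ _ _ f3 f4 s3 s4 e.symm

/-- A mixed line and a line without `s`-points. -/
theorem core [Finite F] [Finite V] (line : LineStmt) (div : DivStmt) (b1 : B1Stmt) (bq : BqStmt)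
    (S : Sp F V) {K : Subgroup (V ≃ₗ[F] V)} (hK : K ≤ S.G) {s : Submodule F V → Prop}
    (h : St K s) (o2 : S.O2 K 2) (o3 : S.O3 K 3) {L0 L1 : Submodule F V} (h0 : S.IsLn L0)
    (h1 : S.IsLn L1) (m1 : cnt s L0 ≠ 0) (m2 : cnt (fun x => ¬ s x) L0 ≠ 0) (z1 : cnt s L1 = 0) :
    False := by
  have hn : ∀ g ∈ K, g • L0 ≠ L1 := fun g hg e => m1 (by rw [← h.cnt_smul hg L0, e, z1])
  have hall : ∀ L, S.IsLn L → cnt s L = 0 ∨ cnt s L = cnt s L0 := by
    obtain ⟨c, hc⟩ := o2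
    intro L hL
    have ne : c L1 ≠ c L0 := fun e => by
      obtain ⟨g, hg, e'⟩ := hc _ _ h0 h1 e.symm
      exact hn g hg e'
    rcases fin2 _ _ (c L) ne with e | e
    · obtain ⟨g, hg, rfl⟩ := hc _ _ h1 hL e.symm
      exact Or.inl ((h.cnt_smul hg L1).trans z1)
    · obtain ⟨g, hg, rfl⟩ := hc _ _ h0 hL e.symm
      exact Or.inr (h.cnt_smul hg L0)
  have e0 := div.1 F V L0 s h0.1
  have e1 := div.1 F V L1 s h1.1
  obtain ⟨E, hE, dE, iE⟩ := div.2.2 S L0 h0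
  have dv := (div.2.1 F V E s (cnt s L0) dE (Nat.one_le_iff_ne_zero.2 m1) (by omega)
    (fun L hL dL => hall L ⟨dL, fun u hu v hv => iE u (hL hu) v (hL hv)⟩) ⟨L0, hE, h0.1, rfl⟩).1
  obtain ⟨x0, d1, l1, s1⟩ := (cnt_ne _ _).1 m1
  obtain ⟨y0, d2, l2, s2⟩ := (cnt_ne _ _).1 m2
  obtain ⟨y1, d3, l3, s3⟩ := (cnt_ne (fun x => ¬ s x) L1).1 (by omega)
  have tr : ∀ y z, dm y = 1 → y ≤ L0 → dm z = 1 → z ≤ L0 → (s y ↔ s z) →
      ∃ g ∈ K ⊓ MulAction.stabilizer (V ≃ₗ[F] V) L0, g • y = z := by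
    obtain ⟨c, hc⟩ := o3
    have n1 : ∀ x y, S.IsFl x L0 → S.IsFl y L0 → s x → ¬ s y → c x L0 ≠ c y L0 :=
      fun x y a b sx sy e => by
        obtain ⟨g, hg, rfl, -⟩ := hc _ _ _ _ a b e
        exact sy ((h.inv g hg x).2 sx)
    have n2 : ∀ x, S.IsFl x L0 → c x L0 ≠ c y1 L1 := fun x a e => by
      obtain ⟨g, hg, -, e'⟩ := hc _ _ _ _ a ⟨d3, h1, l3⟩ e
      exact hn g hg e'
    have f1 : S.IsFl x0 L0 := ⟨d1, h0, l1⟩
    have f2 : S.IsFl y0 L0 := ⟨d2, h0, l2⟩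
    have k : ∀ y, S.IsFl y L0 → (s y → c y L0 = c x0 L0) ∧ (¬ s y → c y L0 = c y0 L0) := by
      intro y fy
      rcases fin3 _ _ _ (c y L0) (n1 _ _ f1 f2 s1 s2) (n2 _ f1) (n2 _ f2) with e | e | e
      · exact ⟨fun _ => e, fun sy => absurd e.symm (n1 _ _ f1 fy s1 sy)⟩
      · exact ⟨fun sy => absurd e (n1 _ _ fy f2 sy s2), fun _ => e⟩
      · exact absurd e (n2 _ fy)
    intro y z dy ly dz lz e
    have fy : S.IsFl y L0 := ⟨dy, h0, ly⟩
    have fz : S.IsFl z L0 := ⟨dz, h0, lz⟩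
    have ec : c y L0 = c z L0 := by
      by_cases sy : s y
      · rw [(k y fy).1 sy, (k z fz).1 (e.1 sy)]
      · rw [(k y fy).2 sy, (k z fz).2 (fun sz => sy (e.2 sz))]
    obtain ⟨g, hg, a, b⟩ := hc _ _ _ _ fy fz ec
    exact ⟨g, ⟨hg, b⟩, a⟩
  rcases line F V (K ⊓ MulAction.stabilizer (V ≃ₗ[F] V) L0) L0 s S.odd h0.1 (fun g hg => hg.2)
    (fun g hg y _ _ => h.inv g hg.1 y) tr dv with e | e
  · obtain ⟨z0, z00, rfl⟩ := pt_eq d2
    refine b1 S s {y | dm y = 1 ∧ s y ∧ ∀ v ∈ y, S.B v z0 = 0}.ncard ⟨x0, d1, s1⟩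
      (fun L hL => by rcases hall L hL with e' | e' <;> omega) fun z hz sz => ?_
    obtain ⟨g, hg, eg⟩ := h.tr _ _ d2 (dm_pt hz) (iff_of_false s2 sz)
    rw [smul_span] at eg
    obtain ⟨a, ha⟩ := Submodule.span_singleton_eq_span_singleton.1 eg
    refine ncard_smul g _ _ fun x => ?_
    rw [dm_smul, h.inv g hg]
    refine and_congr_right fun _ => and_congr_right fun _ => ⟨fun hx v hv => ?_, ?_⟩
    · have := hx _ (smul_mem_smul.2 hv)
      rw [← ha, Units.smul_def, map_smul, hK hg, smul_eq_mul] at this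
      exact (mul_eq_zero.1 this).resolve_left a.ne_zero
    · rintro hx _ ⟨v, hv, rfl⟩
      rw [← ha, Units.smul_def, map_smul]
      exact (congrArg (fun t => (a : F) • t) ((hK hg v z0).trans (hx v hv))).trans (smul_zero _)
  · obtain ⟨z, z0, hz⟩ := bq S (fun x => ¬ s x) ⟨x0, d1, not_not.2 s1⟩ fun L hL => by
      have := div.1 F V L s hL.1
      rcases hall L hL with e' | e' <;> omega
    obtain ⟨w, hw, bw, -⟩ := exists_perp S z z
    have w0 : w ≠ 0 := fun e => hw (e ▸ zero_mem _)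
    obtain ⟨g, hg, eg⟩ := h.tr _ _ (dm_pt z0) (dm_pt w0)
      (iff_of_false ((hz z z0).2 (S.alt.self_eq_zero z)) ((hz w w0).2 (S.alt.isRefl _ _ bw)))
    rw [smul_span] at eg
    obtain ⟨a, ha⟩ := Submodule.span_singleton_eq_span_singleton.1 eg
    obtain ⟨v, hv, bv⟩ := exists_orth_ne_zero S.nd S.alt.isRefl (F ∙ z) hw
    have v0 : v ≠ 0 := fun e => bv (by simp [e])
    have b2 : S.B v z = 0 := S.alt.isRefl _ _ (hv z (Submodule.mem_span_singleton_self z))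
    have v1 : g⁻¹ v ≠ 0 := by simpa using v0
    have gv : g (g⁻¹ v) = v := g.apply_symm_apply v
    have b3 : S.B (g⁻¹ v) z = 0 := (hz _ v1).1 fun sv => (hz v v0).2 b2 (by
      rw [← gv, ← smul_span]; exact (h.inv g hg _).2 sv)
    refine bv (S.alt.isRefl _ _ ?_)
    rw [← ha, Units.smul_def, map_smul, ← gv, hK hg, b3, smul_zero]

/-- **CA** -/
theorem ca (line : LineStmt) (div : DivStmt) (b1 : B1Stmt) (bq : BqStmt) : CaStmt := by
  intro F V _ _ _ _ _ S K hK o1 o2 o3 u v hu hv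
  by_contra! hn
  let s : Submodule F V → Prop := fun x => ∃ g ∈ K, g • (F ∙ u) = x
  have su : s (F ∙ u) := ⟨1, one_mem _, one_smul _ _⟩
  have sv : ¬ s (F ∙ v) := by
    rintro ⟨g, hg, e⟩
    rw [smul_span] at e
    obtain ⟨c, hc⟩ := Submodule.mem_span_singleton.1
      (e ▸ Submodule.mem_span_singleton_self (g u) : g u ∈ F ∙ v)
    exact hn g hg c hc.symm
  have inv : ∀ g ∈ K, ∀ x, s (g • x) ↔ s x := fun g hg x =>
    ⟨fun ⟨k, hk, e⟩ => ⟨g⁻¹ * k, mul_mem (inv_mem hg) hk, by rw [mul_smul, e, inv_smul_smul]⟩,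
      fun ⟨k, hk, e⟩ => ⟨g * k, mul_mem hg hk, by rw [mul_smul, e]⟩⟩
  have h : St K s := by
    refine ⟨inv, fun x y dx dy e => ?_⟩
    by_cases sx : s x
    · obtain ⟨g, hg, rfl⟩ := sx
      obtain ⟨k, hk, rfl⟩ := e.1 ⟨g, hg, rfl⟩
      exact ⟨k * g⁻¹, mul_mem hk (inv_mem hg), by rw [mul_smul, inv_smul_smul]⟩
    · obtain ⟨c, hc⟩ := o1
      have n : ∀ x, dm x = 1 → ¬ s x → c (F ∙ u) ≠ c x := fun x dx sx e =>
        sx (hc _ _ (dm_pt hu) dx e)
      rcases fin2 _ _ (c y) (n x dx sx) with e' | e'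
      · exact absurd e'.symm (n y dy fun sy => sx (e.2 sy))
      · exact hc _ _ dx dy e'.symm
  obtain ⟨L0, h0, m1, m2⟩ := mixed S hu hv su sv
  by_cases all : ∀ L, S.IsLn L → cnt s L ≠ 0 ∧ cnt (fun x => ¬ s x) L ≠ 0
  · exact pure div S h o3 h0 all
  push Not at all
  obtain ⟨L1, h1, z⟩ := all
  by_cases z1 : cnt s L1 = 0
  · exact core line div b1 bq S hK h o2 o3 h0 h1 m1 m2 z1
  · exact core line div b1 bq S hK h.neg o2 o3 h0 h1 m2 (by simpa using m1) (z z1)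

end Cfsg.Agent.H62.P3Ca
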