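import Cfsg.Agent.H42.PcDefs

/-! Project PC: reduction modulo the solvable radical. -/

set_option autoImplicit false

namespace Cfsg.Agent.H62.PcTop

open Subgroup Cfsg.Agent.H42.Pc

universe u

/-- The restriction of the quotient map to a preimage. -/
def res {G : Type u} [Group G] (K : Subgroup G) [K.Normal] (S : Subgroup (G ⧸ K)) :
    S.comap (QuotientGroup.mk' K) →* S := (QuotientGroup.mk' K).subgroupComap S

theorem res_surj {G : Type u} [Group G] (K : Subgroup G) [K.Normal] (S : Subgroup (G ⧸ K)) :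
    Function.Surjective (res K S) := fun s => by
  obtain ⟨g, hg⟩ := QuotientGroup.mk'_surjective K s
  exact ⟨⟨g, by rw [mem_comap, hg]; exact s.2⟩, Subtype.ext hg⟩

theorem res_ker {G : Type u} [Group G] (K : Subgroup G) [K.Normal] (S : Subgroup (G ⧸ K)) :
    (res K S).ker = K.subgroupOf (S.comap (QuotientGroup.mk' K)) := by
  ext g
  rw [MonoidHom.mem_ker, Subtype.ext_iff, mem_subgroupOf]
  exact QuotientGroup.eq_one_iff (g : G)

theorem le_pre {G : Type u} [Group G] (K : Subgroup G) [K.Normal] (S : Subgroup (G ⧸ K)) :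
    K ≤ S.comap (QuotientGroup.mk' K) := fun g hg => by
  rw [mem_comap, QuotientGroup.mk'_apply, (QuotientGroup.eq_one_iff g).2 hg]
  exact one_mem _

theorem top (quot : QuotStmt.{u}) (soc : SocStmt.{u}) (main : MainStmt.{u}) : TopStmt.{u} := by
  intro G _ _ pp hns
  obtain ⟨K, ⟨hKn, hKs⟩, hmax⟩ := Set.Finite.exists_maximal
    (Set.toFinite {N : Subgroup G | N.Normal ∧ Group.IsSolvable N}) ⟨⊥, inferInstance, inferInstance⟩
  have pre : ∀ N : Subgroup (G ⧸ K), Group.IsSolvable N →
      Group.IsSolvable (N.comap (QuotientGroup.mk' K)) := fun N hN =>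
    Group.isSolvable_of_ker_le_range (inclusion (le_pre K N)) (res K N) (by
      rw [res_ker, inclusion_range])
  haveI : Nontrivial (G ⧸ K) := by
    by_contra h
    rw [not_nontrivial_iff_subsingleton] at h
    exact hns (Group.isSolvable_of_ker_le_range K.subtype (QuotientGroup.mk' K) (by simp))
  obtain ⟨S, hS, h1, h2, h3⟩ := soc (G ⧸ K) (quot G pp K) fun N hN hs => by
    have := hmax (y := N.comap (QuotientGroup.mk' K)) ⟨inferInstance, pre N hs⟩ (le_pre K N)
    rw [eq_bot_iff]
    intro n hn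
    obtain ⟨g, rfl⟩ := QuotientGroup.mk'_surjective K n
    exact (QuotientGroup.eq_one_iff g).2 (this hn)
  have h4 := main (G ⧸ K) (quot G pp K) S h1 h2 h3
  let e : S.comap (QuotientGroup.mk' K) ⧸ K.subgroupOf (S.comap (QuotientGroup.mk' K)) ≃* S :=
    (QuotientGroup.quotientMulEquivOfEq (res_ker K S).symm).trans
      (QuotientGroup.quotientKerEquivOfSurjective _ (res_surj K S))
  have hk : ((QuotientGroup.mk' S).comp (QuotientGroup.mk' K)).ker = S.comap (QuotientGroup.mk' K) := by
    rw [← MonoidHom.comap_ker, QuotientGroup.ker_mk']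
  let e' : G ⧸ S.comap (QuotientGroup.mk' K) ≃* (G ⧸ K) ⧸ S :=
    (QuotientGroup.quotientMulEquivOfEq hk.symm).trans
      (QuotientGroup.quotientKerEquivOfSurjective _
        ((QuotientGroup.mk'_surjective S).comp (QuotientGroup.mk'_surjective K)))
  refine ⟨K, S.comap (QuotientGroup.mk' K), hKn, inferInstance, le_pre K S, hKs,
    Group.isSolvable_of_isSolvable_injective (f := e'.toMonoidHom) e'.injective, e.isSimpleGroup,
    fun h => h2 ⟨⟨fun a b => e.symm.injective ?_⟩⟩⟩
  rw [map_mul, map_mul, h.is_comm.comm]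

end Cfsg.Agent.H62.PcTop
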