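import Cfsg.Agent.H79.R3Defs

/-!
# Project R3, piece CB3: an invariant line spread gives five orbits on line-solid flags
-/

set_option autoImplicit false

namespace Cfsg.Agent.H62.R3Cb3

open Cfsg Module Cfsg.Agent.H79.R3 Submodule
open scoped Pointwise

universe u

variable {F V : Type u} [Field F] [AddCommGroup V] [Module F V] [Finite V]
  {K : Subgroup (V ≃ₗ[F] V)} {t : Submodule F V → Prop} {W : Submodule F V → Submodule F V}

theorem eq_W (h : Bd K t W 1) {x L : Submodule F V} (hx : dm x = 1) (hL : dm L = 2) (e : x ≤ L)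
    (ht : t L) : L = W x :=
  eq_of_le_of_finrank_eq ((h.mem x L hx hL e).1 ht) (hL.trans (h.dim x hx).symm)

omit [Finite V] in
theorem t_W (h : Bd K t W 1) {x : Submodule F V} (hx : dm x = 1) : t (W x) :=
  (h.mem x _ hx (h.dim x hx) (h.le x hx)).2 le_rfl

theorem eq_of_meet (h : Bd K t W 1) {l m : Submodule F V} (hl : dm l = 2) (hm : dm m = 2)
    (tl : t l) (tm : t m) (e : l ⊓ m ≠ ⊥) : l = m := by
  obtain ⟨v, hv, h0⟩ := exists_mem_ne_zero_of_ne_bot e
  exact (eq_W h (finrank_span_singleton h0) hl ((span_singleton_le_iff_mem _ _).2 hv.1) tl).trans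
    (eq_W h (finrank_span_singleton h0) hm ((span_singleton_le_iff_mem _ _).2 hv.2) tm).symm

theorem meet {A B S : Submodule F V} (hA : A ≤ S) (hB : B ≤ S) (h : dm S < dm A + dm B) :
    A ⊓ B ≠ ⊥ := fun e => by
  have h1 := finrank_sup_add_finrank_inf_eq A B
  have h2 : dm (A ⊔ B) ≤ dm S := finrank_mono (sup_le hA hB)
  rw [e, finrank_bot] at h1
  unfold dm at *
  omega

theorem ex_out {A B : Submodule F V} (h : dm A < dm B) : ∃ v ∈ B, v ∉ A :=
  SetLike.not_le_iff_exists.1 fun e => absurd (finrank_mono e) (not_le.2 h)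

theorem dvd_pts [Finite F] (cov : CovStmt.{u}) (h : Bd K t W 1) :
    Nat.card F + 1 ∣ br (Nat.card F) (finrank F V) := by
  classical
  have : Finite (Submodule F V) := Finite.of_injective _ SetLike.coe_injective
  have h1 := cov F V ⊥ ⊤ bot_le
  simp only [dm, finrank_bot, finrank_top, Nat.sub_zero] at h1
  rw [← h1, Set.ncard_eq_toFinset_card, Finset.card_eq_sum_card_image W]
  refine Finset.dvd_sum fun l hl => ?_
  obtain ⟨x, hx, rfl⟩ := Finset.mem_image.1 hl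
  have k : ∀ y : Submodule F V, ∀ D, y ∈ Cov ⊥ D ↔ y ≤ D ∧ dm y = 1 := fun y D => by simp [Cov]
  have hx' := ((k _ _).1 ((Set.Finite.mem_toFinset _).1 hx)).2
  have h2 := cov F V ⊥ (W x) bot_le
  rw [h.dim x hx', show dm (⊥ : Submodule F V) = 0 from finrank_bot F V] at h2
  rw [← Set.ncard_coe_finset, show ((Finset.filter (W · = W x) _ : Finset _) : Set _) = Cov ⊥ (W x)
    from Set.ext fun y => ?_, h2]
  · simp [br, Finset.sum_range_succ, add_comm]
  · simp only [Finset.coe_filter, Set.Finite.mem_toFinset, k, le_top, true_and, Set.mem_ofPred_eq]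
    exact ⟨fun ⟨a, b⟩ => ⟨b ▸ h.le y a, a⟩,
      fun ⟨a, b⟩ => ⟨b, (eq_W h b (h.dim x hx') a (t_W h hx')).symm⟩⟩

/-- A solid with exactly one line of the spread. -/
theorem solid [Finite F] (cov : CovStmt.{u}) (h : Bd K t W 1) (hn : 6 ≤ finrank F V)
    {l E : Submodule F V} (hl : dm l = 2) (tl : t l) (hE : dm E = 3) (le : l ≤ E) :
    ∃ S, E ≤ S ∧ dm S = 4 ∧ ∀ m ≤ S, dm m = 2 → t m → m = l := by
  have : Finite (Submodule F V) := Finite.of_injective _ SetLike.coe_injective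
  have h0 : dm (⊥ : Submodule F V) = 0 := finrank_bot F V
  obtain ⟨x, hx, x0⟩ := ex_out (A := ⊥) (B := l) (by omega)
  obtain ⟨S, ⟨s1, -, s2⟩, s3⟩ := Set.exists_mem_notMem_of_ncard_lt_ncard
    (s := (fun y => E ⊔ W y) '' {y | y ∈ Cov ⊥ E ∧ ¬ y ≤ l}) (t := Cov E ⊤) (by
      refine (Set.ncard_image_le (Set.toFinite _)).trans_lt ((Set.ncard_lt_ncard (t := Cov ⊥ E)
        ⟨fun _ k => k.1, fun k => (k (show F ∙ x ∈ Cov ⊥ E from ⟨bot_le,
          (span_singleton_le_iff_mem _ _).2 (le hx), by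
            rw [h0]; exact finrank_span_singleton x0⟩)).2
          ((span_singleton_le_iff_mem _ _).2 hx)⟩).trans_le ?_)
      rw [cov F V _ _ bot_le, cov F V _ _ le_top, hE, h0]
      refine Finset.sum_le_sum_of_subset (Finset.range_subset_range.2 ?_)
      have : dm (⊤ : Submodule F V) = finrank F V := finrank_top F V
      omega)
  refine ⟨S, s1, by omega, fun m hm dm2 tm => by_contra fun ne => ?_⟩
  obtain ⟨v, hv, v0⟩ := exists_mem_ne_zero_of_ne_bot (meet hm s1 (by omega))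
  have k1 : m ⊓ l = ⊥ := by_contra fun e => ne (eq_of_meet h dm2 hl tm tl e)
  have k2 : ¬ m ≤ E := fun e => meet e le (by omega) k1
  have k3 := finrank_span_singleton (K := F) v0
  refine s3 ⟨F ∙ v, ⟨⟨bot_le, (span_singleton_le_iff_mem _ _).2 hv.2, by rw [h0]; exact k3⟩,
    fun e => v0 ((Submodule.eq_bot_iff _).1 k1 v ⟨hv.1, (span_singleton_le_iff_mem _ _).1 e⟩)⟩, ?_⟩
  change E ⊔ W _ = S
  rw [← eq_W h k3 dm2 ((span_singleton_le_iff_mem _ _).2 hv.1) tm]
  have k4 : dm E < dm (E ⊔ m) := finrank_lt_finrank_of_lt (left_lt_sup.2 k2)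
  exact eq_of_le_of_finrank_le (sup_le s1 hm) (by unfold dm at *; omega)

theorem cb3 (cov : CovStmt.{u}) : Cb3Stmt.{u} := by
  intro F V _ _ _ _ _ K t W m hn h hm ⟨c, _, hc⟩
  rcases hn.eq_or_lt with e | hn
  · have := dvd_pts cov h
    rw [← e, show br (Nat.card F) 5 = (Nat.card F + 1) * (Nat.card F + Nat.card F ^ 3) + 1 by
      simp [br, Finset.sum_range_succ]; ring, Nat.dvd_add_right (dvd_mul_right _ _),
      Nat.dvd_one] at this
    have : 0 < Nat.card F := Nat.card_pos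
    omega
  have hT : dm (⊤ : Submodule F V) = finrank F V := finrank_top F V
  obtain ⟨x, -, x0⟩ := ex_out (A := ⊥) (B := (⊤ : Submodule F V))
    (by rw [show dm ⊥ = 0 from finrank_bot F V]; omega)
  have x1 : dm (F ∙ x) = 1 := finrank_span_singleton x0
  have hl := h.dim _ x1
  have tl := t_W h x1
  have xl := h.le _ x1
  generalize W (F ∙ x) = l at hl tl xl
  obtain ⟨z, -, zl⟩ := ex_out (A := l) (B := ⊤) (by omega)
  have z1 : dm (F ∙ z) = 1 := finrank_span_singleton fun e => zl (e ▸ zero_mem _)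
  have hl' := h.dim _ z1
  have tl' := t_W h z1
  have zl' := h.le _ z1
  generalize W (F ∙ z) = l' at hl' tl' zl'
  have ne : l ≠ l' := fun e => zl (e ▸ zl' (mem_span_singleton_self z))
  have d1 : dm (l ⊔ l') = 4 := by
    have := finrank_sup_add_finrank_inf_eq l l'
    rw [by_contra fun e : ¬ l ⊓ l' = ⊥ => ne (eq_of_meet h hl hl' tl tl' e), finrank_bot] at this
    unfold dm at *; omega
  have d2 : dm (F ∙ x ⊔ F ∙ z) = 2 := by
    rw [dm, finrank_sup_span_singleton fun e => zl (xl e)]; exact congrArg (· + 1) x1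
  have d3 : dm (l ⊔ F ∙ z) = 3 := by
    rw [dm, finrank_sup_span_singleton zl]; exact congrArg (· + 1) hl
  have m2 : l ⊓ (F ∙ x ⊔ F ∙ z) ≠ ⊥ := meet le_sup_left (sup_le_sup_right xl _) (by omega)
  have n2 : ¬ t (F ∙ x ⊔ F ∙ z) := fun e =>
    zl (eq_of_meet h hl d2 tl e m2 ▸ mem_sup_right (mem_span_singleton_self z))
  obtain ⟨S, s1, s2, s3⟩ := solid cov h hn hl tl d3 le_sup_left
  obtain ⟨y, yS, yE⟩ := ex_out (A := l ⊔ F ∙ z) (B := S) (by omega)
  have d5 : dm (F ∙ z ⊔ F ∙ y) = 2 := by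
    rw [dm, finrank_sup_span_singleton fun e => yE (mem_sup_right e)]; exact congrArg (· + 1) z1
  have m5 : l ⊓ (F ∙ z ⊔ F ∙ y) = ⊥ := by
    have := finrank_sup_add_finrank_inf_eq l (F ∙ z ⊔ F ∙ y)
    rw [← sup_assoc, finrank_sup_span_singleton yE] at this
    exact finrank_eq_zero.1 (by unfold dm at *; omega)
  have l5 : F ∙ z ⊔ F ∙ y ≤ S :=
    sup_le (le_sup_right.trans s1) ((span_singleton_le_iff_mem _ _).2 yS)
  have n5 : ¬ t (F ∙ z ⊔ F ∙ y) := fun e =>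
    zl (s3 _ l5 d5 e ▸ mem_sup_left (mem_span_singleton_self z))
  have lS : l ≤ S := le_sup_left.trans s1
  have l4 : F ∙ x ⊔ F ∙ z ≤ S := (sup_le_sup_right xl _).trans s1
  have l2 : F ∙ x ⊔ F ∙ z ≤ l ⊔ l' := sup_le_sup xl zl'
  have i1 : ∀ {A B A' B'}, A ≤ B → dm A = 2 → dm B = 4 → A' ≤ B' → dm A' = 2 → dm B' = 4 → t A →
      ¬ t A' → (c A B : ℕ) ≠ c A' B' := fun a1 a2 a3 b1 b2 b3 k k' e => by
    obtain ⟨g, hg, rfl, -⟩ := (hc _ _ _ _ a1 a2 a3 b1 b2 b3).1 (Fin.ext e)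
    exact k' ((h.inv g hg _ a2).2 k)
  have i2 : ∀ {A A'}, A ≤ l ⊔ l' → dm A = 2 → A' ≤ S → dm A' = 2 →
      (c A (l ⊔ l') : ℕ) ≠ c A' S := fun a1 a2 b1 b2 e => by
    obtain ⟨g, hg, -, k⟩ := (hc _ _ _ _ a1 a2 d1 b1 b2 s2).1 (Fin.ext e)
    exact ne (MulAction.injective g ((s3 _ (k ▸ smul_le_smul.2 le_sup_left)
      ((dm_smul g _).trans hl) ((h.inv g hg _ hl).2 tl)).trans (s3 _ (k ▸ smul_le_smul.2 le_sup_right)
      ((dm_smul g _).trans hl') ((h.inv g hg _ hl').2 tl')).symm))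
  have i3 : (c (F ∙ z ⊔ F ∙ y) S : ℕ) ≠ c (F ∙ x ⊔ F ∙ z) S := fun e => by
    obtain ⟨g, hg, k1, k⟩ := (hc _ _ _ _ l5 d5 s2 l4 d2 s2).1 (Fin.ext e)
    refine m2 ?_
    rw [← k1, ← s3 (g • l) (k ▸ smul_le_smul.2 lS) ((dm_smul g _).trans hl)
      ((h.inv g hg _ hl).2 tl), ← smul_inf, m5, H79.R3.smul_bot]
  have := i1 le_sup_left hl d1 l2 d2 d1 tl n2
  have := i1 lS hl s2 l4 d2 s2 tl n2
  have := i1 lS hl s2 l5 d5 s2 tl n5
  have := i2 le_sup_left hl lS hl
  have := i2 le_sup_left hl l4 d2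
  have := i2 le_sup_left hl l5 d5
  have := i2 l2 d2 lS hl
  have := i2 l2 d2 l4 d2
  have := i2 l2 d2 l5 d5
  have := (c l (l ⊔ l')).2
  have := (c (F ∙ x ⊔ F ∙ z) (l ⊔ l')).2
  have := (c l S).2
  have := (c (F ∙ x ⊔ F ∙ z) S).2
  have := (c (F ∙ z ⊔ F ∙ y) S).2
  omega

end Cfsg.Agent.H62.R3Cb3
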