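import Cfsg.Agent.H77.SgDefs

/-! Project SG (S5636), piece NOF: no alternating trilinear form without singular lines. -/

set_option autoImplicit false

namespace Cfsg.Agent.H62.SgNof

open MvPolynomial Matrix

universe u v

theorem adj_rel {ι R : Type*} [Fintype ι] [DecidableEq ι] [CommRing R] (A : Matrix ι ι R)
    (x : ι → R) (h : A *ᵥ x = 0) (i j k : ι) : A.adjugate k j * x i = x k * A.adjugate i j := by
  let A' := A.updateRow j (Pi.single k 1)
  have h1 : A' *ᵥ x = Pi.single j (x k) := by
    ext l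
    by_cases e : l = j
    · subst e; simp [A', Matrix.mulVec]
    · have := congrFun h l
      simp only [Matrix.mulVec] at this
      simp [A', Matrix.mulVec, Matrix.updateRow_ne e, e, this]
  have h2 := congrFun (Matrix.mulVec_mulVec x A'.adjugate A') i
  rw [h1, Matrix.adjugate_mul, Matrix.mulVec_single, Matrix.smul_mulVec, Matrix.one_mulVec] at h2
  have h3 : A'.adjugate i j = A.adjugate i j := by
    rw [Matrix.adjugate_apply, Matrix.adjugate_apply, Matrix.updateRow_idem]
  rw [Matrix.adjugate_apply A k j, mul_comm (x k), ← h3]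
  simpa using h2.symm

theorem no_form {F : Type u} [Field F] [Fintype F] {ι : Type*} [Fintype ι] [DecidableEq ι]
    (hn : 4 ≤ Fintype.card ι) (t : ι → ι → ι → F) (s1 : ∀ i j k, t k j i = -t i j k)
    (s2 : ∀ i j k, t i k j = -t i j k) (s3 : ∀ i j, t i j i = 0)
    (nd : ∀ a w : ι → F, a ≠ 0 → (∀ k, ∑ j, (∑ i, t i k j * a i) * w j = 0) → ∃ c : F, w = c • a) :
    False := by
  classical
  let A : Matrix ι ι (MvPolynomial ι F) := Matrix.of fun j k => ∑ i, C (t i j k) * X i
  have hA : A *ᵥ X = 0 := by
    funext j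
    simp only [Matrix.mulVec, dotProduct, A, Matrix.of_apply, Finset.sum_mul, Pi.zero_apply]
    rw [← Finset.sum_product']
    refine Finset.sum_involution (fun p _ => p.swap) (fun p _ => ?_) (fun p _ h e => h ?_)
      (fun p _ => by simp) (fun p _ => rfl)
    · simp only [Prod.fst_swap, Prod.snd_swap]
      rw [s1 p.1 j p.2, map_neg]
      ring
    · have : p.2 = p.1 := congrArg Prod.fst e
      rw [this, s3]; simp
  have hT : Aᵀ = (-1 : MvPolynomial ι F) • A := by
    ext1 j k
    simp only [A, transpose_apply, Matrix.of_apply, s2 _ j k, map_neg, neg_mul,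
      Finset.sum_neg_distrib, Matrix.smul_apply, smul_eq_mul, one_mul]
  obtain ⟨ε, hB⟩ : ∃ ε : MvPolynomial ι F, ∀ j k, A.adjugate j k = ε * A.adjugate k j :=
    ⟨(-1) ^ (Fintype.card ι - 1), fun j k => by
      rw [← transpose_apply A.adjugate k j, Matrix.adjugate_transpose, hT, Matrix.adjugate_smul,
        Matrix.smul_apply, smul_eq_mul]⟩
  obtain ⟨o, i, hi⟩ : ∃ o i : ι, o ≠ i := Fintype.exists_pair_of_one_lt_card (by omega)
  have rel := adj_rel A X hA
  have dv : ∀ p : MvPolynomial ι F, X o ∣ p * X i → X o ∣ p := fun p h =>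
    (X_prime.dvd_or_dvd h).resolve_right (by rw [X_dvd_X]; exact hi)
  obtain ⟨ν, hν⟩ := dv (A.adjugate o o) ⟨_, rel i o o⟩
  have h1 : ∀ k, A.adjugate k o = X k * ν := fun k =>
    mul_left_cancel₀ (X_ne_zero o) (by rw [← rel k o o, hν]; ring)
  obtain ⟨μ, hμ⟩ := dv (ε * ν) (dv _ ⟨A.adjugate i i, by
    rw [← rel i i o, hB o i, h1 i]; ring⟩)
  have h2 : ∀ j, A.adjugate j j = X j ^ 2 * μ := fun j =>
    mul_left_cancel₀ (X_ne_zero o) (by
      rw [← rel j j o, hB o j, h1 j]; linear_combination X j ^ 2 * hμ)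
  have h3 : ∀ a : ι → F, a ≠ 0 → eval a μ ≠ 0 := by
    intro a ha h
    obtain ⟨j, hj⟩ := Function.ne_iff.1 ha
    have hj : a j ≠ 0 := hj
    have e1 := congrArg (eval a) (h2 j)
    rw [map_mul, h, mul_zero, Matrix.adjugate_apply, RingHom.map_det,
      ← Matrix.exists_mulVec_eq_zero_iff] at e1
    obtain ⟨w, w0, hw⟩ := e1
    have e2 : w j = 0 := by
      simpa [Matrix.mulVec, dotProduct, Pi.single_apply, apply_ite (eval a)] using congrFun hw j
    have e3 : ∀ k, k ≠ j → ∑ l, (∑ i, t i k l * a i) * w l = 0 := fun k hk => by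
      simpa [Matrix.mulVec, dotProduct, Matrix.updateRow_ne hk, A] using congrFun hw k
    have e4 : ∑ k, a k * ∑ l, (∑ i, t i k l * a i) * w l = 0 := by
      have : ∀ l, ∑ k, (∑ i, t i l k * a i) * a k = 0 := fun l => by
        simpa [Matrix.mulVec, dotProduct, A] using congrArg (eval a) (congrFun hA l)
      simp only [Finset.mul_sum]
      rw [Finset.sum_comm]
      refine Finset.sum_eq_zero fun l _ => ?_
      rw [← mul_zero (-w l), ← this l, Finset.mul_sum]
      refine Finset.sum_congr rfl fun k _ => ?_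
      simp only [s2 _ l k, neg_mul, Finset.sum_neg_distrib]; ring
    rw [Finset.sum_eq_single j (fun k _ hk => by rw [e3 k hk, mul_zero]) (by simp),
      mul_eq_zero] at e4
    obtain ⟨c, e⟩ := nd a w ha (fun k => by
      by_cases hk : k = j
      · rw [hk]; exact e4.resolve_left hj
      · exact e3 k hk)
    rw [e, Pi.smul_apply, smul_eq_mul, mul_eq_zero] at e2
    exact w0 (by rw [e, e2.resolve_right hj, zero_smul])
  have h4 : (A.adjugate o o).IsHomogeneous (Fintype.card ι - 1) := by
    rw [Matrix.adjugate_apply, Matrix.det_apply']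
    refine IsHomogeneous.sum _ _ _ fun σ _ => ?_
    rw [← map_intCast (C : F →+* MvPolynomial ι F)]
    refine IsHomogeneous.C_mul ?_ _
    have : Fintype.card ι - 1 = ∑ k : ι, if σ k = o then 0 else 1 := by
      rw [Equiv.sum_comp σ (fun l => if l = o then 0 else 1), Finset.sum_ite]
      simp [Finset.filter_ne', Finset.card_erase_of_mem]
    rw [this]
    refine IsHomogeneous.prod _ _ _ fun k _ => ?_
    split_ifs with e
    · rw [e, Matrix.updateRow_self, Pi.single_apply]
      split_ifs
      exacts [isHomogeneous_one _ _, isHomogeneous_zero _ _ _]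
    · rw [Matrix.updateRow_ne e]
      exact IsHomogeneous.sum _ _ _ fun l _ => (isHomogeneous_X _ _).C_mul _
  have μ0 : μ ≠ 0 := fun e => h3 (fun _ => 1) (fun e' => one_ne_zero (congrFun e' o)) (by simp [e])
  have h5 := h4.totalDegree_le
  rw [h2 o, totalDegree_mul_of_isDomain (pow_ne_zero _ (X_ne_zero o)) μ0, totalDegree_X_pow] at h5
  have h6 : eval 0 μ = 0 := by
    have := h4.coeff_eq_zero (d := Finsupp.single o 2 + 0) (by simp; omega)
    rw [h2 o, X_pow_eq_monomial, coeff_monomial_mul, one_mul] at this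
    simpa [constantCoeff_eq] using this
  have h7 := char_dvd_card_solutions (ringChar F) (f := μ) (by omega)
  have : Fintype.card {x : ι → F // eval x μ = 0} = 1 :=
    Fintype.card_eq_one_iff.2 ⟨⟨0, h6⟩, fun y => Subtype.ext (by_contra fun e => h3 y e y.2)⟩
  rw [this, Nat.dvd_one] at h7
  exact CharP.ringChar_ne_one h7

theorem nof : Cfsg.Agent.H77.Sg.NoFormStmt.{u, v} := by
  intro F V _ _ _ _ _ f hn a1 a2 nd
  haveI := Fintype.ofFinite F
  have s1 : ∀ x y z, f y x z = -f x y z := fun x y z => by
    have := a1 (x + y) z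
    simp only [map_add, LinearMap.add_apply, a1] at this
    linear_combination this
  have s2 : ∀ x y z, f x z y = -f x y z := fun x y z => by
    have := a2 x (y + z)
    simp only [map_add, LinearMap.add_apply, a2] at this
    linear_combination this
  let e := Module.finBasis F V
  refine no_form (by simpa using hn) (fun i j k => f (e i) (e j) (e k))
    (fun i j k => by rw [s1 (e j), s2 (e j), s1 (e i), neg_neg]) (fun _ _ _ => s2 _ _ _)
    (fun i j => by rw [s2, a1, neg_zero]) fun a w ha hw => ?_
  have inj := e.equivFun.symm.injective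
  have hx : e.equivFun.symm a ≠ 0 := fun b => ha (inj (b.trans (map_zero _).symm))
  by_contra hc
  have hy : e.equivFun.symm w ∉ F ∙ e.equivFun.symm a := fun h => by
    obtain ⟨c, hc'⟩ := Submodule.mem_span_singleton.1 h
    exact hc ⟨c, inj (by rw [map_smul, hc'])⟩
  obtain ⟨z, hz⟩ := nd _ _ hx hy
  apply hz
  rw [s2, neg_eq_zero, ← e.sum_equivFun z, map_sum, LinearMap.sum_apply]
  refine Finset.sum_eq_zero fun k _ => ?_
  rw [map_smul, LinearMap.smul_apply, smul_eq_mul]
  refine mul_eq_zero_of_right _ ?_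
  rw [← hw k, Module.Basis.equivFun_symm_apply e w, Module.Basis.equivFun_symm_apply e a]
  simp only [map_sum, map_smul, LinearMap.sum_apply, LinearMap.smul_apply, smul_eq_mul]
  refine Finset.sum_congr rfl fun j _ => ?_
  rw [mul_comm]
  congr 1
  exact Finset.sum_congr rfl fun i _ => mul_comm _ _

end Cfsg.Agent.H62.SgNof
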