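import Cfsg.Agent.H58.SWDefs

/-! Project SW: an `r`-group modulo scalars normalised by the transvections of `SU₂(q)` is scalar. -/

set_option autoImplicit false
open Matrix Cfsg

namespace Cfsg.Agent.H62.SwNgu2

open Cfsg.Agent.H58.SW

theorem real {K : Type} [Field K] (σ : K →+* K) (hσ : ∀ a, σ (σ a) = a) {l a : K}
    (hl : l * σ l = -1) (X : Matrix (Fin 2) (Fin 2) K) (hX : (X.map σ)ᵀ * X = 1) :
    X.det * σ X.det = 1 ∧ ∀ i j, X.det * σ ((!![σ a, σ l * a; -1, -σ l] * X * !![1, a; l, l * σ a]) i j) =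
      -(!![σ a, σ l * a; -1, -σ l] * X * !![1, a; l, l * σ a]) i j := by
  have e1 := congrFun (congrFun hX 0) 0
  have e2 := congrFun (congrFun hX 0) 1
  have e3 := congrFun (congrFun hX 1) 0
  have e4 := congrFun (congrFun hX 1) 1
  simp only [Matrix.mul_apply, Fin.sum_univ_two, transpose_apply, map_apply, one_apply_eq,
    one_apply_ne (show (0 : Fin 2) ≠ 1 by decide), one_apply_ne (show (1 : Fin 2) ≠ 0 by decide)]
    at e1 e2 e3 e4
  have hx : X.det * σ (X 0 0) = X 1 1 := by
    rw [det_fin_two]; linear_combination X 1 1 * e1 - X 1 0 * e2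
  have hz : X.det * σ (X 1 0) = -X 0 1 := by
    rw [det_fin_two]; linear_combination X 0 0 * e2 - X 0 1 * e1
  have hy : X.det * σ (X 0 1) = -X 1 0 := by
    rw [det_fin_two]; linear_combination X 1 1 * e3 - X 1 0 * e4
  have hw : X.det * σ (X 1 1) = X 0 0 := by
    rw [det_fin_two]; linear_combination X 0 0 * e4 - X 0 1 * e3
  refine ⟨?_, fun i j => ?_⟩
  · conv_lhs => rw [mul_comm, det_fin_two X, map_sub, map_mul, map_mul, ← det_fin_two]
    linear_combination σ (X 1 1) * hx - σ (X 0 1) * hz + e4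
  · fin_cases i <;> fin_cases j <;>
      simp [Matrix.mul_apply, Fin.sum_univ_two, hσ, vecMul, dotProduct] <;> grind

theorem scal {K : Type} [Field K] (F0 : Subfield K) (y : Matrix (Fin 2) (Fin 2) F0) (c : K)
    (h : F0.subtype.mapMatrix y = c • 1) : ∃ a : F0, y = a • 1 := by
  refine ⟨y 0 0, Matrix.ext fun i j => Subtype.ext ?_⟩
  have h1 := congrFun (congrFun h i) j
  have h2 := congrFun (congrFun h 0) 0
  by_cases e : i = j
  · subst e
    simp at h1 h2 ⊢
    exact Subtype.ext (h1.trans h2.symm)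
  · simpa [one_apply_ne e] using h1

theorem ngu2 (hKA : KAStmt) (hN : NglStmt) : Ngu2Stmt := by
  intro K _ _ _ ι _ _ p r q hp hr hrp hq hι h4 _ R hU hP hT
  replace h4 := h4 hι
  have ka := hKA K 3 ⟨true, q, p, CharP.char_is_prime K p, hp, by simpa using hq, by norm_num,
    by omega, fun _ h => by omega⟩
  let σ : K →+* K :=
    { toFun := (· ^ q), map_one' := one_pow q, map_mul' := fun a b => mul_pow a b q
      map_zero' := zero_pow (by omega), map_add' := ka.fr_add rfl }
  have hσ : ∀ a, σ (σ a) = a := ka.fr_fr rfl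
  have σq : ∀ a, a ^ q = σ a := fun _ => rfl
  obtain ⟨a, ha⟩ : ∃ a, σ a ≠ a := ka.fr_ne rfl
  obtain ⟨l, hl⟩ : ∃ l : K, l ^ (q + 1) = -1 :=
    ka.nsurj rfl (-1) (show σ (-1) = -1 by simp) (by simp)
  rw [pow_succ', σq] at hl
  obtain ⟨F0, hc, hF⟩ : ∃ F0 : Subfield K, Nat.card F0 = q ∧ ∀ a, a ∈ F0 ↔ σ a = a := ka.fx rfl
  have hω : σ a - a ≠ 0 := sub_ne_zero.2 ha
  have σω : σ (σ a - a) = -(σ a - a) := by rw [map_sub, hσ, neg_sub]
  let ρ := Matrix.reindexAlgEquiv K K (Fintype.equivFinOfCardEq hι)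
  let P : Matrix (Fin 2) (Fin 2) K := !![1, a; l, l * σ a]
  let N : Matrix (Fin 2) (Fin 2) K := !![σ a, σ l * a; -1, -σ l]
  have h1 : (σ a - a)⁻¹ • N * P = 1 := by
    rw [smul_mul_assoc, inv_smul_eq_iff₀ hω]
    ext i j
    fin_cases i <;> fin_cases j <;> simp [N, P, Matrix.mul_apply, Fin.sum_univ_two] <;> grind
  have h2 : P * (σ a - a)⁻¹ • N = 1 := mul_eq_one_comm.1 h1
  let g : GL (Fin 2) K := ⟨P, (σ a - a)⁻¹ • N, h2, h1⟩
  let Φ : Matrix ι ι K ≃ₐ[K] Matrix (Fin 2) (Fin 2) K :=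
    ρ.trans (MulSemiringAction.toAlgEquiv K _ (ConjAct.toConjAct g⁻¹))
  have hΦ : ∀ x, Φ x = (σ a - a)⁻¹ • N * ρ x * P := fun x => rfl
  have hΨ : ∀ y, Φ.symm y = ρ.symm (P * y * (σ a - a)⁻¹ • N) := fun y => by
    rw [AlgEquiv.symm_apply_eq, hΦ, AlgEquiv.apply_symm_apply, ← mul_assoc, ← mul_assoc, h1, one_mul,
      mul_assoc, h1, mul_one]
  let m := F0.subtype.mapMatrix (m := Fin 2)
  let R0 : Subgroup (GL (Fin 2) F0) :=
    { carrier := {y | ∃ x ∈ R, ∃ b : K, b ≠ 0 ∧ m y = b • Φ x}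
      one_mem' := ⟨1, one_mem _, 1, one_ne_zero, by simp⟩
      mul_mem' := by
        rintro y y' ⟨x, hx, b, hb, e⟩ ⟨x', hx', b', hb', e'⟩
        exact ⟨x * x', mul_mem hx hx', b * b', mul_ne_zero hb hb', by
          rw [Units.val_mul, Units.val_mul, map_mul, map_mul, e, e', smul_mul_smul_comm]⟩
      inv_mem' := by
        rintro y ⟨x, hx, b, hb, e⟩
        refine ⟨x⁻¹, inv_mem hx, b⁻¹, inv_ne_zero hb, ?_⟩
        refine left_inv_eq_right_inv (a := m y) (by rw [← map_mul, Units.inv_mul, map_one]) ?_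
        rw [e, smul_mul_smul_comm, ← map_mul, Units.mul_inv, map_one, mul_inv_cancel₀ hb, one_smul] }
  have := Fintype.ofFinite F0
  have key := hN F0 (Fin 2) p r inferInstance hr hrp (by simp)
    (fun _ => by rw [← Nat.card_eq_fintype_card, hc]; exact h4) R0 (by
      rintro y ⟨x, hx, b, -, e⟩
      obtain ⟨k, c, hk⟩ := hP x hx
      refine ⟨k, scal F0 _ (b ^ r ^ k * c) ?_⟩
      rw [Units.val_pow_eq_pow_val] at hk ⊢
      rw [map_pow, e, smul_pow, ← map_pow, hk, map_smul, map_one, smul_smul]) (by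
      rintro t i j c hij ht y ⟨x, hx, b, hb, e⟩
      let Ψ : GL (Fin 2) F0 →* GL ι K := Units.map (Φ.symm.toMonoidHom.comp m.toMonoidHom)
      let s : GL ι K := Ψ t
      have hs : ∀ t : GL (Fin 2) F0, Φ (Ψ t : GL ι K) = m t := fun t => Φ.apply_symm_apply _
      refine ⟨s * x * s⁻¹, ?_, b, hb, by
        rw [← map_inv]
        simp only [Units.val_mul, map_mul, s, hs, e, mul_smul_comm, smul_mul_assoc]⟩
      have hc : σ c = c := (hF _).1 c.2
      have h3 : (s : Matrix ι ι K) =
          1 + ρ.symm (P * single i j (c : K) * (σ a - a)⁻¹ • N) := by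
        show Φ.symm (m t) = _
        rw [ht, transvection, map_add, map_one, map_add, map_one, hΨ]
        congr 4
        ext u v
        by_cases e' : i = u ∧ j = v <;> simp [m, single_apply, e']
      fin_cases i <;> fin_cases j
      · exact absurd rfl hij
      · refine hT s (fun u => ![1, l] (Fintype.equivFinOfCardEq hι u)) (-c / (σ a - a)) ?_ ?_ ?_ x hx
        · rw [Equiv.sum_comp _ fun u => ![1, l] u * ![1, l] u ^ q]
          simp [σq, hl]
        · rw [σq, map_div₀, map_neg, hc, σω, div_neg]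
        · rw [h3]
          congr 1
          ext u v
          simp only [ρ, symm_reindexAlgEquiv, coe_reindexAlgEquiv, reindex_apply, submatrix_apply,
            Equiv.symm_symm, Matrix.smul_apply, vecMulVec_apply, σq]
          generalize Fintype.equivFinOfCardEq hι u = u'
          generalize Fintype.equivFinOfCardEq hι v = v'
          fin_cases u' <;> fin_cases v' <;>
            simp [N, P, Matrix.mul_apply, Fin.sum_univ_two, vecMul, dotProduct] <;> ring
      · refine hT s (fun u => ![a, l * σ a] (Fintype.equivFinOfCardEq hι u)) (c / (σ a - a)) ?_ ?_ ?_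
          x hx
        · rw [Equiv.sum_comp _ fun u => ![a, l * σ a] u * ![a, l * σ a] u ^ q]
          simp [σq, hσ]
          linear_combination (a * σ a) * hl
        · rw [σq, map_div₀, hc, σω, div_neg]
        · rw [h3]
          congr 1
          ext u v
          simp only [ρ, symm_reindexAlgEquiv, coe_reindexAlgEquiv, reindex_apply, submatrix_apply,
            Equiv.symm_symm, Matrix.smul_apply, vecMulVec_apply, σq]
          generalize Fintype.equivFinOfCardEq hι u = u'
          generalize Fintype.equivFinOfCardEq hι v = v'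
          fin_cases u' <;> fin_cases v' <;>
            simp [N, P, Matrix.mul_apply, Fin.sum_univ_two, hσ, vecMul, dotProduct] <;> ring
      · exact absurd rfl hij)
  intro x hx
  obtain ⟨d1, d2⟩ := real σ hσ (a := a) hl (ρ x) (by
    have := congrArg ρ (hU x hx)
    rwa [map_mul, map_one] at this)
  obtain ⟨b, hb, hb'⟩ : ∃ b, b ≠ 0 ∧ σ b = (ρ x).det * b :=
    ka.h90 rfl _ (by rw [pow_succ']; exact d1)
  let y : Matrix (Fin 2) (Fin 2) F0 := fun i j => ⟨(b • Φ x) i j, (hF _).2 (by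
    rw [hΦ, smul_mul_assoc, smul_mul_assoc, Matrix.smul_apply, Matrix.smul_apply, smul_eq_mul, smul_eq_mul, map_mul,
      map_mul, map_inv₀, σω, hb', inv_neg]
    linear_combination (-b * (σ a - a)⁻¹) * d2 i j)⟩
  have hy : m y = b • Φ x := rfl
  have hd : y.det ≠ 0 := fun h => by
    have h3 := F0.subtype.map_det y
    rw [h, map_zero, show F0.subtype.mapMatrix y = _ from hy, det_smul, eq_comm, mul_eq_zero] at h3
    exact h3.elim (pow_ne_zero _ hb) (det_ne_zero_of_right_inverse (B := Φ (x⁻¹ : GL ι K)) (by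
      rw [← map_mul, Units.mul_inv, map_one]))
  obtain ⟨c, hc'⟩ := key (GeneralLinearGroup.mkOfDetNeZero y hd) ⟨x, hx, b, hb, hy⟩
  replace hc' : y = c • 1 := hc'
  refine ⟨b⁻¹ * c, Φ.injective ?_⟩
  rw [map_smul, map_one, mul_smul, eq_inv_smul_iff₀ hb, ← hy, hc']
  ext i j
  by_cases e : i = j <;> simp [m, one_apply, e]

end Cfsg.Agent.H62.SwNgu2
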